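import Cfsg.Agent.Lib.Lev.Defs

/-! Block triangular maps (plans/LEV.md). -/

set_option autoImplicit false
set_option linter.unusedSectionVars false

namespace CfsgLib.Lev

open Module Polynomial Submodule
open scoped Pointwise

variable {F : Type*} [Field F] {V : Type*} [AddCommGroup V] [Module F V] [FiniteDimensional F V]
  {U : Type*} [AddCommGroup U] [Module F U] [FiniteDimensional F U]
  {U' : Type*} [AddCommGroup U'] [Module F U'] [FiniteDimensional F U']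

theorem exists_blk {A : End F V} {W W' : Submodule F V} (hW : ∀ x ∈ W, A x ∈ W) (hc : IsCompl W W') :
    ∃ A₂ : End F W', Blk (prodEquivOfIsCompl W W' hc).symm A (A.restrict hW) A₂ ∧ ∀ y : W', A y - A₂ y ∈ W := by
  have h1 : ∀ u : W, (prodEquivOfIsCompl W W' hc).symm (A u) = (A.restrict hW u, 0) := fun u =>
    prodEquivOfIsCompl_symm_apply_left W W' hc (A.restrict hW u)
  refine ⟨LinearMap.snd F W W' ∘ₗ (prodEquivOfIsCompl W W' hc).symm.toLinearMap ∘ₗ A ∘ₗ W'.subtype,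
    ⟨fun u => by simpa using h1 u, fun x => ?_⟩, fun y => ?_⟩
  · obtain ⟨⟨u, w⟩, rfl⟩ := (prodEquivOfIsCompl W W' hc).surjective x
    rw [LinearEquiv.symm_apply_apply, coe_prodEquivOfIsCompl', map_add, map_add, h1]
    simp
  · obtain ⟨⟨u, w⟩, h⟩ := (prodEquivOfIsCompl W W' hc).surjective (A y)
    have : (prodEquivOfIsCompl W W' hc).symm (A y) = (u, w) := by rw [← h, LinearEquiv.symm_apply_apply]
    change A y - ((prodEquivOfIsCompl W W' hc).symm (A y)).2 ∈ W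
    rw [this, ← h, coe_prodEquivOfIsCompl']
    simp

theorem dir_of_compl {A : End F V} {W W' : Submodule F V} (hW : ∀ x ∈ W, A x ∈ W) (hW' : ∀ x ∈ W', A x ∈ W')
    (hc : IsCompl W W') : Dir (prodEquivOfIsCompl W W' hc).symm A (A.restrict hW) (A.restrict hW') := by
  intro x
  obtain ⟨⟨u, w⟩, rfl⟩ := (prodEquivOfIsCompl W W' hc).surjective x
  rw [LinearEquiv.symm_apply_apply, LinearEquiv.symm_apply_eq, coe_prodEquivOfIsCompl', coe_prodEquivOfIsCompl', map_add]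
  rfl

theorem Dir.blk {e : V ≃ₗ[F] U × U'} {T : End F V} {T₁ : End F U} {T₂ : End F U'} (h : Dir e T T₁ T₂) : Blk e T T₁ T₂ := by
  exact ⟨fun u => by rw [h]; simp, fun x => by rw [h]⟩

theorem Dir.det {e : V ≃ₗ[F] U × U'} {T : End F V} {T₁ : End F U} {T₂ : End F U'} (h : Dir e T T₁ T₂) :
    LinearMap.det T = LinearMap.det T₁ * LinearMap.det T₂ := by
  have : T = e.symm.toLinearMap ∘ₗ T₁.prodMap T₂ ∘ₗ e.symm.symm.toLinearMap :=
    LinearMap.ext fun x => e.injective (by rw [h]; simp [Prod.map])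
  rw [this, LinearMap.det_conj, LinearMap.det_prodMap]

theorem exists_dir (e : V ≃ₗ[F] U × U') (T₁ : End F U) (T₂ : End F U') : ∃ T : End F V, Dir e T T₁ T₂ := by
  exact ⟨e.symm.toLinearMap ∘ₗ T₁.prodMap T₂ ∘ₗ e.toLinearMap, fun x => by simp [Prod.map]⟩

theorem Dir.comm {e : V ≃ₗ[F] U × U'} {T A : End F V} {T₁ A₁ : End F U} {T₂ A₂ : End F U'} (h : Dir e T T₁ T₂)
    (h' : Dir e A A₁ A₂) (h1 : T₁ * A₁ = A₁ * T₁) (h2 : T₂ * A₂ = A₂ * T₂) : T * A = A * T := by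
  refine LinearMap.ext fun x => e.injective ?_
  rw [Module.End.mul_apply, Module.End.mul_apply, h, h', h', h]
  exact Prod.ext (LinearMap.congr_fun h1 _) (LinearMap.congr_fun h2 _)

theorem Blk.mul {e : V ≃ₗ[F] U × U'} {T A : End F V} {T₁ A₁ : End F U} {T₂ A₂ : End F U'} (h : Blk e T T₁ T₂)
    (h' : Blk e A A₁ A₂) : Blk e (T * A) (T₁ * A₁) (T₂ * A₂) := by
  refine ⟨fun u => ?_, fun x => by rw [Module.End.mul_apply, h.snd, h'.snd]; rfl⟩
  rw [Module.End.mul_apply, (e.eq_symm_apply).2 (h'.fst u), h.fst]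
  rfl

theorem Blk.aeval {e : V ≃ₗ[F] U × U'} {T : End F V} {T₁ : End F U} {T₂ : End F U'} (h : Blk e T T₁ T₂) (p : F[X]) :
    Blk e (Polynomial.aeval T p) (Polynomial.aeval T₁ p) (Polynomial.aeval T₂ p) := by
  induction p using Polynomial.induction_on with
  | C a => exact ⟨fun u => by simp, fun x => by simp⟩
  | add p q hp hq => exact ⟨fun u => by simp [hp.fst, hq.fst], fun x => by simp [hp.snd, hq.snd]⟩
  | monomial n a ih =>
    rw [pow_succ, ← mul_assoc]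
    simpa only [map_mul, aeval_X] using ih.mul h

theorem Blk.eq_zero {e : V ≃ₗ[F] U × U'} {T₁ : End F U} {T₂ : End F U'} (h : Blk e 0 T₁ T₂) : T₁ = 0 ∧ T₂ = 0 := by
  refine ⟨LinearMap.ext fun u => ?_, LinearMap.ext fun u => ?_⟩
  · simpa using (congrArg Prod.fst (h.fst u)).symm
  · simpa using (h.snd (e.symm (0, u))).symm

theorem Blk.det_ne {e : V ≃ₗ[F] U × U'} {T : End F V} {T₁ : End F U} {T₂ : End F U'} (h : Blk e T T₁ T₂)
    (hd : LinearMap.det T ≠ 0) : LinearMap.det T₁ ≠ 0 ∧ LinearMap.det T₂ ≠ 0 := by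
  have hi := inj_of_det hd
  refine ⟨det_ne_of_inj ((injective_iff_map_eq_zero _).2 fun u hu => ?_),
    det_ne_of_inj (LinearMap.injective_iff_surjective.2 fun w => ?_)⟩
  · have := h.fst u
    rw [hu, Prod.mk_zero_zero, e.map_eq_zero_iff, map_eq_zero_iff _ hi, e.symm.map_eq_zero_iff] at this
    exact congrArg Prod.fst this
  · obtain ⟨x, hx⟩ := LinearMap.injective_iff_surjective.1 hi (e.symm (0, w))
    exact ⟨_, by rw [← h.snd, hx]; simp⟩

theorem Blk.conj {e : V ≃ₗ[F] U × U'} {A : End F V} {A₁ B₁ h₁ : End F U} {A₂ B₂ h₂ : End F U'} (h : Blk e A A₁ A₂)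
    (e₁ : B₁ * h₁ = h₁ * A₁) (e₂ : B₂ * h₂ = h₂ * A₂) (d₁ : LinearMap.det h₁ ≠ 0) (d₂ : LinearMap.det h₂ ≠ 0) :
    ∃ B x : End F V, LinearMap.det x = LinearMap.det h₁ * LinearMap.det h₂ ∧ B * x = x * A ∧ Blk e B B₁ B₂ := by
  obtain ⟨x, hx⟩ := exists_dir e h₁ h₂
  obtain ⟨k₁, a₁, b₁⟩ := exists_inv d₁
  obtain ⟨k₂, a₂, b₂⟩ := exists_inv d₂
  obtain ⟨y, hy⟩ := exists_dir e k₁ k₂
  have h1 : y * x = 1 := LinearMap.ext fun v => e.injective (by
    rw [Module.End.mul_apply, hy, hx]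
    exact Prod.ext (LinearMap.congr_fun b₁ _) (LinearMap.congr_fun b₂ _))
  refine ⟨x * A * y, x, hx.det, by rw [mul_assoc, h1, mul_one], ?_⟩
  have := (hx.blk.mul h).mul hy.blk
  rwa [← e₁, ← e₂, mul_assoc B₁, mul_assoc B₂, a₁, a₂, mul_one, mul_one] at this

theorem Blk.powS {e : V ≃ₗ[F] U × U'} {A : End F V} {A₁ T₁ : End F U} {A₂ T₂ : End F U'} (h : Blk e A A₁ A₂) {k : ℕ}
    (h₁ : T₁ ∈ cS A₁ ^ k) (h₂ : T₂ ∈ cS A₂ ^ k) : ∃ T ∈ cS A ^ k, Blk e T T₁ T₂ := by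
  induction k generalizing T₁ T₂ with
  | zero =>
    rw [eq_one_of_mem_pow_zero h₁, eq_one_of_mem_pow_zero h₂]
    exact ⟨1, by simp, fun u => by simp, fun x => by simp⟩
  | succ k ih =>
    obtain ⟨x₁, hx₁, y₁, ⟨g₁, d₁, e₁⟩, rfl⟩ := mem_pow_succ h₁
    obtain ⟨x₂, hx₂, y₂, ⟨g₂, d₂, e₂⟩, rfl⟩ := mem_pow_succ h₂
    obtain ⟨T, hT, hb⟩ := ih hx₁ hx₂
    obtain ⟨B, x, h1, h2, h3⟩ := h.conj e₁ e₂ (d₁ ▸ one_ne_zero) (d₂ ▸ one_ne_zero)
    exact ⟨T * B, mul_mem_pow_succ hT ⟨x, by rw [h1, d₁, d₂, one_mul], h2⟩, hb.mul h3⟩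

theorem Blk.powG {e : V ≃ₗ[F] U × U'} {A : End F V} {A₁ T₁ : End F U} {A₂ T₂ : End F U'} (h : Blk e A A₁ A₂) {k : ℕ}
    (h₁ : T₁ ∈ cG A₁ ^ k) (h₂ : T₂ ∈ cG A₂ ^ k) : ∃ T ∈ cG A ^ k, Blk e T T₁ T₂ := by
  induction k generalizing T₁ T₂ with
  | zero =>
    rw [eq_one_of_mem_pow_zero h₁, eq_one_of_mem_pow_zero h₂]
    exact ⟨1, by simp, fun u => by simp, fun x => by simp⟩
  | succ k ih =>
    obtain ⟨x₁, hx₁, y₁, ⟨g₁, d₁, e₁⟩, rfl⟩ := mem_pow_succ h₁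
    obtain ⟨x₂, hx₂, y₂, ⟨g₂, d₂, e₂⟩, rfl⟩ := mem_pow_succ h₂
    obtain ⟨T, hT, hb⟩ := ih hx₁ hx₂
    obtain ⟨B, x, h1, h2, h3⟩ := h.conj e₁ e₂ d₁ d₂
    exact ⟨T * B, mul_mem_pow_succ hT ⟨x, h1 ▸ mul_ne_zero d₁ d₂, h2⟩, hb.mul h3⟩

theorem Blk.ca {e : V ≃ₗ[F] U × U'} {T : End F V} {T₁ : End F U} {T₂ : End F U'} (h : Blk e T T₁ T₂) {χ₁ χ₂ : F[X]}
    (h₁ : CA T₁ χ₁) (h₂ : CA T₂ χ₂) (hc : IsCoprime χ₁ χ₂) : CA T (χ₁ * χ₂) := by
  have k1 : ∀ (p : F[X]) (u : U), Polynomial.aeval T p (e.symm (u, 0)) = e.symm (Polynomial.aeval T₁ p u, 0) :=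
    fun p u => e.eq_symm_apply.2 ((h.aeval p).fst u)
  have k2 : ∀ x, (e x).2 = 0 → x = e.symm ((e x).1, 0) := fun x hx => e.eq_symm_apply.2 (Prod.ext rfl hx)
  have ann : Polynomial.aeval T (χ₁ * χ₂) = 0 := LinearMap.ext fun x => by
    rw [map_mul, Module.End.mul_apply, k2 (Polynomial.aeval T χ₂ x) (by rw [(h.aeval χ₂).snd, h₂.ann]; rfl), k1, h₁.ann]
    simp
  refine ⟨h₁.monic.mul h₂.monic, by
    rw [h₁.monic.natDegree_mul h₂.monic, h₁.deg, h₂.deg, e.finrank_eq, finrank_prod], ann, ?_⟩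
  obtain ⟨a, b, hab⟩ := hc
  obtain ⟨z₁, hz₁⟩ := h₁.cyc
  obtain ⟨z₂, hz₂⟩ := h₂.cyc
  let x₂ := Polynomial.aeval T (a * χ₁) (e.symm (0, z₂))
  have k3 : Polynomial.aeval T χ₂ x₂ = 0 := by
    rw [← Module.End.mul_apply, ← map_mul, show χ₂ * (a * χ₁) = a * (χ₁ * χ₂) by ring, map_mul, ann]
    simp
  have k4 : (e x₂).2 = z₂ := by
    rw [(h.aeval _).snd, eq_sub_of_add_eq hab]
    simp [h₂.ann]
  have k5 : Polynomial.aeval T (b * χ₂) (e.symm (z₁, 0) + x₂) = e.symm (z₁, 0) := by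
    rw [map_add, k1, eq_sub_of_add_eq' hab, map_sub, map_mul, h₁.ann, ← eq_sub_of_add_eq' hab, map_mul,
      Module.End.mul_apply, k3]
    simp
  refine ⟨e.symm (z₁, 0) + x₂, fun x => ?_⟩
  obtain ⟨p, hp⟩ := hz₂ (e x).2
  obtain ⟨q, hq⟩ := hz₁ (e (x - Polynomial.aeval T p (e.symm (z₁, 0) + x₂))).1
  refine ⟨p + q * (b * χ₂), ?_⟩
  rw [map_add (Polynomial.aeval T), map_mul, LinearMap.add_apply, Module.End.mul_apply, k5, k1, hq, ← k2 _ (by
    rw [map_sub, Prod.snd_sub, (h.aeval p).snd, map_add, Prod.snd_add, k4]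
    simp [hp])]
  simp

theorem smul_one_mem_pow (c : F) (k : ℕ) : (c ^ k • 1 : End F V) ∈ cS (c • 1 : End F V) ^ k := by
  induction k with
  | zero => simp
  | succ k ih =>
    have := mul_mem_pow_succ ih (self_mem_cS (c • 1 : End F V))
    rwa [smul_mul_smul_comm, ← pow_succ, one_mul] at this

theorem Ln.inv {A : End F V} {γ : F} {v : V} {f : Dual F V} (h : Ln A γ v f) : ∀ x ∈ LinearMap.ker f, A x ∈ LinearMap.ker f := by
  intro x hx
  rw [LinearMap.mem_ker, h.fT, hx, mul_zero]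

theorem Ln.finrank {A : End F V} {γ : F} {v : V} {f : Dual F V} (h : Ln A γ v f) :
    Module.finrank F (LinearMap.ker f) + 1 = Module.finrank F V := by
  exact Module.Dual.finrank_ker_add_one_of_ne_zero fun e => by simpa [e] using h.fv

/-- coordinates for a line and a hyperplane -/
def lnEquiv {v : V} {f : Dual F V} (hv : f v = 1) : V ≃ₗ[F] LinearMap.ker f × F where
  toFun x := (⟨x - f x • v, by simp [hv]⟩, f x)
  invFun y := y.1 + y.2 • v
  map_add' x y := Prod.ext (Subtype.ext (by simp [add_smul]; abel)) (by simp)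
  map_smul' c x := Prod.ext (Subtype.ext (by simp [smul_sub, smul_smul])) (by simp)
  left_inv x := by simp
  right_inv y := by
    have : f y.1 = 0 := y.1.2
    exact Prod.ext (Subtype.ext (by simp [hv, this])) (by simp [hv, this])

theorem Ln.dir {A : End F V} {γ : F} {v : V} {f : Dual F V} (h : Ln A γ v f) :
    Dir (lnEquiv h.fv) A (A.restrict h.inv) (γ • 1) := fun x =>
  Prod.ext (Subtype.ext (by
    change A x - f (A x) • v = A (x - f x • v)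
    rw [map_sub, map_smul, h.Tv, h.fT, smul_smul, mul_comm])) (h.fT x)

theorem Ln.det {A : End F V} {γ : F} {v : V} {f : Dual F V} (h : Ln A γ v f) :
    LinearMap.det A = γ * LinearMap.det (A.restrict h.inv) := by
  rw [h.dir.det, mul_comm]
  simp

theorem Ln.pow {A T : End F V} {γ : F} {v : V} {f : Dual F V} {k : ℕ} (h : Ln A γ v f) (hT : Ln T (γ ^ k) v f)
    (hk : T.restrict hT.inv ∈ cS (A.restrict h.inv) ^ k) : T ∈ cS A ^ k := by
  suffices ∀ (k : ℕ) (T : End F V) (T₁ : End F (LinearMap.ker f)), Dir (lnEquiv h.fv) T T₁ (γ ^ k • 1) →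
      T₁ ∈ cS (A.restrict h.inv) ^ k → T ∈ cS A ^ k from this k T _ hT.dir hk
  intro k
  induction k with
  | zero =>
    intro T T₁ hd h1
    rw [eq_one_of_mem_pow_zero h1] at hd
    rw [show T = 1 from LinearMap.ext fun x => (lnEquiv h.fv).injective (by rw [hd]; simp)]
    simp
  | succ k ih =>
    intro T T₁ hd h1
    obtain ⟨x₁, hx₁, y₁, ⟨g₁, d₁, e₁⟩, rfl⟩ := mem_pow_succ h1
    obtain ⟨x, hx⟩ := exists_dir (lnEquiv h.fv) x₁ (γ ^ k • 1)
    obtain ⟨y, hy⟩ := exists_dir (lnEquiv h.fv) y₁ (γ • 1)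
    obtain ⟨g, hg⟩ := exists_dir (lnEquiv h.fv) g₁ 1
    rw [show T = x * y from LinearMap.ext fun w => (lnEquiv h.fv).injective (by
      rw [hd, Module.End.mul_apply x, hx, hy]
      simp [pow_succ, mul_assoc])]
    refine mul_mem_pow_succ (ih x x₁ hx hx₁) ⟨g, by rw [hg.det, d₁]; simp, LinearMap.ext fun w =>
      (lnEquiv h.fv).injective ?_⟩
    rw [Module.End.mul_apply, Module.End.mul_apply, hy, hg, hg, h.dir]
    exact Prod.ext (LinearMap.congr_fun e₁ _) rfl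

theorem exists_Ln {v : V} {f : Dual F V} (hv : f v = 1) (T₁ : End F (LinearMap.ker f)) (γ : F) :
    ∃ T : End F V, Ln T γ v f ∧ ∀ x : LinearMap.ker f, T x = T₁ x := by
  obtain ⟨T, hT⟩ := exists_dir (lnEquiv hv) T₁ (γ • 1)
  have h1 : ∀ x, T x = T₁ (lnEquiv hv x).1 + (γ * f x) • v := fun x => (lnEquiv hv).eq_symm_apply.2 (hT x)
  refine ⟨T, ⟨hv, ?_, fun x => congrArg Prod.snd (hT x)⟩, fun x => ?_⟩
  · rw [h1, show (lnEquiv hv v).1 = 0 from Subtype.ext (by simp [lnEquiv, hv])]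
    simp [hv]
  · have : f x = 0 := x.2
    rw [h1, show (lnEquiv hv x).1 = x from Subtype.ext (by simp [lnEquiv, this])]
    simp [this]

theorem NL.restrict {A : End F V} (h : NL A) {X W : Submodule F V} (hX : ∀ x ∈ X, A x ∈ X) (hW : ∀ x ∈ W, A x ∈ W)
    (hc : IsCompl X W) : NL (A.restrict hW) := by
  intro γ v f hl
  have hd := dir_of_compl hX hW hc
  refine h γ v (f ∘ₗ LinearMap.snd F X W ∘ₗ (prodEquivOfIsCompl X W hc).symm.toLinearMap)
    ⟨by simpa using hl.fv, congrArg Subtype.val hl.Tv, fun x => ?_⟩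
  change f ((prodEquivOfIsCompl X W hc).symm (A x)).2 = _
  rw [hd, hl.fT]
  rfl

theorem NL.nsc {A : End F V} (h : NL A) (h0 : 0 < Module.finrank F V) : NSc A := by
  refine nsc_of_ne fun t ht => ?_
  have := finrank_pos_iff.1 h0
  obtain ⟨v, hv⟩ := exists_ne (0 : V)
  obtain ⟨f, hf⟩ := Module.Projective.exists_dual_eq_one F hv
  exact h t v f ⟨hf, by simp [ht], by simp [ht]⟩

theorem NL.ne_one {A : End F V} (h : NL A) : Module.finrank F V ≠ 1 := by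
  intro h1
  obtain ⟨u, hu⟩ := h.nsc (by omega)
  obtain ⟨c, hc, -⟩ := A.existsUnique_eq_smul_id_of_finrank_eq_one h1
  exact hu c (by simp [hc])


end CfsgLib.Lev
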