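import Cfsg.Agent.Lib.Lev.Defs

/-! The cyclic decomposition (plans/LEV.md). -/

set_option autoImplicit false
set_option linter.unusedSectionVars false

namespace CfsgLib.Lev

open Module Polynomial Submodule
open scoped Pointwise

variable {F : Type*} [Field F] {V : Type*} [AddCommGroup V] [Module F V] [FiniteDimensional F V]
  {U : Type*} [AddCommGroup U] [Module F U] [FiniteDimensional F U]
  {U' : Type*} [AddCommGroup U'] [Module F U'] [FiniteDimensional F U']

theorem cd_pow {g : End F V} {Y : Submodule F V} (hY : ∀ y ∈ Y, g y ∈ Y) (i : ℕ) (y : Y) :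
    (((g.restrict hY) ^ i) y : V) = (g ^ i) y := by
  induction i with
  | zero => rfl
  | succ i ih => rw [pow_succ', pow_succ', Module.End.mul_apply, Module.End.mul_apply, ← ih]; rfl

theorem cd_aeval {g : End F V} {Y : Submodule F V} (hY : ∀ y ∈ Y, g y ∈ Y) (p : F[X]) (y : Y) :
    (aeval (g.restrict hY) p y : V) = aeval g p y := by
  simp [aeval_eq_sum_range, cd_pow]

theorem cd_sum (g : End F V) {k : ℕ} {p : F[X]} (hp : p.natDegree < k) (v : V) :
    aeval g p v = ∑ i : Fin k, p.coeff i • (g ^ (i : ℕ)) v := by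
  rw [aeval_eq_sum_range' hp, Finset.sum_range]
  simp

theorem cd_poly {k : ℕ} (hk : 0 < k) (c : Fin k → F) : ∃ p : F[X], p.natDegree < k ∧ ∀ i : Fin k, p.coeff i = c i := by
  refine ⟨∑ i : Fin k, C (c i) * X ^ (i : ℕ), ?_, fun i => ?_⟩
  · by_cases h0 : ∑ i : Fin k, C (c i) * X ^ (i : ℕ) = 0
    · rwa [h0, natDegree_zero]
    · exact (natDegree_lt_iff_degree_lt h0).2 (degree_sum_fin_lt c)
  · simp [coeff_X_pow, Fin.val_inj]

theorem cd_top [Nontrivial V] (g : End F V) : ∃ X W v k μ, CD g ⊤ X W v k μ := by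
  obtain ⟨v, hv⟩ := Module.exists_ker_toSpanSingleton_eq_annihilator F[X] (Module.AEval' g)
  obtain ⟨v, rfl⟩ := (Module.AEval'.of g).surjective v
  rw [← span_minpoly_eq_annihilator] at hv
  have hm := minpoly.monic (LinearMap.isIntegral g)
  have hk := minpoly.natDegree_pos (LinearMap.isIntegral g)
  have h0 := minpoly.aeval F g
  generalize minpoly F g = μ at hv hm hk h0
  obtain ⟨k, ek⟩ : ∃ k, k = μ.natDegree := ⟨_, rfl⟩
  have h1 : ∀ p : F[X], p.natDegree < k → aeval g p v = 0 → p = 0 := fun p hp e => by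
    refine eq_zero_of_dvd_of_natDegree_lt (Ideal.mem_span_singleton.1 (hv ▸ ?_)) (ek ▸ hp)
    show p • Module.AEval'.of g v = 0
    exact (Module.AEval.of_aeval_smul g p v).symm.trans (by rw [Module.End.smul_def, e, map_zero])
  have h2 : ∀ p : F[X], ∃ q : F[X], q.natDegree < k ∧ aeval g q = aeval g p := fun p =>
    ⟨p %ₘ μ, ek ▸ natDegree_modByMonic_lt p hm (by rintro rfl; simp at hk), aeval_modByMonic_eq_self_of_root h0⟩
  rw [← ek] at hk
  have ind : LinearIndependent F fun i : Fin k => (g ^ (i : ℕ)) v := Fintype.linearIndependent_iff.2 fun c hc i => by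
    obtain ⟨p, hp, e⟩ := cd_poly hk c
    rw [← e, h1 p hp (by simpa [cd_sum g hp, e] using hc), coeff_zero]
  have hX : ∀ x, x ∈ span F (Set.range fun i : Fin k => (g ^ (i : ℕ)) v) ↔
      ∃ p : F[X], p.natDegree < k ∧ aeval g p v = x := fun x => by
    rw [mem_span_range_iff_exists_fun]
    constructor
    · rintro ⟨c, rfl⟩
      obtain ⟨p, hp, e⟩ := cd_poly hk c
      exact ⟨p, hp, by simp [cd_sum g hp, e]⟩
    · rintro ⟨p, hp, rfl⟩
      exact ⟨_, (cd_sum g hp v).symm⟩
  obtain ⟨φ, hφ⟩ := LinearMap.exists_extend ((Basis.span ind).constr F fun i => if (i : ℕ) = k - 1 then (1 : F) else 0)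
  have h3 : ∀ p : F[X], p.natDegree < k → φ (aeval g p v) = p.coeff (k - 1) := fun p hp => by
    have : ∀ i : Fin k, φ ((g ^ (i : ℕ)) v) = if (i : ℕ) = k - 1 then 1 else 0 := fun i => by
      have := LinearMap.congr_fun hφ (Basis.span ind i)
      rw [Basis.constr_basis] at this
      simpa [Basis.span_apply] using this
    rw [cd_sum g hp, map_sum, Finset.sum_eq_single ⟨k - 1, by omega⟩ (fun i _ hi => by
      rw [map_smul, this, if_neg fun e => hi (Fin.ext e), smul_zero]) (by simp), map_smul, this]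
    simp
  have hW : ∀ w, w ∈ LinearMap.ker (LinearMap.pi fun i : Fin k => φ ∘ₗ g ^ (i : ℕ)) ↔
      ∀ p : F[X], φ (aeval g p w) = 0 := fun w => by
    simp only [LinearMap.mem_ker, funext_iff, LinearMap.pi_apply, LinearMap.comp_apply, Pi.zero_apply]
    refine ⟨fun h p => ?_, fun h i => by simpa using h (X ^ (i : ℕ))⟩
    obtain ⟨q, hq, e⟩ := h2 p
    simp [← e, cd_sum g hq, h]
  have dis : Disjoint (span F (Set.range fun i : Fin k => (g ^ (i : ℕ)) v))
      (LinearMap.ker (LinearMap.pi fun i : Fin k => φ ∘ₗ g ^ (i : ℕ))) := Submodule.disjoint_def.2 fun x hx hx' => by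
    obtain ⟨p, hp, rfl⟩ := (hX x).1 hx
    by_cases hp0 : p = 0
    · simp [hp0]
    have h4 := (hW _).1 hx' (X ^ (k - 1 - p.natDegree))
    rw [← Module.End.mul_apply, ← map_mul, h3 _ (by rw [natDegree_X_pow_mul _ hp0]; omega), coeff_X_pow_mul',
      if_pos (by omega), show k - 1 - (k - 1 - p.natDegree) = p.natDegree by omega] at h4
    exact (hp0 (leadingCoeff_eq_zero.1 h4)).elim
  refine ⟨_, _, v, k, μ, hm, ek.symm, hk, fun y _ => by simp [h0], ind, rfl, fun x hx => ?_, fun w hw => ?_, dis,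
    Submodule.eq_top_of_disjoint _ _ ?_ dis⟩
  · obtain ⟨p, -, rfl⟩ := (hX x).1 hx
    obtain ⟨q, hq, e⟩ := h2 (X * p)
    exact (hX _).2 ⟨q, hq, by simp [e]⟩
  · refine (hW _).2 fun p => ?_
    have := (hW w).1 hw (p * X)
    rwa [map_mul, aeval_X] at this
  · have h4 := (LinearMap.pi fun i : Fin k => φ ∘ₗ g ^ (i : ℕ)).finrank_range_add_finrank_ker
    have h5 := Submodule.finrank_le (LinearMap.range (LinearMap.pi fun i : Fin k => φ ∘ₗ g ^ (i : ℕ)))
    rw [finrank_span_eq_card ind]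
    rw [Module.finrank_fintype_fun_eq_card] at h5
    omega

theorem exists_CD (g : End F V) {Y : Submodule F V} (hY : ∀ y ∈ Y, g y ∈ Y) (h0 : Y ≠ ⊥) :
    ∃ X W v k μ, CD g Y X W v k μ := by
  have := Submodule.nontrivial_iff_ne_bot.2 h0
  obtain ⟨X, W, v, k, μ, h⟩ := cd_top (g.restrict hY)
  refine ⟨X.map Y.subtype, W.map Y.subtype, v, k, μ, h.monic, h.deg, h.pos, fun y hy => ?_, ?_, ?_, ?_, ?_, ?_, ?_⟩
  · rw [← cd_aeval hY μ ⟨y, hy⟩, h.ann _ trivial]; rfl
  · simpa [Function.comp_def, cd_pow] using h.ind.map' Y.subtype Y.ker_subtype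
  · rw [h.eqX, Submodule.map_span, ← Set.range_comp]
    simp [Function.comp_def, cd_pow]
  · rintro _ ⟨x, hx, rfl⟩
    exact ⟨_, h.invX x hx, rfl⟩
  · rintro _ ⟨x, hx, rfl⟩
    exact ⟨_, h.invW x hx, rfl⟩
  · exact Submodule.disjoint_map Y.injective_subtype h.dis
  · rw [← Submodule.map_sup, h.sup, Submodule.map_top, Submodule.range_subtype]

theorem CD.finrank {g : End F V} {Y X W : Submodule F V} {v : V} {k : ℕ} {μ : F[X]} (h : CD g Y X W v k μ) :
    Module.finrank F X = k := by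
  rw [h.eqX, finrank_span_eq_card h.ind, Fintype.card_fin]

theorem CD.mem {g : End F V} {Y X W : Submodule F V} {v : V} {k : ℕ} {μ : F[X]} (h : CD g Y X W v k μ) (i : ℕ) :
    (g ^ i) v ∈ X := by
  induction i with
  | zero => exact h.eqX ▸ subset_span ⟨⟨0, h.pos⟩, rfl⟩
  | succ i ih => rw [pow_succ']; exact h.invX _ ih

theorem CD.add {g : End F V} {Y X W : Submodule F V} {v : V} {k : ℕ} {μ : F[X]} (h : CD g Y X W v k μ) :
    k + Module.finrank F W = Module.finrank F Y := by
  rw [← h.finrank, ← h.sup, ← Submodule.finrank_sup_add_finrank_inf_eq, h.dis.eq_bot, finrank_bot, add_zero]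

theorem CD.two {g : End F V} {Y X W : Submodule F V} {v : V} {k : ℕ} {μ : F[X]} (h : CD g Y X W v k μ) {u : V}
    (hu : u ∈ Y) (hn : ∀ t : F, g u ≠ t • u) : 2 ≤ k := by
  by_contra h2
  have h1 : μ.natDegree = 1 := by have := h.pos; have := h.deg; omega
  have h3 := h.ann u hu
  rw [h.monic.eq_X_add_C h1] at h3
  exact hn (-μ.coeff 0) (by simpa [add_eq_zero_iff_eq_neg] using h3)

theorem CD.ne {g : End F V} {Y X W : Submodule F V} {v : V} {k : ℕ} {μ : F[X]} (h : CD g Y X W v k μ) (hk : 2 ≤ k) :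
    ∀ t : F, g v ≠ t • v := by
  intro t ht
  have h1 : LinearIndependent F ![v, g v] := by
    convert h.ind.comp (Fin.castLE hk) (Fin.castLE_injective hk) using 1
    ext i
    fin_cases i <;> simp
  simpa using (LinearIndependent.pair_iff.1 h1 t (-1) (by simp [ht])).2

theorem CD.three {g : End F V} {Y X W : Submodule F V} {v : V} {k : ℕ} {μ : F[X]} (h : CD g Y X W v k μ) (hk : 3 ≤ k) :
    LinearIndependent F ![v, g v, g (g v)] := by
  convert h.ind.comp (Fin.castLE hk) (Fin.castLE_injective hk) using 1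
  ext i
  fin_cases i <;> simp [sq]

theorem CD.cyc {g : End F V} {Y X W : Submodule F V} {v : V} {k : ℕ} {μ : F[X]} (h : CD g Y X W v k μ) :
    Cyc (g.restrict h.invX) := by
  refine ⟨⟨v, h.mem 0⟩, fun x => ?_⟩
  obtain ⟨c, hc⟩ := (mem_span_range_iff_exists_fun F).1 (h.eqX.le x.2)
  obtain ⟨p, hp, e⟩ := cd_poly h.pos c
  exact ⟨p, Subtype.ext (by simp [cd_aeval, cd_sum g hp, e, hc])⟩

theorem CD.compl {g : End F V} {X W : Submodule F V} {v : V} {k : ℕ} {μ : F[X]} (h : CD g ⊤ X W v k μ) : IsCompl X W := by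
  exact ⟨h.dis, codisjoint_iff.2 h.sup⟩

theorem CD.cyc_top {g : End F V} {X W : Submodule F V} {v : V} {k : ℕ} {μ : F[X]} (h : CD g ⊤ X W v k μ)
    (hW : Module.finrank F W = 0) : Cyc g := by
  refine ⟨v, fun x => ?_⟩
  have h1 : X = ⊤ := by simpa [Submodule.finrank_eq_zero.1 hW] using h.sup
  obtain ⟨c, hc⟩ := (mem_span_range_iff_exists_fun F).1 (h.eqX.le (h1.ge (mem_top (x := x))))
  obtain ⟨p, hp, e⟩ := cd_poly h.pos c
  exact ⟨p, by simp [cd_sum g hp, e, hc]⟩

theorem CD.quad {g : End F V} {X W : Submodule F V} {v : V} {μ : F[X]} (h : CD g ⊤ X W v 2 μ) :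
    ∃ s d : F, g * g = s • g - d • 1 := by
  refine ⟨-μ.coeff 1, μ.coeff 0, LinearMap.ext fun y => ?_⟩
  have h1 := h.ann y trivial
  have h2 : μ.coeff 2 = 1 := h.deg ▸ h.monic.coeff_natDegree
  rw [cd_sum g (k := 3) (by rw [h.deg]; norm_num)] at h1
  simp [Fin.sum_univ_succ, h2, sq] at h1
  simp
  linear_combination (norm := module) h1

theorem quad_split {g : End F V} {s d γ : F} {v : V} (h : g * g = s • g - d • 1) (hv : v ≠ 0) (e : g v = γ • v) :
    (g - γ • 1) * (g - (s - γ) • 1) = 0 := by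
  have h1 := LinearMap.congr_fun h v
  simp [e] at h1
  have h2 : γ * γ = s * γ - d := smul_left_injective F hv (by simp only; linear_combination (norm := module) h1)
  rw [sub_mul, mul_sub, mul_sub, h]
  simp only [mul_smul_comm, smul_mul_assoc, mul_one, one_mul, smul_smul]
  linear_combination (norm := module) (-h2) • (1 : End F V)


end CfsgLib.Lev
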