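import Cfsg.Agent.Lib.Lev.Defs

/-! Cyclic maps (plans/LEV.md). -/

set_option autoImplicit false
set_option linter.unusedSectionVars false

namespace CfsgLib.Lev

open Module Polynomial Submodule
open scoped Pointwise

variable {F : Type*} [Field F] {V : Type*} [AddCommGroup V] [Module F V] [FiniteDimensional F V]
  {U : Type*} [AddCommGroup U] [Module F U] [FiniteDimensional F U]
  {U' : Type*} [AddCommGroup U'] [Module F U'] [FiniteDimensional F U']

theorem cyc_aeval_mem {T : End F V} {Z : Submodule F V} (hZ : ∀ x ∈ Z, T x ∈ Z) {z : V} (hz : z ∈ Z) (p : F[X]) :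
    aeval T p z ∈ Z := by
  induction p using Polynomial.induction_on with
  | C a => simpa using Z.smul_mem a hz
  | add p q hp hq => simpa using Z.add_mem hp hq
  | monomial n a h =>
    rw [pow_succ', mul_left_comm, map_mul, aeval_X]
    exact hZ _ h

/-- the cyclic subspace of `z` -/
noncomputable def cycZ (T : End F V) (z : V) : Submodule F V :=
  LinearMap.range (LinearMap.applyₗ z ∘ₗ (aeval T : F[X] →ₐ[F] End F V).toLinearMap)

theorem mem_cycZ {T : End F V} {z x : V} : x ∈ cycZ T z ↔ ∃ p : F[X], aeval T p z = x := Iff.rfl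

theorem cycZ_self (T : End F V) (z : V) : z ∈ cycZ T z := ⟨1, by simp⟩

theorem cycZ_inv (T : End F V) (z : V) : ∀ x ∈ cycZ T z, T x ∈ cycZ T z := by
  rintro _ ⟨p, rfl⟩
  exact mem_cycZ.2 ⟨X * p, by simp⟩

theorem cyc_eq_zero {T : End F V} {z : V} {n : ℕ} (h : LinearIndependent F fun i : Fin n => (T ^ (i : ℕ)) z)
    {p : F[X]} (hp : p.degree < n) (h0 : aeval T p z = 0) : p = 0 := by
  by_contra hp0
  have h1 := (natDegree_lt_iff_degree_lt hp0).2 hp
  rw [aeval_eq_sum_range' h1, LinearMap.sum_apply, ← Fin.sum_univ_eq_sum_range (fun i => (p.coeff i • T ^ i) z)] at h0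
  exact hp0 (leadingCoeff_eq_zero.1 (Fintype.linearIndependent_iff.1 h (fun i => p.coeff i) h0 ⟨_, h1⟩))

theorem kry (T : End F V) (y : V) : ∃ e : ℕ, LinearIndependent F (fun i : Fin e => (T ^ (i : ℕ)) y) ∧
    ∀ p : F[X], aeval T p y ∈ span F (Set.range fun i : Fin e => (T ^ (i : ℕ)) y) := by
  classical
  have hex : ∃ e : ℕ, ¬ LinearIndependent F (fun i : Fin (e + 1) => (T ^ (i : ℕ)) y) :=
    ⟨finrank F V, fun h => by simpa using h.fintype_card_le_finrank⟩
  have h1 : LinearIndependent F (fun i : Fin (Nat.find hex) => (T ^ (i : ℕ)) y) := by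
    rcases h : Nat.find hex with _ | e
    · exact linearIndependent_empty_type
    · exact not_not.1 (Nat.find_min hex (by omega))
  have h2 := Nat.find_spec hex
  generalize Nat.find hex = e at h1 h2
  have h3 : (T ^ e) y ∈ span F (Set.range fun i : Fin e => (T ^ (i : ℕ)) y) := by
    by_contra h
    exact h2 (linearIndependent_finSucc'.2 ⟨h1, h⟩)
  have h4 : ∀ i ≤ e, (T ^ i) y ∈ span F (Set.range fun i : Fin e => (T ^ (i : ℕ)) y) := fun i hi => by
    rcases hi.lt_or_eq with h | rfl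
    · exact subset_span ⟨⟨i, h⟩, rfl⟩
    · exact h3
  refine ⟨e, h1, cyc_aeval_mem (fun x hx => ?_) (h4 0 (Nat.zero_le _))⟩
  refine mem_comap.1 ((span_le (p := comap T _)).2 ?_ hx)
  rintro _ ⟨i, rfl⟩
  have := h4 (i + 1) i.2
  rwa [pow_succ'] at this

theorem cyc_ind {T : End F V} {Z : Submodule F V} (hZ : ∀ x ∈ Z, T x ∈ Z) {z : V} (hz : z ∈ Z)
    (h : ∀ x ∈ Z, ∃ p : F[X], aeval T p z = x) {n : ℕ} (hn : finrank F Z = n) :
    LinearIndependent F fun i : Fin n => (T ^ (i : ℕ)) z := by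
  obtain ⟨e, h1, h2⟩ := kry T z
  have h3 : span F (Set.range fun i : Fin e => (T ^ (i : ℕ)) z) = Z := le_antisymm (span_le.2 (by
    rintro _ ⟨i, rfl⟩
    simpa using cyc_aeval_mem hZ hz (X ^ (i : ℕ)))) fun x hx => by
      obtain ⟨p, rfl⟩ := h x hx
      exact h2 p
  have h4 := finrank_span_eq_card h1
  rw [h3, hn, Fintype.card_fin] at h4
  exact h4 ▸ h1

theorem Cyc.basis {T : End F V} (h : Cyc T) {n : ℕ} (hn : finrank F V = n) :
    ∃ z, LinearIndependent F fun i : Fin n => (T ^ (i : ℕ)) z := by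
  obtain ⟨z, hz⟩ := h
  exact ⟨z, hn ▸ cyc_ind (Z := ⊤) (fun _ _ => trivial) trivial (fun x _ => hz x) (finrank_top F V)⟩

theorem HS.basis {T : End F V} {γ : F} {v y : V} {f : Dual F V} (h : HS T γ v f y) {m : ℕ} (hn : finrank F V = m + 1) :
    LinearIndependent F fun i : Fin (m + 1) => if (i : ℕ) < m then (T ^ (i : ℕ)) y else v := by
  have hZ : ∀ x ∈ LinearMap.ker f, T x ∈ LinearMap.ker f := fun x hx => by
    rw [LinearMap.mem_ker, h.fT, hx, mul_zero]
  have f0 : f ≠ 0 := fun e => by simpa [e] using h.fv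
  have h1 := cyc_ind hZ h.fy h.gen (n := m) (by
    have := Module.Dual.finrank_ker_add_one_of_ne_zero f0
    omega)
  have h2 : (Fin.init fun i : Fin (m + 1) => if (i : ℕ) < m then (T ^ (i : ℕ)) y else v) =
      fun i : Fin m => (T ^ (i : ℕ)) y := funext fun i => by simp [Fin.init]
  refine linearIndependent_finSucc'.2 ⟨h2 ▸ h1, fun h3 => ?_⟩
  rw [h2] at h3
  have h4 := span_le (p := LinearMap.ker f).2 (by
    rintro _ ⟨i, rfl⟩
    simpa using cyc_aeval_mem hZ h.fy (X ^ (i : ℕ))) h3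
  simp [h.fv] at h4

theorem cyc_of_ind {T : End F V} {z : V} {n : ℕ} (h : LinearIndependent F fun i : Fin n => (T ^ (i : ℕ)) z)
    (hn : finrank F V = n) : Cyc T := by
  refine ⟨z, fun x => mem_cycZ.1 (span_le (p := cycZ T z).2 ?_
    ((h.span_eq_top_of_card_eq_finrank' (by simp [hn])).ge trivial))⟩
  rintro _ ⟨i, rfl⟩
  exact mem_cycZ.2 ⟨X ^ (i : ℕ), by simp⟩

theorem Cyc.ca {T : End F V} (h : Cyc T) : ∃ χ, CA T χ := by
  exact ⟨T.charpoly, T.charpoly_monic, T.charpoly_natDegree, T.aeval_self_charpoly, h⟩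

theorem CA.det {T : End F V} {χ : F[X]} (h : CA T χ) : LinearMap.det T = (-1) ^ finrank F V * χ.eval 0 := by
  obtain ⟨z, hz⟩ := h.cyc.basis rfl
  have h1 : χ.degree = finrank F V := by rw [degree_eq_natDegree h.monic.ne_zero, h.deg]
  have h2 : χ - T.charpoly = 0 := cyc_eq_zero hz (h1 ▸ degree_sub_lt_left (by
      rw [h1, degree_eq_natDegree T.charpoly_monic.ne_zero, T.charpoly_natDegree]) h.monic.ne_zero
      (by rw [h.monic, T.charpoly_monic])) (by rw [map_sub, h.ann, T.aeval_self_charpoly]; simp)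
  rw [LinearMap.det_eq_sign_charpoly_coeff, sub_eq_zero.1 h2, coeff_zero_eq_eval_zero]

theorem exists_CA {χ : F[X]} (hm : χ.Monic) (hd : χ.natDegree = finrank F V) : ∃ T : End F V, CA T χ := by
  have := (AdjoinRoot.powerBasis' hm).finite
  let e : AdjoinRoot χ ≃ₗ[F] V := LinearEquiv.ofFinrankEq _ _ ((AdjoinRoot.powerBasis' hm).finrank.trans hd)
  let φ : AdjoinRoot χ →ₐ[F] End F V := (e.conjAlgEquiv F : _ →ₐ[F] _).comp (Algebra.lmul F _)
  have h1 : ∀ p : F[X], aeval (φ (AdjoinRoot.root χ)) p = φ (AdjoinRoot.mk χ p) := fun p => by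
    rw [aeval_algHom_apply, AdjoinRoot.aeval_eq]
  refine ⟨φ (AdjoinRoot.root χ), hm, hd, by rw [h1, AdjoinRoot.mk_self, map_zero], e 1, fun x => ?_⟩
  obtain ⟨p, hp⟩ := AdjoinRoot.mk_surjective (e.symm x)
  exact ⟨p, by rw [h1, hp]; simp [φ]⟩

theorem Cyc.nsc {T : End F V} (h : Cyc T) (h2 : 2 ≤ finrank F V) : NSc T := by
  obtain ⟨z, hz⟩ := h.basis rfl
  refine ⟨z, fun t ht => X_sub_C_ne_zero t (cyc_eq_zero hz ?_ (by simp [ht]))⟩
  rw [degree_X_sub_C]
  exact_mod_cast h2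

theorem NSc.cyc_two {T : End F V} (h : NSc T) (h2 : finrank F V = 2) : Cyc T := by
  obtain ⟨u, hu⟩ := h
  refine cyc_of_ind (z := u) ?_ h2
  convert pair_of_ne hu using 1
  funext i
  fin_cases i <;> simp

theorem cyc_inv_gen {T T' : End F V} (e : T * T' = 1) (z : V) (p : F[X]) :
    ∃ q : F[X], aeval T' q z = aeval T p z := by
  have hi : ∀ x, T (T' x) = x := fun x => LinearMap.congr_fun e x
  refine mem_cycZ.1 (cyc_aeval_mem (fun x hx => ?_) (cycZ_self T' z) p)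
  obtain ⟨w, hw⟩ := LinearMap.surjective_of_injective (f := T'.restrict (cycZ_inv T' z))
    (fun a b hab => Subtype.ext (by rw [← hi a, ← hi b]; exact congrArg (fun c : cycZ T' z => T c) hab)) ⟨x, hx⟩
  have : T' w = x := congrArg Subtype.val hw
  rw [← this, hi]
  exact w.2

theorem Cyc.inv {T T' : End F V} (h : Cyc T) (e : T * T' = 1) : Cyc T' := by
  obtain ⟨z, hz⟩ := h
  refine ⟨z, fun x => ?_⟩
  obtain ⟨p, rfl⟩ := hz x
  exact cyc_inv_gen e z p

theorem SS.cyc {T : End F V} (h : SS T) : Cyc T := by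
  obtain ⟨γ, v, f, y, h, h'⟩ := h
  have hZ : ∀ x ∈ LinearMap.ker f, (T - γ • (1 : End F V)) x ∈ LinearMap.ker f := fun x hx => by
    simp [h.fT, LinearMap.mem_ker.1 hx]
  have h1 : ∀ x, f x = 0 → x ∈ cycZ T (y + v) := fun x hx => by
    obtain ⟨w, hw⟩ := LinearMap.surjective_of_injective (f := (T - γ • (1 : End F V)).restrict hZ)
      ((injective_iff_map_eq_zero _).2 fun a ha => Subtype.ext (h' a a.2 (by
        simpa [sub_eq_zero] using congrArg Subtype.val ha))) ⟨x, hx⟩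
    obtain ⟨p, hp⟩ := h.gen w w.2
    refine mem_cycZ.2 ⟨p * (X - C γ), ?_⟩
    have h2 : aeval T (X - C γ) (y + v) = aeval T (X - C γ) y := by simp [h.Tv]
    rw [map_mul, Module.End.mul_apply, h2, ← Module.End.mul_apply, ← map_mul, mul_comm, map_mul,
      Module.End.mul_apply, hp]
    simpa using congrArg Subtype.val hw
  refine ⟨y + v, fun x => mem_cycZ.1 ?_⟩
  have h2 : v ∈ cycZ T (y + v) := by simpa using sub_mem (cycZ_self T (y + v)) (h1 y h.fy)
  simpa using add_mem (h1 (x - f x • v) (by simp [h.fv])) (smul_mem _ (f x) h2)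

theorem SS.inv {T T' : End F V} (h : SS T) (e : T * T' = 1) : SS T' := by
  obtain ⟨γ, v, f, y, h, h'⟩ := h
  have hi : ∀ x, T (T' x) = x := fun x => LinearMap.congr_fun e x
  have hi' : ∀ x, T' (T x) = x := fun x => LinearMap.congr_fun (mul_eq_one_comm.1 e) x
  have h0 : γ ≠ 0 := fun h0 => by simpa [hi, h0, h.fv] using h.fT (T' v)
  refine ⟨γ⁻¹, v, f, y, ⟨⟨h.fv, ?_, fun x => ?_⟩, h.fy, fun x hx => ?_⟩, fun x hx h1 => h' x hx ?_⟩
  · rw [eq_inv_smul_iff₀ h0, ← map_smul, ← h.Tv, hi']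
  · rw [eq_inv_mul_iff_mul_eq₀ h0, ← h.fT, hi]
  · obtain ⟨p, rfl⟩ := h.gen x hx
    exact cyc_inv_gen e y p
  · rw [← inv_smul_eq_iff₀ h0, ← map_smul, ← h1, hi]

theorem CA.ss {T : End F V} {γ : F} {ψ : F[X]} (h : CA T ((X - C γ) * ψ)) (hψ : ψ.eval γ ≠ 0) : SS T := by
  obtain ⟨z, hz⟩ := h.cyc
  have hi := cyc_ind (Z := ⊤) (fun _ _ => trivial) trivial (fun x _ => hz x) (finrank_top F V)
  let π : F[X] →ₗ[F] V := LinearMap.applyₗ z ∘ₗ (aeval T : F[X] →ₐ[F] End F V).toLinearMap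
  have hπ : ∀ p, π p = aeval T p z := fun _ => rfl
  have hm : ∀ p q, π (p * q) = aeval T p (π q) := fun p q => by rw [hπ, hπ, map_mul, Module.End.mul_apply]
  have h0 : ∀ p, π p = 0 ↔ (X - C γ) * ψ ∣ p := fun p => by
    refine ⟨fun hp => (modByMonic_eq_zero_iff_dvd h.monic).1 (cyc_eq_zero hi ?_ ?_), ?_⟩
    · rw [← h.deg, ← degree_eq_natDegree h.monic.ne_zero]
      exact degree_modByMonic_lt _ h.monic
    · rw [aeval_modByMonic_eq_self_of_root h.ann]
      exact hp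
    · rintro ⟨q, rfl⟩
      rw [hm, h.ann, LinearMap.zero_apply]
  obtain ⟨s, hs⟩ := π.exists_rightInverse_of_surjective (LinearMap.range_eq_top.2 hz)
  let f : Dual F V := leval γ ∘ₗ s
  have hf : ∀ p, f (π p) = p.eval γ := fun p => by
    obtain ⟨q, hq⟩ := (h0 (s (π p) - p)).1 (by rw [map_sub, sub_eq_zero]; exact LinearMap.congr_fun hs _)
    have := congrArg (eval γ) hq
    simpa [f, sub_eq_zero] using this
  have h1 : ∀ x, f x = 0 → ∃ q, π (q * (X - C γ)) = x := fun x hx => by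
    obtain ⟨p, rfl⟩ := hz x
    obtain ⟨q, rfl⟩ := dvd_iff_isRoot.2 ((hf p).symm.trans hx)
    exact ⟨q, by rw [mul_comm]; rfl⟩
  refine ⟨γ, (ψ.eval γ)⁻¹ • π ψ, f, π (X - C γ), ⟨⟨by rw [map_smul, hf, smul_eq_mul, inv_mul_cancel₀ hψ], ?_,
    fun x => ?_⟩, by simp [hf], fun x hx => ?_⟩, fun x hx h2 => ?_⟩
  · have := (h0 _).2 dvd_rfl
    rw [hm] at this
    rw [map_smul, smul_comm]
    congr 1
    simpa [sub_eq_zero] using this
  · obtain ⟨p, rfl⟩ := hz x
    have := hf (X * p)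
    rw [hm, aeval_X, eval_mul, eval_X] at this
    rw [← hπ, this, hf]
  · obtain ⟨q, rfl⟩ := h1 x hx
    exact ⟨q, (hm _ _).symm⟩
  · obtain ⟨q, rfl⟩ := h1 x hx
    have h3 := (h0 ((X - C γ) * (q * (X - C γ)))).1 (by rw [hm]; simp [h2])
    have h4 : IsCoprime ψ (X - C γ) :=
      ((irreducible_X_sub_C γ).coprime_iff_not_dvd.2 fun h => hψ (dvd_iff_isRoot.1 h)).symm
    rw [h0, mul_comm q]
    exact mul_dvd_mul_left _ (h4.dvd_of_dvd_mul_right ((mul_dvd_mul_iff_left (X_sub_C_ne_zero γ)).1 h3))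

theorem ca_one (h1 : finrank F V = 1) (c : F) : CA (c • 1 : End F V) (X - C c) := by
  obtain ⟨v, -, hv⟩ := finrank_eq_one_iff'.1 h1
  refine ⟨monic_X_sub_C c, by rw [natDegree_X_sub_C, h1], by simp [Algebra.algebraMap_eq_smul_one], v, fun x => ?_⟩
  obtain ⟨a, rfl⟩ := hv x
  exact ⟨C a, by simp⟩

theorem end_one (h1 : finrank F V = 1) (T : End F V) : ∃ c : F, T = c • 1 := by
  obtain ⟨v, -, hv⟩ := finrank_eq_one_iff'.1 h1
  obtain ⟨c, hc⟩ := hv (T v)
  refine ⟨c, LinearMap.ext fun x => ?_⟩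
  obtain ⟨a, rfl⟩ := hv x
  simp [← hc, smul_comm a c]


end CfsgLib.Lev
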