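import Mathlib

/-! Products of conjugacy classes in `SL(V)` (plans/LEV.md): definitions and basic facts. -/

set_option autoImplicit false
set_option linter.unusedSectionVars false

namespace CfsgLib.Lev

open Module Polynomial Submodule
open scoped Pointwise

variable {F : Type*} [Field F] {V : Type*} [AddCommGroup V] [Module F V]
  {U : Type*} [AddCommGroup U] [Module F U] {U' : Type*} [AddCommGroup U'] [Module F U']

/-- not a scalar: some vector is not an eigenvector -/
def NSc (g : End F V) : Prop := ∃ u, ∀ t : F, g u ≠ t • u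

/-- the class under `SL(V)` -/
def cS (A : End F V) : Set (End F V) := {B | ∃ h : End F V, LinearMap.det h = 1 ∧ B * h = h * A}

/-- the class under `GL(V)` -/
def cG (A : End F V) : Set (End F V) := {B | ∃ h : End F V, LinearMap.det h ≠ 0 ∧ B * h = h * A}

/-- a set of non-scalar maps of determinant `d`, closed under conjugation by `SL(V)` -/
structure Cls (S : Set (End F V)) (d : F) : Prop where
  inv : ∀ T ∈ S, cS T ⊆ S
  det : ∀ B ∈ S, LinearMap.det B = d
  d0 : d ≠ 0
  ns : ∃ A ∈ S, NSc A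

/-- there is a cyclic vector -/
def Cyc (T : End F V) : Prop := ∃ z, ∀ x, ∃ p : F[X], aeval T p z = x

/-- cyclic with polynomial `χ` -/
structure CA (T : End F V) (χ : F[X]) : Prop where
  monic : χ.Monic
  deg : χ.natDegree = finrank F V
  ann : aeval T χ = 0
  cyc : Cyc T

/-- a line `⟨v⟩` with invariant complement `ker f` -/
structure Ln (T : End F V) (γ : F) (v : V) (f : Dual F V) : Prop where
  fv : f v = 1
  Tv : T v = γ • v
  fT : ∀ x, f (T x) = γ * f x

/-- a line and a cyclic complement -/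
structure HS (T : End F V) (γ : F) (v : V) (f : Dual F V) (y : V) : Prop extends Ln T γ v f where
  fy : f y = 0
  gen : ∀ x, f x = 0 → ∃ p : F[X], aeval T p y = x

/-- cyclic with a simple eigenvalue in `F` -/
def SS (T : End F V) : Prop := ∃ γ v f y, HS T γ v f y ∧ ∀ x, f x = 0 → T x = γ • x → x = 0

/-- no line is a direct summand -/
def NL (A : End F V) : Prop := ∀ γ v f, ¬ Ln A γ v f

/-- every determinant occurs in the centraliser -/
def Full (A : End F V) : Prop := ∀ δ : F, δ ≠ 0 → ∃ c : End F V, LinearMap.det c = δ ∧ c * A = A * c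

/-- `S ^ k` contains all non-scalars of the right determinant -/
def PP (S : Set (End F V)) (d : F) (k : ℕ) : Prop := ∀ g, NSc g → LinearMap.det g = d ^ k → g ∈ S ^ k

/-- `S ^ k` contains all `SS` maps of the right determinant -/
def RR (S : Set (End F V)) (d : F) (k : ℕ) : Prop := ∀ T, SS T → LinearMap.det T = d ^ k → T ∈ S ^ k

/-- block triangular with diagonal blocks `T₁` (on the invariant subspace) and `T₂` -/
structure Blk (e : V ≃ₗ[F] U × U') (T : End F V) (T₁ : End F U) (T₂ : End F U') : Prop where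
  fst : ∀ u, e (T (e.symm (u, 0))) = (T₁ u, 0)
  snd : ∀ x, (e (T x)).2 = T₂ (e x).2

/-- block diagonal -/
def Dir (e : V ≃ₗ[F] U × U') (T : End F V) (T₁ : End F U) (T₂ : End F U') : Prop :=
  ∀ x, e (T x) = (T₁ (e x).1, T₂ (e x).2)

/-- the configuration behind the main factorisation; `dim V = m + 1` -/
structure Cf (g : End F V) (w : ℕ → V) (m : ℕ) : Prop where
  ind : LinearIndependent F fun i : Fin (m + 1) => w i
  top : w m = g (w (m - 1))
  tri : ∀ i, i + 1 < m → ∃ ε : F, (ε = 0 ∨ ε = 1 ∨ i = 0) ∧ g (w i) - ε • w (i + 1) ∈ span F (w '' Set.Iic i)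
  one : ∀ a : ℕ → F, ∑ i ∈ Finset.range (m - 1), a i • g (w i) = ∑ i ∈ Finset.range (m - 1), a i • w (i + 1) →
    ∀ i < m - 1, a i = 0
  zero : ∀ d : F, g (w 0) ≠ d • w 1

/-- one step of the cyclic decomposition inside an invariant subspace `Y = X ⊕ W` -/
structure CD (g : End F V) (Y X W : Submodule F V) (v : V) (k : ℕ) (μ : F[X]) : Prop where
  monic : μ.Monic
  deg : μ.natDegree = k
  pos : 0 < k
  ann : ∀ y ∈ Y, aeval g μ y = 0
  ind : LinearIndependent F fun i : Fin k => (g ^ (i : ℕ)) v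
  eqX : X = span F (Set.range fun i : Fin k => (g ^ (i : ℕ)) v)
  invX : ∀ x ∈ X, g x ∈ X
  invW : ∀ x ∈ W, g x ∈ W
  dis : Disjoint X W
  sup : X ⊔ W = Y

/-- `s` is a sum of `j` non-zero squares -/
def SQ (j : ℕ) (s : F) : Prop := ∃ c : Fin j → F, (∀ i, c i ≠ 0) ∧ ∑ i, c i ^ 2 = s

theorem nsc_of_ne {g : End F V} (h : ∀ t : F, g ≠ t • (1 : End F V)) : NSc g := by
  by_contra hn
  have h1 : ∀ u, ∃ t : F, g u = t • u := by
    intro u
    by_contra hu
    exact hn ⟨u, fun t ht => hu ⟨t, ht⟩⟩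
  obtain ⟨t, ht⟩ := LinearMap.exists_eq_smul_id_of_forall_notLinearIndependent (f := g) (by
    intro u hu
    obtain ⟨t, ht⟩ := h1 u
    have := (LinearIndependent.pair_iff.1 hu t (-1) (by rw [ht]; simp)).2
    simp at this)
  exact h t ht

theorem NSc.ne {g : End F V} (h : NSc g) (t : F) : g ≠ t • (1 : End F V) := by
  obtain ⟨u, hu⟩ := h
  intro e
  exact hu t (by rw [e]; simp)

theorem pair_of_ne {g : End F V} {u : V} (hu : ∀ t : F, g u ≠ t • u) : LinearIndependent F ![u, g u] := by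
  have h0 : u ≠ 0 := by
    intro e
    exact hu 0 (by rw [e]; simp)
  rw [LinearIndependent.pair_iff' h0]
  intro a ha
  exact hu a ha.symm

theorem self_mem_cS (A : End F V) : A ∈ cS A := ⟨1, by simp, by simp⟩

theorem cS_sub_cG (A : End F V) : cS A ⊆ cG A := fun _ ⟨h, h1, h2⟩ => ⟨h, by rw [h1]; exact one_ne_zero, h2⟩

theorem cS_trans {A B C : End F V} (h : B ∈ cS A) (h' : C ∈ cS B) : C ∈ cS A := by
  obtain ⟨x, x1, x2⟩ := h
  obtain ⟨y, y1, y2⟩ := h'
  refine ⟨y * x, by rw [map_mul, x1, y1, one_mul], ?_⟩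
  rw [← mul_assoc, y2, mul_assoc, x2, mul_assoc]

theorem cG_trans {A B C : End F V} (h : B ∈ cG A) (h' : C ∈ cG B) : C ∈ cG A := by
  obtain ⟨x, x1, x2⟩ := h
  obtain ⟨y, y1, y2⟩ := h'
  refine ⟨y * x, by rw [map_mul]; exact mul_ne_zero y1 x1, ?_⟩
  rw [← mul_assoc, y2, mul_assoc, x2, mul_assoc]

theorem det_of_cG {A B : End F V} (h : B ∈ cG A) : LinearMap.det B = LinearMap.det A := by
  obtain ⟨x, x1, x2⟩ := h
  have := congrArg LinearMap.det x2
  rw [map_mul, map_mul, mul_comm] at this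
  exact mul_left_cancel₀ x1 this

theorem Full.cG_eq {A : End F V} (h : Full A) : cG A = cS A := by
  refine Set.Subset.antisymm ?_ (cS_sub_cG A)
  rintro B ⟨x, x1, x2⟩
  obtain ⟨c, c1, c2⟩ := h _ (inv_ne_zero x1)
  refine ⟨x * c, by rw [map_mul, c1, mul_inv_cancel₀ x1], ?_⟩
  rw [← mul_assoc, x2, mul_assoc, ← c2, mul_assoc]

theorem mul_mem_pow_succ {S : Set (End F V)} {k : ℕ} {x y : End F V} (hx : x ∈ S ^ k) (hy : y ∈ S) :
    x * y ∈ S ^ (k + 1) := by
  rw [pow_succ]; exact Set.mul_mem_mul hx hy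

theorem mul_mem_pow_add {S : Set (End F V)} {k l : ℕ} {x y : End F V} (hx : x ∈ S ^ k) (hy : y ∈ S ^ l) :
    x * y ∈ S ^ (k + l) := by
  rw [pow_add]; exact Set.mul_mem_mul hx hy

theorem mem_pow_succ {S : Set (End F V)} {k : ℕ} {z : End F V} (h : z ∈ S ^ (k + 1)) :
    ∃ x ∈ S ^ k, ∃ y ∈ S, x * y = z := by
  rw [pow_succ] at h; exact h

theorem eq_one_of_mem_pow_zero {S : Set (End F V)} {z : End F V} (h : z ∈ S ^ 0) : z = 1 := by
  simpa using h

theorem det_of_mem_pow {S : Set (End F V)} {d : F} (hS : ∀ B ∈ S, LinearMap.det B = d) :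
    ∀ {k : ℕ} {z : End F V}, z ∈ S ^ k → LinearMap.det z = d ^ k := by
  intro k
  induction k with
  | zero => intro z hz; rw [eq_one_of_mem_pow_zero hz]; simp
  | succ k ih =>
    intro z hz
    obtain ⟨x, hx, y, hy, rfl⟩ := mem_pow_succ hz
    rw [map_mul, ih hx, hS y hy, pow_succ]

theorem pow_mono_set {S S' : Set (End F V)} (h : S ⊆ S') (k : ℕ) : S ^ k ⊆ S' ^ k := Set.pow_subset_pow_left h

theorem smul_mem_pow {A : End F V} (c : F) : ∀ {k : ℕ} {z : End F V}, z ∈ cG A ^ k → c ^ k • z ∈ cG (c • A) ^ k := by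
  intro k
  induction k with
  | zero => intro z hz; rw [eq_one_of_mem_pow_zero hz]; simp
  | succ k ih =>
    intro z hz
    obtain ⟨x, hx, y, ⟨h, h1, h2⟩, rfl⟩ := mem_pow_succ hz
    have : c ^ (k + 1) • (x * y) = (c ^ k • x) * (c • y) := by
      rw [smul_mul_smul_comm, pow_succ]
    rw [this]
    exact mul_mem_pow_succ (ih hx) ⟨h, h1, by rw [smul_mul_assoc, h2, mul_smul_comm]⟩

variable [FiniteDimensional F V]

theorem exists_inv {h : End F V} (hd : LinearMap.det h ≠ 0) : ∃ h' : End F V, h * h' = 1 ∧ h' * h = 1 := by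
  obtain ⟨u, rfl⟩ := (LinearMap.isUnit_iff_isUnit_det h).2 (Ne.isUnit hd)
  exact ⟨↑u⁻¹, by simp, by simp⟩

theorem inj_of_det {h : End F V} (hd : LinearMap.det h ≠ 0) : Function.Injective h := by
  obtain ⟨h', -, e⟩ := exists_inv hd
  intro a b hab
  have := congrArg h' hab
  rwa [← Module.End.mul_apply, ← Module.End.mul_apply, e, Module.End.one_apply, Module.End.one_apply] at this

theorem det_ne_of_inj {h : End F V} (hi : Function.Injective h) : LinearMap.det h ≠ 0 := by
  rw [Ne, LinearMap.det_eq_zero_iff_ker_ne_bot, not_not]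
  exact LinearMap.ker_eq_bot.2 hi

theorem det_inv_eq {h h' : End F V} (e : h * h' = 1) : LinearMap.det h' = (LinearMap.det h)⁻¹ := by
  have := congrArg LinearMap.det e
  rw [map_mul, map_one] at this
  exact eq_inv_of_mul_eq_one_right this

theorem cS_symm {A B : End F V} (h : B ∈ cS A) : A ∈ cS B := by
  obtain ⟨x, x1, x2⟩ := h
  obtain ⟨y, y1, y2⟩ := exists_inv (h := x) (by rw [x1]; exact one_ne_zero)
  refine ⟨y, by rw [det_inv_eq y1, x1, inv_one], ?_⟩
  calc A * y = y * (x * A) * y := by rw [← mul_assoc, y2, one_mul]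
    _ = y * B := by rw [← x2, mul_assoc, mul_assoc, y1, mul_one]

theorem cG_symm {A B : End F V} (h : B ∈ cG A) : A ∈ cG B := by
  obtain ⟨x, x1, x2⟩ := h
  obtain ⟨y, y1, y2⟩ := exists_inv x1
  refine ⟨y, by rw [det_inv_eq y1]; exact inv_ne_zero x1, ?_⟩
  calc A * y = y * (x * A) * y := by rw [← mul_assoc, y2, one_mul]
    _ = y * B := by rw [← x2, mul_assoc, mul_assoc, y1, mul_one]

theorem conj_mem_cS {x y : End F V} (x1 : LinearMap.det x = 1) (e : y * x = 1) (A : End F V) : x * A * y ∈ cS A :=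
  ⟨x, x1, by rw [mul_assoc, e, mul_one]⟩

theorem conj_mem_cG {x y : End F V} (x1 : LinearMap.det x ≠ 0) (e : y * x = 1) (A : End F V) : x * A * y ∈ cG A :=
  ⟨x, x1, by rw [mul_assoc, e, mul_one]⟩

theorem conj_mem_pow {S : Set (End F V)} {x y : End F V} (e : x * y = 1) (e' : y * x = 1)
    (hS : ∀ T ∈ S, x * T * y ∈ S) : ∀ {k : ℕ} {z : End F V}, z ∈ S ^ k → x * z * y ∈ S ^ k := by
  intro k
  induction k with
  | zero => intro z hz; rw [eq_one_of_mem_pow_zero hz, mul_one, e]; simp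
  | succ k ih =>
    intro z hz
    obtain ⟨a, ha, b, hb, rfl⟩ := mem_pow_succ hz
    have : x * (a * b) * y = (x * a * y) * (x * b * y) := by
      calc x * (a * b) * y = x * a * (y * x) * b * y := by rw [e']; simp only [mul_one, mul_assoc]
        _ = _ := by simp only [mul_assoc]
    rw [this]
    exact mul_mem_pow_succ (ih ha) (hS b hb)

theorem Cls.pow_inv {S : Set (End F V)} {d : F} (h : Cls S d) {k : ℕ} {T T' : End F V} (hT : T ∈ S ^ k)
    (h' : T' ∈ cS T) : T' ∈ S ^ k := by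
  obtain ⟨x, x1, x2⟩ := h'
  obtain ⟨y, y1, y2⟩ := exists_inv (h := x) (by rw [x1]; exact one_ne_zero)
  have : T' = x * T * y := by rw [← x2, mul_assoc, y1, mul_one]
  rw [this]
  exact conj_mem_pow y1 y2 (fun B hB => h.inv B hB (conj_mem_cS x1 y2 B)) hT

theorem cG_pow_inv {A : End F V} {k : ℕ} {T T' : End F V} (hT : T ∈ cG A ^ k) (h' : T' ∈ cG T) : T' ∈ cG A ^ k := by
  obtain ⟨x, x1, x2⟩ := h'
  obtain ⟨y, y1, y2⟩ := exists_inv x1
  have : T' = x * T * y := by rw [← x2, mul_assoc, y1, mul_one]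
  rw [this]
  exact conj_mem_pow y1 y2 (fun B hB => cG_trans hB (conj_mem_cG x1 y2 B)) hT

theorem NSc.of_cG {A B : End F V} (hA : NSc A) (h : B ∈ cG A) : NSc B := by
  obtain ⟨x, x1, x2⟩ := h
  obtain ⟨u, hu⟩ := hA
  refine ⟨x u, fun t ht => hu t (inj_of_det x1 ?_)⟩
  rw [← Module.End.mul_apply, ← x2, Module.End.mul_apply, ht, map_smul]

theorem cls_cS {A : End F V} (hd : LinearMap.det A ≠ 0) (hA : NSc A) : Cls (cS A) (LinearMap.det A) :=
  ⟨fun _ hT _ h => cS_trans hT h, fun _ h => det_of_cG (cS_sub_cG A h), hd, A, self_mem_cS A, hA⟩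

theorem cls_cG {A : End F V} (hd : LinearMap.det A ≠ 0) (hA : NSc A) : Cls (cG A) (LinearMap.det A) :=
  ⟨fun _ hT _ h => cG_trans hT (cS_sub_cG _ h), fun _ h => det_of_cG h, hd, A, cS_sub_cG A (self_mem_cS A), hA⟩

theorem det_one_add (f : Dual F V) (v : V) : LinearMap.det (1 + f.smulRight v : End F V) = 1 + f v := by
  have : (1 + f.smulRight v : End F V) = LinearMap.transvection f v := by
    ext x; simp [LinearMap.transvection.apply]
  rw [this, LinearMap.transvection.det]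

theorem Ln.full {A : End F V} {γ : F} {v : V} {f : Dual F V} (h : Ln A γ v f) : Full A := by
  intro δ _
  refine ⟨1 + f.smulRight ((δ - 1) • v), by rw [det_one_add, map_smul, h.fv]; simp, ?_⟩
  ext x
  simp [h.fT, h.Tv, smul_smul, mul_comm, mul_left_comm]

theorem SS.full {T : End F V} (h : SS T) : Full T := by
  obtain ⟨γ, v, f, y, h, -⟩ := h
  exact h.toLn.full

theorem exists_dual_pair {u w : V} (h : LinearIndependent F ![u, w]) (a b : F) : ∃ f : Dual F V, f u = a ∧ f w = b := by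
  obtain ⟨g, hg⟩ := LinearMap.exists_extend ((Basis.span h).constr F ![a, b])
  refine ⟨g, ?_, ?_⟩
  · have := LinearMap.congr_fun hg (Basis.span h 0)
    rw [Basis.constr_basis] at this
    simpa [Basis.span_apply] using this
  · have := LinearMap.congr_fun hg (Basis.span h 1)
    rw [Basis.constr_basis] at this
    simpa [Basis.span_apply] using this

/-- a conjugate that is not proportional -/
theorem exists_nonprop {A : End F V} (hA : NSc A) : ∃ B ∈ cS A, ∀ t : F, B ≠ t • A := by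
  obtain ⟨u, hu⟩ := hA
  have hp := pair_of_ne hu
  obtain ⟨f, f0, f1⟩ := exists_dual_pair hp 0 1
  have e : (1 + f.smulRight (-u) : End F V) * (1 + f.smulRight u) = 1 := by
    ext x; simp [f0]
  refine ⟨_, conj_mem_cS (x := 1 + f.smulRight u) (by rw [det_one_add, f0, add_zero]) e A, fun t ht => ?_⟩
  have h1 := LinearMap.congr_fun ht u
  simp [f0, f1] at h1
  have := (LinearIndependent.pair_iff.1 hp 1 (1 - t) (by rw [sub_smul, ← h1]; simp)).1
  exact one_ne_zero this

theorem exists_mul_nsc {S : Set (End F V)} {d : F} (h : Cls S d) {g : End F V} (hg : LinearMap.det g ≠ 0) :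
    (∃ A ∈ S, NSc (g * A)) ∧ ∃ A ∈ S, ∃ x, NSc x ∧ x * A = g := by
  obtain ⟨A, hA, hn⟩ := h.ns
  obtain ⟨B, hB, hAB⟩ := exists_nonprop hn
  have hB' := h.inv A hA hB
  have dA : LinearMap.det A ≠ 0 := by rw [h.det A hA]; exact h.d0
  have dB : LinearMap.det B ≠ 0 := by rw [h.det B hB']; exact h.d0
  obtain ⟨g', g1, g2⟩ := exists_inv hg
  obtain ⟨A', a1, a2⟩ := exists_inv dA
  obtain ⟨B', b1, b2⟩ := exists_inv dB
  have g0 : g ≠ 0 := by
    intro e
    obtain ⟨u, hu⟩ := hn
    have : u = 0 := inj_of_det hg (by rw [e]; simp)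
    exact hu 0 (by rw [this]; simp)
  constructor
  · by_contra hc
    have h1 : ∀ C ∈ S, ∃ t : F, C = t • g' := by
      intro C hC
      by_contra h2
      refine hc ⟨C, hC, nsc_of_ne fun t ht => h2 ⟨t, ?_⟩⟩
      calc C = g' * (g * C) := by rw [← mul_assoc, g2, one_mul]
        _ = t • g' := by rw [ht]; simp
    obtain ⟨s, hs⟩ := h1 A hA
    obtain ⟨t, ht⟩ := h1 B hB'
    have s0 : s ≠ 0 := by
      rintro rfl
      exact hn.ne 0 (by rw [hs]; simp)
    exact hAB (t * s⁻¹) (by rw [ht, hs, smul_smul, mul_assoc, inv_mul_cancel₀ s0, mul_one])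
  · by_contra hc
    have h1 : ∀ C ∈ S, ∀ C', C' * C = 1 → ∃ t : F, g = t • C := by
      intro C hC C' e
      by_contra h2
      refine hc ⟨C, hC, g * C', nsc_of_ne fun t ht => h2 ⟨t, ?_⟩, by rw [mul_assoc, e, mul_one]⟩
      calc g = g * C' * C := by rw [mul_assoc, e, mul_one]
        _ = t • C := by rw [ht]; simp
    obtain ⟨s, hs⟩ := h1 A hA A' a2
    obtain ⟨t, ht⟩ := h1 B hB' B' b2
    have t0 : t ≠ 0 := by
      rintro rfl
      exact g0 (by rw [ht]; simp)
    refine hAB (t⁻¹ * s) ?_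
    rw [mul_smul, ← hs, ht, smul_smul, inv_mul_cancel₀ t0, one_smul]

theorem PP.succ {S : Set (End F V)} {d : F} (h : Cls S d) {k : ℕ} (hk : PP S d k) : PP S d (k + 1) := by
  intro g _ hd
  obtain ⟨A, hA, x, hx, rfl⟩ := (exists_mul_nsc h (g := g) (by rw [hd]; exact pow_ne_zero _ h.d0)).2
  refine mul_mem_pow_succ (hk x hx ?_) hA
  rw [map_mul, h.det A hA, pow_succ] at hd
  exact mul_right_cancel₀ h.d0 hd

theorem PP.mono {S : Set (End F V)} {d : F} (h : Cls S d) {k l : ℕ} (hk : PP S d k) (hl : k ≤ l) : PP S d l := by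
  induction hl with
  | refl => exact hk
  | step _ ih => exact ih.succ h

theorem exists_nsc_pow {S : Set (End F V)} {d : F} (h : Cls S d) {k : ℕ} (hk : 1 ≤ k) : ∃ T ∈ S ^ k, NSc T := by
  induction hk with
  | refl => simpa using h.ns
  | step _ ih =>
    obtain ⟨T, hT, -⟩ := ih
    obtain ⟨A, hA, hn⟩ := (exists_mul_nsc h (g := T)
      (by rw [det_of_mem_pow h.det hT]; exact pow_ne_zero _ h.d0)).1
    exact ⟨_, mul_mem_pow_succ hT hA, hn⟩

/-- a scalar lies in `S ^ (k + 1)` as soon as `S ^ k` contains all non-scalars -/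
theorem PP.one_mem {S : Set (End F V)} (h : Cls S 1) {k : ℕ} (hk : PP S 1 k) : (1 : End F V) ∈ S ^ (k + 1) := by
  obtain ⟨A, hA, hn⟩ := h.ns
  obtain ⟨A', a1, a2⟩ := exists_inv (h := A) (by rw [h.det A hA]; exact one_ne_zero)
  rw [← a2]
  refine mul_mem_pow_succ (hk A' (nsc_of_ne fun t ht => ?_) (by rw [det_inv_eq a1, h.det A hA]; simp)) hA
  rw [ht] at a1
  have t0 : t ≠ 0 := by
    rintro rfl
    obtain ⟨u, hu⟩ := hn
    have := LinearMap.congr_fun a1 u
    simp at this
    exact hu 0 (by rw [← this]; simp)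
  refine hn.ne t⁻¹ ?_
  rw [← a1]
  simp [smul_smul, inv_mul_cancel₀ t0]

end CfsgLib.Lev
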