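import Cfsg.Agent.Lib.Lev.Defs

/-! Observability (plans/LEV.md). -/

set_option autoImplicit false
set_option linter.unusedSectionVars false

namespace CfsgLib.Lev

open Module Polynomial Submodule
open scoped Pointwise

variable {F : Type*} [Field F] {V : Type*} [AddCommGroup V] [Module F V] [FiniteDimensional F V]
  {U : Type*} [AddCommGroup U] [Module F U] [FiniteDimensional F U]
  {U' : Type*} [AddCommGroup U'] [Module F U'] [FiniteDimensional F U']

theorem obs_kr (M : End F V) (φ : Dual F V) (z : V) (e : ℕ) (h0 : ∀ i < e, φ ((M ^ i) z) = 0) (h1 : φ ((M ^ e) z) ≠ 0) :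
    ∀ l ≤ e + 1, LinearIndependent F fun i : Fin l => (M ^ (i : ℕ)) z := by
  intro l
  induction l with
  | zero => intro _; exact linearIndependent_empty_type
  | succ l ih =>
    intro hl
    rw [linearIndependent_finSucc']
    refine ⟨ih (by omega), fun hm => h1 ?_⟩
    have h2 : ∀ x ∈ span F (Set.range (Fin.init fun i : Fin (l + 1) => (M ^ (i : ℕ)) z)), φ ((M ^ (e - l)) x) = 0 := by
      intro x hx
      refine span_induction (p := fun x _ => φ ((M ^ (e - l)) x) = 0) ?_ (by simp) ?_ ?_ hx
      · rintro _ ⟨i, rfl⟩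
        change φ ((M ^ (e - l)) ((M ^ (i : ℕ)) z)) = 0
        rw [← Module.End.mul_apply, ← pow_add]
        exact h0 _ (by have := i.2; omega)
      · intro x y _ _ hx hy; rw [map_add, map_add, hx, hy, add_zero]
      · intro a x _ hx; rw [map_smul, map_smul, hx, smul_zero]
    have h3 := h2 _ hm
    rw [Fin.val_last, ← Module.End.mul_apply, ← pow_add, show e - l + l = e by omega] at h3
    exact h3

theorem obs_range (w : ℕ → V) (m : ℕ) : w '' Set.Iio m = Set.range fun i : Fin m => w i := by
  ext x
  constructor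
  · rintro ⟨i, hi, rfl⟩; exact ⟨⟨i, hi⟩, rfl⟩
  · rintro ⟨i, rfl⟩; exact ⟨i, i.2, rfl⟩

theorem obs_span {z w : ℕ → V} {m : ℕ} (hz : LinearIndependent F fun i : Fin m => z i)
    (h : ∀ i < m, z i ∈ span F (w '' Set.Iio m)) : span F (z '' Set.Iio m) = span F (w '' Set.Iio m) := by
  refine Submodule.eq_of_le_of_finrank_le (span_le.2 ?_) ?_
  · rintro _ ⟨i, hi, rfl⟩; exact h i hi
  · rw [obs_range, obs_range, finrank_span_eq_card hz]
    exact finrank_range_le_card _

theorem obs {g : End F V} {w : ℕ → V} {m : ℕ} (hm : 2 ≤ m) (hn : finrank F V = m + 1) (hd : LinearMap.det g ≠ 0)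
    (h : Cf g w m) : ∃ z : ℕ → V, span F (z '' Set.Iio m) = span F (w '' Set.Iio m) ∧
      ∀ C : End F V, (∀ i, i + 1 < m → C (z i) = z (i + 1)) → ∀ i, i + 1 < m → C (w (i + 1)) = g (w i) := by
  let bw : Basis (Fin (m + 1)) F V := basisOfLinearIndependentOfCardEqFinrank h.ind (by simp [hn])
  have hb : ∀ i : Fin (m + 1), bw i = w i := fun i => by simp [bw]
  let r : ℕ → Dual F V := fun i => if hi : i < m + 1 then bw.coord ⟨i, hi⟩ else 0
  have r1 : ∀ i j, j ≤ m → r i (w j) = if i = j then 1 else 0 := by
    intro i j hj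
    by_cases hi : i < m + 1
    · have : w j = bw ⟨j, by omega⟩ := (hb ⟨j, by omega⟩).symm
      simp only [r, dif_pos hi, this, Basis.coord_apply, Basis.repr_self, Finsupp.single_apply, Fin.mk.injEq]
      simp [eq_comm]
    · simp only [r, dif_neg hi]
      rw [if_neg (by omega)]; rfl
  have r2 : ∀ x, x = ∑ i ∈ Finset.range (m + 1), r i x • w i := by
    intro x
    rw [Finset.sum_range]
    conv_lhs => rw [← bw.sum_repr x]
    refine Finset.sum_congr rfl fun i _ => ?_
    simp only [r, dif_pos i.2, hb, Basis.coord_apply]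
  have r3 : ∀ i ≤ m, ∀ x ∈ span F (w '' Set.Iic i), ∀ l, i < l → r l x = 0 := by
    intro i hi x hx l hl
    refine span_induction (p := fun x _ => r l x = 0) ?_ (by simp) ?_ ?_ hx
    · rintro _ ⟨j, hj, rfl⟩
      have hj' : j ≤ i := hj
      rw [r1 l j (by omega), if_neg (by omega)]
    · intro x y _ _ hx hy; rw [map_add, hx, hy, add_zero]
    · intro a x _ hx; rw [map_smul, hx, smul_zero]
  have r4 : ∀ i, i + 1 < m → ∀ l, i + 1 < l → r l (g (w i)) = 0 := by
    intro i hi l hl
    obtain ⟨ε, -, hε⟩ := h.tri i hi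
    have := r3 i (by omega) _ hε l (by omega)
    rwa [map_sub, map_smul, r1 l (i + 1) (by omega), if_neg (by omega), smul_zero, sub_zero] at this
  have r5 : ∀ l, m < l → ∀ x, r l x = 0 := by
    intro l hl x
    simp only [r, dif_neg (show ¬ l < m + 1 by omega)]; rfl
  -- expansion of vectors with vanishing coordinates
  have r6 : ∀ j ≤ m, ∀ x, r 0 x = 0 → (∀ l, j < l → r l x = 0) → x = ∑ i ∈ Finset.range j, r (i + 1) x • w (i + 1) := by
    intro j hj x h0 hl
    conv_lhs => rw [r2 x, Finset.sum_range_succ', h0, zero_smul, add_zero]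
    symm
    refine Finset.sum_subset (Finset.range_subset_range.2 hj) fun i _ hi => ?_
    rw [hl (i + 1) (by simpa [Nat.lt_succ_iff] using hi), zero_smul]
  let M : End F V := bw.constr F fun j => if 0 < (j : ℕ) ∧ (j : ℕ) < m then g (w (j - 1)) else 0
  have M1 : ∀ i, i + 1 < m → M (w (i + 1)) = g (w i) := by
    intro i hi
    rw [← hb ⟨i + 1, by omega⟩]
    simp only [M, Basis.constr_basis]
    rw [if_pos ⟨by omega, hi⟩]; rfl
  have M2 : ∀ x, r m (M x) = 0 := by
    intro x
    have : r m ∘ₗ M = 0 := by
      refine bw.ext fun j => ?_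
      simp only [M, LinearMap.comp_apply, Basis.constr_basis, LinearMap.zero_apply]
      split_ifs with hj
      · exact r4 _ (by omega) m (by omega)
      · simp
    exact LinearMap.congr_fun this x
  have O2 : ∀ U : Submodule F V, (∀ u ∈ U, M u ∈ U) → (∀ u ∈ U, r 0 u = 0) → ∀ j < m, ∀ u ∈ U,
      (∀ l, j < l → r l u = 0) → u = 0 := by
    intro U hU h0 j
    induction j with
    | zero => intro _ u hu hl; rw [r6 0 (by omega) u (h0 u hu) hl]; simp
    | succ j ih =>
      intro hj u hu hl
      have e1 := r6 (j + 1) (by omega) u (h0 u hu) hl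
      have e2 : M u = ∑ i ∈ Finset.range (j + 1), r (i + 1) u • g (w i) := by
        conv_lhs => rw [e1, map_sum]
        refine Finset.sum_congr rfl fun i hi => ?_
        rw [map_smul, M1 i (by have := Finset.mem_range.1 hi; omega)]
      obtain ⟨ε, hε, ht⟩ := h.tri j hj
      have e3 : M u - ε • u = 0 := by
        refine ih (by omega) _ (U.sub_mem (hU u hu) (U.smul_mem _ hu)) fun l hl' => ?_
        have : M u - ε • u = ∑ i ∈ Finset.range (j + 1), r (i + 1) u • (g (w i) - ε • w (i + 1)) := by
          rw [e2]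
          conv_lhs => rw [e1]
          rw [Finset.smul_sum, ← Finset.sum_sub_distrib]
          refine Finset.sum_congr rfl fun i hi => ?_
          rw [← e1, smul_sub, smul_comm]
        rw [this, map_sum]
        refine Finset.sum_eq_zero fun i hi => ?_
        have hi' := Finset.mem_range.1 hi
        rw [map_smul]
        by_cases hij : i = j
        · rw [hij, r3 j (by omega) _ ht l hl', smul_zero]
        · rw [map_sub, map_smul, r4 i (by omega) l (by omega), r1 l (i + 1) (by omega), if_neg (by omega)]; simp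
      rw [sub_eq_zero] at e3
      rcases hε with rfl | rfl | rfl
      · have e4 : g (∑ i ∈ Finset.range (j + 1), r (i + 1) u • w i) = g 0 := by
          rw [map_sum, map_zero, ← zero_smul F u, ← e3, e2]
          simp only [map_smul, zero_smul]
        have e5 := inj_of_det hd e4
        rw [e1]
        refine Finset.sum_eq_zero fun i hi => ?_
        have hi' := Finset.mem_range.1 hi
        have e6 := congrArg (r i) e5
        rw [map_sum, Finset.sum_eq_single i, map_smul, r1 i i (by omega), if_pos rfl] at e6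
        · rw [show r (i + 1) u = 0 by simpa using e6, zero_smul]
        · intro b hb' hbi
          rw [map_smul, r1 i b (by have := Finset.mem_range.1 hb'; omega), if_neg (Ne.symm hbi), smul_zero]
        · intro hi2; exact absurd hi hi2
      · have e4 := h.one (fun i => r (i + 1) u) (by
          have s1 : ∀ c : ℕ → V, ∑ i ∈ Finset.range (m - 1), r (i + 1) u • c i =
              ∑ i ∈ Finset.range (j + 1), r (i + 1) u • c i := by
            intro c
            symm
            refine Finset.sum_subset (Finset.range_subset_range.2 (by omega)) fun i _ hi => ?_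
            rw [hl (i + 1) (by simpa [Nat.lt_succ_iff] using hi), zero_smul]
          rw [s1, s1 fun i => w (i + 1), ← e2, ← e1, e3, one_smul])
        rw [e1]
        refine Finset.sum_eq_zero fun i hi => ?_
        rw [e4 i (by have := Finset.mem_range.1 hi; omega), zero_smul]
      · rw [e2] at e3
        conv_rhs at e3 => rw [e1]
        simp only [zero_add, Finset.range_one, Finset.sum_singleton] at e3 e1
        by_contra hu0
        have a0 : r 1 u ≠ 0 := fun e => hu0 (by rw [e1, e, zero_smul])
        refine h.zero ε (smul_right_injective V a0 ?_)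
        simp only
        rw [e3, ← e1, smul_comm, ← e1]
  let Φ : V →ₗ[F] F × (Fin (m - 1) → F) := (r m).prod (LinearMap.pi fun i => r 0 ∘ₗ M ^ (i : ℕ))
  obtain ⟨z, hz, z0⟩ := Submodule.exists_mem_ne_zero_of_ne_bot
    (LinearMap.ker_ne_bot_of_finrank_lt (f := Φ) (by simp [hn]; omega))
  have z1 : r m z = 0 := congrArg Prod.fst (LinearMap.mem_ker.1 hz)
  have z2 : ∀ i < m - 1, r 0 ((M ^ i) z) = 0 := fun i hi => congrFun (congrArg Prod.snd (LinearMap.mem_ker.1 hz)) ⟨i, hi⟩
  have z3 : ∀ i, r m ((M ^ i) z) = 0 := by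
    intro i
    cases i with
    | zero => simpa using z1
    | succ i => rw [pow_succ', Module.End.mul_apply, M2]
  have z4 : ∃ e, r 0 ((M ^ e) z) ≠ 0 := by
    by_contra hc
    have hc' : ∀ e, r 0 ((M ^ e) z) = 0 := fun e => by_contra fun h => hc ⟨e, h⟩
    refine z0 (O2 (span F (Set.range fun i : ℕ => (M ^ i) z)) ?_ ?_ (m - 1) (by omega) z
      (subset_span ⟨0, by simp⟩) fun l hl => ?_)
    · intro u hu
      refine span_induction (p := fun x _ => M x ∈ span F (Set.range fun i : ℕ => (M ^ i) z)) ?_ (by simp) ?_ ?_ hu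
      · rintro _ ⟨i, rfl⟩
        exact subset_span ⟨i + 1, by simp [pow_succ']⟩
      · intro x y _ _ hx hy; rw [map_add]; exact add_mem hx hy
      · intro a x _ hx; rw [map_smul]; exact smul_mem _ _ hx
    · intro u hu
      refine span_induction (p := fun x _ => r 0 x = 0) ?_ (by simp) ?_ ?_ hu
      · rintro _ ⟨i, rfl⟩; exact hc' i
      · intro x y _ _ hx hy; rw [map_add, hx, hy, add_zero]
      · intro a x _ hx; rw [map_smul, hx, smul_zero]
    · by_cases e : l = m
      · rw [e, z1]
      · exact r5 l (by omega) z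
  classical
  have z5 := obs_kr M (r 0) z (Nat.find z4) (fun i hi => not_not.1 (Nat.find_min z4 hi)) (Nat.find_spec z4)
  have z6 : m - 1 ≤ Nat.find z4 := by
    by_contra hc
    exact Nat.find_spec z4 (z2 _ (by omega))
  refine ⟨fun i => (M ^ i) z, obs_span (z5 m (by omega)) fun i _ => ?_, fun C hC i hi => ?_⟩
  · rw [r2 ((M ^ i) z), Finset.sum_range_succ, z3, zero_smul, add_zero]
    exact sum_mem fun j hj => smul_mem _ _ (subset_span ⟨j, Finset.mem_range.1 hj, rfl⟩)
  · have h1 := obs_span (z := fun i => (M ^ i) z) (w := fun i => w (i + 1)) (z5 (m - 1) (by omega)) (fun i hi => by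
      rw [r6 (m - 1) (by omega) ((M ^ i) z) (z2 i hi) fun l hl => by
        by_cases e : l = m
        · rw [e, z3]
        · exact r5 l (by omega) _]
      exact sum_mem fun j hj => smul_mem _ _ (subset_span ⟨j, Finset.mem_range.1 hj, rfl⟩))
    have h2 : w (i + 1) ∈ span F ((fun i => (M ^ i) z) '' Set.Iio (m - 1)) := by
      rw [h1]; exact subset_span ⟨i, show i < m - 1 by omega, rfl⟩
    rw [← M1 i hi]
    refine LinearMap.eqOn_span (fun x hx => ?_) h2
    obtain ⟨j, hj, rfl⟩ := hx
    have hj' : j < m - 1 := hj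
    rw [hC j (by omega)]
    simp [pow_succ']


end CfsgLib.Lev
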