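import Cfsg.Agent.Lib.Lev.Defs

/-! Polynomials over a field with at least four elements (plans/LEV.md). -/

set_option autoImplicit false
set_option linter.unusedSectionVars false

namespace CfsgLib.Lev

open Module Polynomial Submodule
open scoped Pointwise

variable {F : Type*} [Field F] {V : Type*} [AddCommGroup V] [Module F V] [FiniteDimensional F V]
  {U : Type*} [AddCommGroup U] [Module F U] [FiniteDimensional F U]
  {U' : Type*} [AddCommGroup U'] [Module F U'] [FiniteDimensional F U']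

theorem avoid3 [Fintype F] (h4 : 4 ≤ Fintype.card F) {P Q R : F → Prop} (hP : ∀ a b, P a → P b → a = b)
    (hQ : ∀ a b, Q a → Q b → a = b) (hR : ∀ a b, R a → R b → a = b) : ∃ x, ¬ P x ∧ ¬ Q x ∧ ¬ R x := by
  classical
  have key : ∀ P : F → Prop, (∀ a b, P a → P b → a = b) → (Finset.univ.filter P).card ≤ 1 := fun P h =>
    Finset.card_le_one.2 fun a ha b hb => h a b (Finset.mem_filter.1 ha).2 (Finset.mem_filter.1 hb).2
  have h1 := Finset.card_union_le (Finset.univ.filter P ∪ Finset.univ.filter Q) (Finset.univ.filter R)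
  have h2 := Finset.card_union_le (Finset.univ.filter P) (Finset.univ.filter Q)
  have h3 := key P hP
  have h5 := key Q hQ
  have h6 := key R hR
  obtain ⟨x, -, hx⟩ := Finset.exists_mem_notMem_of_card_lt_card
    (s := Finset.univ.filter P ∪ Finset.univ.filter Q ∪ Finset.univ.filter R) (t := Finset.univ)
    (by rw [Finset.card_univ]; omega)
  exact ⟨x, by simpa [not_or, and_assoc] using hx⟩

theorem poly_avoid [Fintype F] (h4 : 4 ≤ Fintype.card F) (a b c : F) : ∃ x, x ≠ a ∧ x ≠ b ∧ x ≠ c :=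
  avoid3 h4 (fun _ _ h h' => h.trans h'.symm) (fun _ _ h h' => h.trans h'.symm) (fun _ _ h h' => h.trans h'.symm)

theorem poly_odd [Fintype F] (h2 : (2 : F) ≠ 0) : Fintype.card F % 2 = 1 :=
  FiniteField.odd_card_of_char_ne_two fun h => h2 (by
    have := ringChar.Nat.cast_ringChar (R := F)
    rw [h] at this
    exact_mod_cast this)

theorem exists_quad_ne [Fintype F] (h4 : 4 ≤ Fintype.card F) (s r : F) : ∃ c : F, c ≠ 0 ∧ c * (s - c) + r ≠ 0 := by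
  by_cases h : ∃ ρ : F, ρ * (s - ρ) + r = 0
  · obtain ⟨ρ, hρ⟩ := h
    obtain ⟨c, h0, h1, h2⟩ := poly_avoid h4 0 ρ (s - ρ)
    refine ⟨c, h0, fun hc => ?_⟩
    have : (c - ρ) * (c - (s - ρ)) = 0 := by linear_combination hρ - hc
    rcases mul_eq_zero.1 this with h | h
    exacts [h1 (sub_eq_zero.1 h), h2 (sub_eq_zero.1 h)]
  · exact ⟨1, one_ne_zero, fun hc => h ⟨1, hc⟩⟩

theorem poly_tri {m : ℕ} (hm : 2 ≤ m) (β c : F) :
    (X ^ m + (C β * X + C c) : F[X]).Monic ∧ (X ^ m + (C β * X + C c) : F[X]).natDegree = m := by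
  have h : (C β * X + C c : F[X]).degree < (X ^ m : F[X]).degree := by
    rw [degree_X_pow]
    exact lt_of_lt_of_le degree_linear_lt (by exact_mod_cast hm)
  exact ⟨(monic_X_pow m).add_of_left h, by rw [natDegree_add_eq_left_of_degree_lt h, natDegree_X_pow]⟩

theorem exists_rootless [Fintype F] {m : ℕ} (hm : 2 ≤ m) {c : F} (hc : c ≠ 0) :
    ∃ χ : F[X], χ.Monic ∧ χ.natDegree = m ∧ χ.eval 0 = c ∧ ∀ a, χ.eval a ≠ 0 := by
  classical
  obtain ⟨β, -, hβ⟩ := Finset.exists_mem_notMem_of_card_lt_card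
    (s := (Finset.univ.erase (0 : F)).image fun ρ => -(ρ ^ m + c) / ρ) (t := Finset.univ)
    (lt_of_le_of_lt Finset.card_image_le (Finset.card_erase_lt_of_mem (Finset.mem_univ _)))
  have h0 : (X ^ m + (C β * X + C c) : F[X]).eval 0 = c := by simp [show m ≠ 0 by omega]
  refine ⟨_, (poly_tri hm β c).1, (poly_tri hm β c).2, h0, fun a ha => ?_⟩
  have a0 : a ≠ 0 := by
    rintro rfl
    exact hc (h0 ▸ ha)
  refine hβ (Finset.mem_image.2 ⟨a, Finset.mem_erase.2 ⟨a0, Finset.mem_univ _⟩, ?_⟩)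
  simp only [eval_add, eval_pow, eval_X, eval_mul, eval_C] at ha
  field_simp
  linear_combination -ha

theorem poly_cop {ρ : F[X]} {a : F} (h : ρ.eval a ≠ 0) : IsCoprime (X - C a) ρ :=
  (irreducible_X_sub_C a).coprime_iff_not_dvd.2 fun hd => h (dvd_iff_isRoot.1 hd)

theorem poly_root_unique {π : F[X]} (i : Irreducible π) (a b : F) (ha : π.eval a = 0) (hb : π.eval b = 0) :
    a = b := by
  obtain ⟨q, hq⟩ := ((irreducible_X_sub_C a).associated_of_dvd i (dvd_iff_isRoot.2 ha)).symm.dvd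
  have := congrArg (eval b) hq
  rw [eval_mul, hb, zero_mul] at this
  simp only [eval_sub, eval_X, eval_C] at this
  exact (sub_eq_zero.1 this).symm

theorem poly_dvd_unique {π ψ : F[X]} (i : Irreducible π) (z : π.eval 0 ≠ 0) (c a b : F)
    (ha : π ∣ ψ + (C a * X + C c)) (hb : π ∣ ψ + (C b * X + C c)) : a = b := by
  by_contra hab
  have h1 : π ∣ C (a - b)⁻¹ * ((ψ + (C a * X + C c)) - (ψ + (C b * X + C c))) := (dvd_sub ha hb).mul_left _
  have h2 : C (a - b)⁻¹ * ((ψ + (C a * X + C c)) - (ψ + (C b * X + C c))) = X - C 0 := by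
    have : C (a - b)⁻¹ * C (a - b) = (1 : F[X]) := by rw [← C_mul, inv_mul_cancel₀ (sub_ne_zero.2 hab), C_1]
    rw [C_sub] at this
    rw [C_0]
    linear_combination X * this
  rw [h2] at h1
  exact z (dvd_iff_isRoot.1 (i.associated_of_dvd (irreducible_X_sub_C 0) h1).symm.dvd)

theorem exists_cp [Fintype F] (h4 : 4 ≤ Fintype.card F) {m : ℕ} (hm : 3 ≤ m) {c : F} (hc : c ≠ 0) {π₁ π₂ : F[X]}
    (i₁ : Irreducible π₁) (i₂ : Irreducible π₂) (z₁ : π₁.eval 0 ≠ 0) (z₂ : π₂.eval 0 ≠ 0) :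
    ∃ (γ : F) (ψ : F[X]), ((X - C γ) * ψ).Monic ∧ ((X - C γ) * ψ).natDegree = m ∧ ((X - C γ) * ψ).eval 0 = c ∧
      ψ.eval γ ≠ 0 ∧ IsCoprime ((X - C γ) * ψ) π₁ ∧ IsCoprime ((X - C γ) * ψ) π₂ := by
  obtain ⟨γ, g0, g1, g2⟩ := avoid3 h4 (P := fun x => x = 0) (fun _ _ h h' => h.trans h'.symm)
    (poly_root_unique i₁) (poly_root_unique i₂)
  obtain ⟨k, rfl⟩ : ∃ k, m = k + 1 := ⟨m - 1, by omega⟩
  obtain ⟨β, b1, b2, b3⟩ := avoid3 h4 (poly_dvd_unique (ψ := X ^ k) i₁ z₁ (-c / γ))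
    (poly_dvd_unique (ψ := X ^ k) i₂ z₂ (-c / γ))
    (poly_dvd_unique (ψ := X ^ k) (irreducible_X_sub_C γ) (by simpa using g0) (-c / γ))
  obtain ⟨m1, m2⟩ := poly_tri (show 2 ≤ k by omega) β (-c / γ)
  refine ⟨γ, _, (monic_X_sub_C γ).mul m1, ?_, ?_, fun h => b3 (dvd_iff_isRoot.2 h),
    (poly_cop g1).mul_left (i₁.coprime_iff_not_dvd.2 b1).symm,
    (poly_cop g2).mul_left (i₂.coprime_iff_not_dvd.2 b2).symm⟩
  · rw [(monic_X_sub_C γ).natDegree_mul m1, m2, natDegree_X_sub_C, add_comm]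
  · simp only [eval_mul, eval_sub, eval_X, eval_C, eval_add, eval_pow, zero_pow (show k ≠ 0 by omega)]
    field_simp
    ring

theorem two_fac {χ : F[X]} (hm : χ.Monic) (hd : χ.natDegree = 2) (h0 : χ.eval 0 ≠ 0) :
    ∃ π₁ π₂ : F[X], Irreducible π₁ ∧ Irreducible π₂ ∧ π₁.eval 0 ≠ 0 ∧ π₂.eval 0 ≠ 0 ∧ χ ∣ π₁ * π₂ := by
  by_cases h : ∃ a, χ.IsRoot a
  · obtain ⟨a, ha⟩ := h
    obtain ⟨q, rfl⟩ := dvd_iff_isRoot.2 ha
    have q0 : q ≠ 0 := right_ne_zero_of_mul hm.ne_zero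
    rw [natDegree_mul (X_sub_C_ne_zero a) q0, natDegree_X_sub_C] at hd
    rw [eval_mul] at h0
    exact ⟨_, q, irreducible_X_sub_C a, irreducible_of_degree_eq_one
      (by rw [degree_eq_natDegree q0, show q.natDegree = 1 by omega]; rfl),
      left_ne_zero_of_mul h0, right_ne_zero_of_mul h0, dvd_rfl⟩
  · have i : Irreducible χ := irreducible_of_degree_le_three_of_not_isRoot (by rw [hd]; simp)
      fun a ha => h ⟨a, ha⟩
    exact ⟨χ, χ, i, i, h0, h0, dvd_mul_right _ _⟩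

theorem exists_two_roots {m : ℕ} (hm : 1 ≤ m) {c : F} (hc : c ≠ 0) :
    ∃ (χ π₁ π₂ : F[X]), χ.Monic ∧ χ.natDegree = m ∧ χ.eval 0 = c ∧ Irreducible π₁ ∧ Irreducible π₂ ∧ π₁.eval 0 ≠ 0 ∧
      π₂.eval 0 ≠ 0 ∧ χ ∣ (π₁ * π₂) ^ m := by
  obtain ⟨k, rfl⟩ : ∃ k, m = k + 1 := ⟨m - 1, by omega⟩
  have e : ((-1 : F) ^ k) * (-1) ^ k = 1 := by rw [← mul_pow]; simp
  refine ⟨(X - C (-((-1) ^ k * c))) * (X - C 1) ^ k, X - C (-((-1) ^ k * c)), X - C 1,
    (monic_X_sub_C _).mul ((monic_X_sub_C _).pow k), ?_, ?_, irreducible_X_sub_C _, irreducible_X_sub_C _,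
    by simpa using hc, by simp, ?_⟩
  · rw [(monic_X_sub_C _).natDegree_mul ((monic_X_sub_C _).pow k), (monic_X_sub_C _).natDegree_pow,
      natDegree_X_sub_C, natDegree_X_sub_C]; ring
  · simp only [eval_mul, eval_sub, eval_X, eval_C, eval_pow, zero_sub]
    linear_combination c * e
  · rw [mul_pow]
    exact mul_dvd_mul (dvd_pow_self _ (by omega)) (pow_dvd_pow _ (by omega))

theorem poly_three (x y ν : F) (k : ℕ) : ((X - C x) * ((X - C y) * (X - C ν) ^ k)).Monic ∧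
    ((X - C x) * ((X - C y) * (X - C ν) ^ k)).natDegree = k + 2 ∧
    (∀ a, ((X - C x) * ((X - C y) * (X - C ν) ^ k)).eval a = (a - x) * ((a - y) * (a - ν) ^ k)) ∧
    ∀ ρ : F[X], (∀ a, ρ.eval a ≠ 0) → IsCoprime ((X - C x) * ((X - C y) * (X - C ν) ^ k)) ρ := by
  have m1 := (monic_X_sub_C y).mul ((monic_X_sub_C ν).pow k)
  refine ⟨(monic_X_sub_C x).mul m1, ?_, fun a => by simp, fun ρ h =>
    (poly_cop (h x)).mul_left ((poly_cop (h y)).mul_left (poly_cop (h ν)).pow_left)⟩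
  rw [(monic_X_sub_C x).natDegree_mul m1, (monic_X_sub_C y).natDegree_mul ((monic_X_sub_C ν).pow k),
    (monic_X_sub_C ν).natDegree_pow, natDegree_X_sub_C, natDegree_X_sub_C, natDegree_X_sub_C]
  ring

theorem poly_gamma [Fintype F] (h4 : 4 ≤ Fintype.card F) (c : F) : ∃ γ : F, γ ≠ 0 ∧ γ ≠ 1 ∧ γ * γ ≠ c := by
  classical
  by_cases h : ∃ ρ, ρ * ρ = c
  swap
  · obtain ⟨γ, h0, h1, -⟩ := poly_avoid h4 0 1 0
    exact ⟨γ, h0, h1, fun e => h ⟨γ, e⟩⟩
  obtain ⟨ρ, rfl⟩ := h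
  by_cases h2 : (2 : F) = 0
  · obtain ⟨γ, h0, h1, h3⟩ := poly_avoid h4 0 1 ρ
    refine ⟨γ, h0, h1, fun e => h3 ?_⟩
    rcases mul_self_eq_mul_self_iff.1 e with e | e
    · exact e
    · linear_combination e - ρ * h2
  · have := poly_odd h2
    obtain ⟨γ, -, hγ⟩ := Finset.exists_mem_notMem_of_card_lt_card (s := ({0, 1, ρ, -ρ} : Finset F))
      (t := Finset.univ) (lt_of_le_of_lt Finset.card_le_four (by rw [Finset.card_univ]; omega))
    simp only [Finset.mem_insert, Finset.mem_singleton, not_or] at hγ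
    exact ⟨γ, hγ.1, hγ.2.1, fun e => (mul_self_eq_mul_self_iff.1 e).elim hγ.2.2.1 hγ.2.2.2⟩

theorem exists_split_simple [Fintype F] (h4 : 4 ≤ Fintype.card F) {m : ℕ} (hm : 2 ≤ m) {c : F} (hc : c ≠ 0) :
    ∃ (γ : F) (ψ : F[X]), ((X - C γ) * ψ).Monic ∧ ((X - C γ) * ψ).natDegree = m ∧ ((X - C γ) * ψ).eval 0 = c ∧
      ψ.eval γ ≠ 0 ∧ ∀ ρ : F[X], (∀ a, ρ.eval a ≠ 0) → IsCoprime ((X - C γ) * ψ) ρ := by
  obtain ⟨k, rfl⟩ : ∃ k, m = k + 2 := ⟨m - 2, by omega⟩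
  have e : ((-1 : F) ^ k) * (-1) ^ k = 1 := by rw [← mul_pow]; simp
  obtain ⟨γ, g0, g1, g2⟩ := poly_gamma h4 ((-1) ^ k * c)
  obtain ⟨h1, h2, h3, h5⟩ := poly_three γ ((-1) ^ k * c / γ) 1 k
  refine ⟨γ, _, h1, h2, ?_, ?_, h5⟩
  · rw [h3, zero_sub (1 : F)]
    field_simp
    linear_combination γ * c * e
  · simp only [eval_mul, eval_sub, eval_X, eval_C, eval_pow]
    refine mul_ne_zero (sub_ne_zero.2 fun h => g2 ?_) (pow_ne_zero _ (sub_ne_zero.2 g1))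
    rwa [eq_div_iff g0] at h

theorem exists_split_avoid [Fintype F] (h4 : 4 ≤ Fintype.card F) {m : ℕ} (hm : 2 ≤ m) {c : F} (hc : c ≠ 0) (ξ : F) :
    ∃ χ : F[X], χ.Monic ∧ χ.natDegree = m ∧ χ.eval 0 = c ∧ χ.eval ξ ≠ 0 ∧
      ∀ ρ : F[X], (∀ a, ρ.eval a ≠ 0) → IsCoprime χ ρ := by
  obtain ⟨k, rfl⟩ : ∃ k, m = k + 2 := ⟨m - 2, by omega⟩
  obtain ⟨ν, n0, n1, -⟩ := poly_avoid h4 0 ξ 0
  have n2 : (-ν) ^ k ≠ 0 := pow_ne_zero _ (neg_ne_zero.2 n0)
  have c0 : c / (-ν) ^ k ≠ 0 := div_ne_zero hc n2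
  obtain ⟨y, y0, y1, y2⟩ := avoid3 h4 (P := fun x => x = 0) (Q := fun x => x = ξ)
    (R := fun x => ξ * x = c / (-ν) ^ k) (fun _ _ h h' => h.trans h'.symm) (fun _ _ h h' => h.trans h'.symm)
    (fun _ _ h h' => mul_left_cancel₀ (left_ne_zero_of_mul (h ▸ c0)) (h.trans h'.symm))
  obtain ⟨h1, h2, h3, h5⟩ := poly_three y (c / (-ν) ^ k / y) ν k
  refine ⟨_, h1, h2, ?_, ?_, h5⟩
  · rw [h3, zero_sub ν]
    field_simp
    ring
  · rw [h3]
    refine mul_ne_zero (sub_ne_zero.2 (Ne.symm y1)) (mul_ne_zero (sub_ne_zero.2 fun h => y2 ?_)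
      (pow_ne_zero _ (sub_ne_zero.2 (Ne.symm n1))))
    rwa [eq_div_iff y0] at h

theorem poly_sum_sq [Fintype F] (h2 : (2 : F) ≠ 0) {u v : F} (hu : u ≠ 0) (hv : v ≠ 0) (w : F) :
    ∃ a b : F, u * a ^ 2 + v * b ^ 2 + w = 0 := by
  obtain ⟨a, b, h⟩ := FiniteField.exists_root_sum_quadratic (degree_quadratic (b := 0) (c := 0) hu)
    (degree_quadratic (b := 0) (c := w) hv) (poly_odd h2)
  refine ⟨a, b, ?_⟩
  simp only [eval_add, eval_mul, eval_C, eval_pow, eval_X] at h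
  linear_combination h

theorem SQ.cons {j : ℕ} {s c : F} (h : SQ j s) (hc : c ≠ 0) : SQ (j + 1) (c ^ 2 + s) := by
  obtain ⟨d, d0, e⟩ := h
  refine ⟨Fin.cons c d, fun i => Fin.cases hc d0 i, ?_⟩
  simp [Fin.sum_univ_succ, e]

theorem SQ.uncons {j : ℕ} {s : F} (h : SQ (j + 1) s) : ∃ c s', c ≠ 0 ∧ SQ j s' ∧ s = c ^ 2 + s' := by
  obtain ⟨d, d0, e⟩ := h
  exact ⟨d 0, _, d0 0, ⟨fun i => d i.succ, fun i => d0 _, rfl⟩, by rw [← e, Fin.sum_univ_succ]⟩

theorem SQ.nil : SQ 0 (0 : F) := ⟨Fin.elim0, fun i => i.elim0, by simp⟩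

theorem exists_sq_ne_one [Fintype F] (h4 : 4 ≤ Fintype.card F) : ∃ z : F, z ≠ 0 ∧ z ^ 2 ≠ 1 := by
  obtain ⟨z, h0, h1, h2⟩ := poly_avoid h4 0 1 (-1)
  exact ⟨z, h0, fun h => (sq_eq_one_iff.1 h).elim h1 h2⟩

theorem sq_zero [Fintype F] (h4 : 4 ≤ Fintype.card F) (h2 : (2 : F) ≠ 0) {n : ℕ} (hn : 4 ≤ n) (he : Even n) :
    SQ n (0 : F) := by
  by_cases hi : ∃ i : F, i ^ 2 = -1
  · obtain ⟨i, hi⟩ := hi
    have i0 : i ≠ 0 := by
      rintro rfl
      simp at hi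
    obtain ⟨k, rfl⟩ := he
    clear hn
    induction k with
    | zero => exact SQ.nil
    | succ k ih =>
      have := (ih.cons i0).cons one_ne_zero
      rw [hi] at this
      simpa [add_assoc, add_comm, add_left_comm] using this
  · obtain ⟨x, y, e⟩ := poly_sum_sq h2 one_ne_zero one_ne_zero 1
    have x0 : x ≠ 0 := by
      rintro rfl
      exact hi ⟨y, by linear_combination e⟩
    have y0 : y ≠ 0 := by
      rintro rfl
      exact hi ⟨x, by linear_combination e⟩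
    have h3 : SQ 3 (0 : F) := by
      have := ((SQ.nil.cons x0).cons y0).cons one_ne_zero
      convert this using 1
      linear_combination -e
    obtain ⟨m, m0, m1⟩ := exists_sq_ne_one h4
    have m2 : m ^ 2 + 1 ≠ 0 := fun h => hi ⟨m, by linear_combination h⟩
    have step : ∀ j, SQ (j + 1) (0 : F) → SQ (j + 2) (0 : F) := by
      intro j h
      obtain ⟨c, s, c0, hs, e⟩ := h.uncons
      have := (hs.cons (c := (m ^ 2 - 1) / (m ^ 2 + 1) * c)
        (mul_ne_zero (div_ne_zero (sub_ne_zero.2 m1) m2) c0)).cons (c := 2 * m / (m ^ 2 + 1) * c)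
        (mul_ne_zero (div_ne_zero (mul_ne_zero h2 m0) m2) c0)
      convert this using 1
      rw [e]
      field_simp
      ring
    obtain ⟨k, rfl⟩ : ∃ k, n = k + 3 := ⟨n - 3, by omega⟩
    clear hn he
    induction k with
    | zero => exact h3
    | succ k ih => exact step _ ih

theorem exists_norm [Fintype F] (h2 : (2 : F) ≠ 0) {s d : F} (h : s ^ 2 - 4 * d ≠ 0) :
    ∃ α β : F, α ^ 2 + s * α * β + d * β ^ 2 = -1 := by
  obtain ⟨x, β, e⟩ := poly_sum_sq h2 one_ne_zero (neg_ne_zero.2 h) 4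
  refine ⟨(x - s * β) / 2, β, ?_⟩
  field_simp
  linear_combination e

end CfsgLib.Lev
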