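import Cfsg.Agent.Lib.Lev.CDec
import Cfsg.Agent.Lib.Lev.Poly
import Cfsg.Agent.Lib.Lev.Obs

/-! Every non-scalar map has a good configuration (plans/LEV.md). -/

set_option autoImplicit false
set_option linter.unusedSectionVars false

namespace CfsgLib.Lev

open Module Polynomial Submodule
open scoped Pointwise

variable {F : Type*} [Field F] {V : Type*} [AddCommGroup V] [Module F V] [FiniteDimensional F V]
  {U : Type*} [AddCommGroup U] [Module F U] [FiniteDimensional F U]
  {U' : Type*} [AddCommGroup U'] [Module F U'] [FiniteDimensional F U']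

theorem gd_ind {w : ℕ → V} {l : ℕ} : LinearIndependent F (fun i : Fin l => w i) ↔
    ∀ a : ℕ → F, ∑ i ∈ Finset.range l, a i • w i = 0 → ∀ i < l, a i = 0 := by
  rw [Fintype.linearIndependent_iff]
  constructor
  · intro h a ha i hi
    exact h (fun i => a i) (by rwa [Finset.sum_range] at ha) ⟨i, hi⟩
  · intro h a ha i
    have := h (fun j => if hj : j < l then a ⟨j, hj⟩ else 0) (by
      rw [Finset.sum_range, ← ha]
      exact Finset.sum_congr rfl fun j _ => by rw [dif_pos j.2]) i i.2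
    rwa [dif_pos i.2] at this

theorem gd_ind_mono {w : ℕ → V} {l j : ℕ} (h : LinearIndependent F fun i : Fin l => w i) (hj : j ≤ l) :
    LinearIndependent F fun i : Fin j => w i :=
  h.comp (Fin.castLE hj) (Fin.castLE_injective hj)

theorem gd_notMem {w : ℕ → V} {l j : ℕ} (h : LinearIndependent F fun i : Fin l => w i) (hj : j < l) :
    w j ∉ span F (w '' Set.Iio j) := by
  have := (linearIndependent_finSucc'.1 (gd_ind_mono h (show j + 1 ≤ l from hj))).2
  rwa [obs_range]

theorem gd_of_notMem {w : ℕ → V} : ∀ l : ℕ, (∀ j < l, w j ∉ span F (w '' Set.Iio j)) →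
    LinearIndependent F fun i : Fin l => w i := by
  intro l
  induction l with
  | zero => intro _; exact linearIndependent_empty_type
  | succ l ih =>
    intro h
    rw [linearIndependent_finSucc']
    refine ⟨ih fun j hj => h j (by omega), ?_⟩
    have := h l (by omega)
    rwa [obs_range] at this

/-- the Krylov flag -/
def gdK (g : End F V) (v : V) (j : ℕ) : Submodule F V := span F ((fun i => (g ^ i) v) '' Set.Iio j)

theorem gdK_mono (g : End F V) (v : V) {i j : ℕ} (h : i ≤ j) : gdK g v i ≤ gdK g v j :=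
  span_mono (Set.image_mono (Set.Iio_subset_Iio h))

theorem gdK_mem (g : End F V) (v : V) {i j : ℕ} (h : i < j) : (g ^ i) v ∈ gdK g v j := subset_span ⟨i, h, rfl⟩

theorem gdK_map (g : End F V) (v : V) {j : ℕ} {x : V} (h : x ∈ gdK g v j) : g x ∈ gdK g v (j + 1) := by
  refine span_induction (p := fun x _ => g x ∈ gdK g v (j + 1)) ?_ (by simp) ?_ ?_ h
  · rintro _ ⟨i, hi, rfl⟩
    have := gdK_mem g v (show i + 1 < j + 1 from Nat.succ_lt_succ hi)
    rwa [pow_succ'] at this
  · intro x y _ _ hx hy; rw [map_add]; exact add_mem hx hy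
  · intro a x _ hx; rw [map_smul]; exact smul_mem _ _ hx

/-- the basis used in a cyclic block -/
def pw (g : End F V) (v : V) (t : F) (c : ℕ → F) : ℕ → V
  | 0 => t • v
  | 1 => g v - c 0 • v
  | (i + 2) => g (pw g v t c (i + 1)) - c (i + 1) • pw g v t c (i + 1)

theorem pw_t (g : End F V) (v : V) (t t' : F) (c : ℕ → F) : ∀ i, pw g v t c (i + 1) = pw g v t' c (i + 1) := by
  intro i
  induction i with
  | zero => rfl
  | succ i ih => rw [pw, pw, ih]

theorem pw_c (g : End F V) (v : V) (t : F) {c c' : ℕ → F} : ∀ l, (∀ i < l, c i = c' i) → pw g v t c l = pw g v t c' l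
  | 0, _ => rfl
  | 1, h => by rw [pw, pw, h 0 (by omega)]
  | (l + 2), h => by rw [pw, pw, h (l + 1) (by omega), pw_c g v t (l + 1) fun i hi => h i (by omega)]

theorem pw_lead (g : End F V) (v : V) (t : F) (c : ℕ → F) : ∀ i, pw g v t c (i + 1) - (g ^ (i + 1)) v ∈ gdK g v (i + 1) := by
  intro i
  induction i with
  | zero =>
    have : pw g v t c (0 + 1) - (g ^ (0 + 1)) v = (-c 0) • (g ^ 0) v := by simp [pw]
    rw [this]
    exact smul_mem _ _ (gdK_mem g v (by omega))
  | succ i ih =>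
    have : pw g v t c (i + 1 + 1) - (g ^ (i + 1 + 1)) v = g (pw g v t c (i + 1) - (g ^ (i + 1)) v) -
        c (i + 1) • (pw g v t c (i + 1) - (g ^ (i + 1)) v) - c (i + 1) • (g ^ (i + 1)) v := by
      rw [pw, pow_succ' g (i + 1), map_sub, smul_sub, Module.End.mul_apply]; abel
    rw [this]
    exact sub_mem (sub_mem (gdK_map g v ih) (smul_mem _ _ (gdK_mono g v (by omega) ih)))
      (smul_mem _ _ (gdK_mem g v (by omega)))

theorem pw_mem (g : End F V) (v : V) (t : F) (c : ℕ → F) {i j : ℕ} (h : i < j) : pw g v t c i ∈ gdK g v j := by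
  cases i with
  | zero => exact smul_mem _ _ (by simpa using gdK_mem g v h)
  | succ i =>
    have := add_mem (gdK_mono g v h.le (pw_lead g v t c i)) (gdK_mem g v h)
    rwa [sub_add_cancel] at this

theorem pw_notMem {g : End F V} {v : V} {k : ℕ} (h : LinearIndependent F fun i : Fin k => (g ^ (i : ℕ)) v) {t : F}
    (ht : t ≠ 0) (c : ℕ → F) {i : ℕ} (hi : i < k) : pw g v t c i ∉ gdK g v i := by
  intro hm
  refine gd_notMem (w := fun i => (g ^ i) v) h hi ?_
  cases i with
  | zero =>
    have := smul_mem _ t⁻¹ hm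
    rw [pw, smul_smul, inv_mul_cancel₀ ht, one_smul] at this
    rw [pow_zero]
    exact this
  | succ i =>
    have := sub_mem hm (pw_lead g v t c i)
    rwa [sub_sub_cancel] at this

theorem pw_ind {g : End F V} {v : V} {k : ℕ} (h : LinearIndependent F fun i : Fin k => (g ^ (i : ℕ)) v) {t : F}
    (ht : t ≠ 0) (c : ℕ → F) : LinearIndependent F fun i : Fin k => pw g v t c i := by
  refine gd_of_notMem k fun j hj hm => pw_notMem h ht c hj (span_le.2 ?_ hm)
  rintro _ ⟨i, hi, rfl⟩
  exact pw_mem g v t c hi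

theorem pw_step (g : End F V) (v : V) (t : F) (c : ℕ → F) (i : ℕ) :
    g (pw g v t c i) - (if i = 0 then t else 1) • pw g v t c (i + 1) = c i • pw g v t c i := by
  cases i with
  | zero => simp [pw, smul_sub, smul_smul, mul_comm]
  | succ i => simp [pw]

theorem pw_tri (g : End F V) (v : V) (t : F) (c : ℕ → F) (i : ℕ) : ∃ ε : F, (ε = 0 ∨ ε = 1 ∨ (i = 0 ∧ ε = t)) ∧
    g (pw g v t c i) - ε • pw g v t c (i + 1) ∈ span F (pw g v t c '' Set.Iic i) := by
  refine ⟨if i = 0 then t else 1, by split_ifs with h <;> simp [h], ?_⟩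
  rw [pw_step]
  exact smul_mem _ _ (subset_span ⟨i, le_refl i, rfl⟩)

theorem pw_one {g : End F V} {v : V} {k : ℕ} (h : LinearIndependent F fun i : Fin k => (g ^ (i : ℕ)) v) {t : F}
    (ht : t ≠ 0) {c : ℕ → F} {j : ℕ} (hj : j < k) (hc : ∀ i < j, c i ≠ 0) (a : ℕ → F)
    (e : ∑ i ∈ Finset.range j, a i • g (pw g v t c i) = ∑ i ∈ Finset.range j, a i • pw g v t c (i + 1)) :
    ∀ i < j, a i = 0 := by
  cases j with
  | zero => intro i hi; omega
  | succ j =>
    have hi := gd_ind.1 (gd_ind_mono (pw_ind h ht c) (show j + 2 ≤ k from hj))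
      (fun i => (if i < j + 1 then a i * c i else 0) + if i = 1 then a 0 * (t - 1) else 0) (by
        simp only [add_smul, Finset.sum_add_distrib]
        rw [Finset.sum_range_succ, if_neg (lt_irrefl _), zero_smul, add_zero, Finset.sum_eq_single 1 (s := Finset.range (j + 2)), if_pos rfl]
        · rw [← sub_eq_zero, ← Finset.sum_sub_distrib] at e
          rw [← e, Finset.sum_range_succ', Finset.sum_range_succ' _ j]
          have s0 := pw_step g v t c 0
          rw [if_pos rfl] at s0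
          rw [if_pos (by omega), mul_smul, ← s0, add_assoc]
          congr 1
          · refine Finset.sum_congr rfl fun i hi => ?_
            have s1 := pw_step g v t c (i + 1)
            rw [if_neg (by omega), one_smul] at s1
            rw [if_pos (by have := Finset.mem_range.1 hi; omega), mul_smul, ← s1, smul_sub]
          · rw [mul_smul, sub_smul, one_smul, smul_sub, smul_sub]; abel
        · intro b _ hb; rw [if_neg hb, zero_smul]
        · intro h1; exact absurd (Finset.mem_range.2 (by omega)) h1)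
    have a0 : a 0 = 0 := by
      have := hi 0 (by omega)
      simpa [hc 0 (by omega)] using this
    intro i hi'
    have := hi i (by omega)
    simpa [a0, hi', hc i hi'] using this

theorem pw_zero {g : End F V} {v : V} {k : ℕ} (h : LinearIndependent F fun i : Fin k => (g ^ (i : ℕ)) v) {t : F}
    (ht : t ≠ 0) {c : ℕ → F} (hk : 2 ≤ k) (hc : c 0 ≠ 0) (d : F) : g (pw g v t c 0) ≠ d • pw g v t c 1 := by
  intro e
  have s0 := pw_step g v t c 0
  rw [if_pos rfl, e] at s0
  have hi := gd_ind.1 (gd_ind_mono (pw_ind h ht c) hk) (fun i => if i = 0 then c 0 else t - d) (by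
    rw [Finset.sum_range_succ, Finset.sum_range_one, if_pos rfl, if_neg (by omega), ← s0, sub_smul]; abel)
  exact hc (by simpa using hi 0 (by omega))

/-- a block below the top -/
structure Pc (g : End F V) (X : Submodule F V) (w : ℕ → V) (k : ℕ) (t : F) : Prop where
  ind : LinearIndependent F fun i : Fin k => w i
  eq : span F (w '' Set.Iio k) = X
  tri : ∀ i, i + 1 < k → ∃ ε : F, (ε = 0 ∨ ε = 1 ∨ (i = 0 ∧ ε = t)) ∧ g (w i) - ε • w (i + 1) ∈ span F (w '' Set.Iic i)
  one : ∀ a : ℕ → F, ∑ i ∈ Finset.range k, a i • g (w i) = ∑ i ∈ Finset.range (k - 1), a i • w (i + 1) → ∀ i < k, a i = 0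
  zero : 2 ≤ k → ∀ d : F, g (w 0) ≠ d • w 1

/-- a configuration in an invariant subspace -/
structure Cg (g : End F V) (Z : Submodule F V) (w : ℕ → V) (m : ℕ) (t : F) : Prop where
  pos : 1 ≤ m
  ind : LinearIndependent F fun i : Fin (m + 1) => w i
  mem : ∀ i ≤ m, w i ∈ Z
  dim : finrank F Z = m + 1
  top : w m = g (w (m - 1))
  tri : ∀ i, i + 1 < m → ∃ ε : F, (ε = 0 ∨ ε = 1 ∨ (i = 0 ∧ ε = t)) ∧ g (w i) - ε • w (i + 1) ∈ span F (w '' Set.Iic i)
  one : ∀ a : ℕ → F, ∑ i ∈ Finset.range (m - 1), a i • g (w i) = ∑ i ∈ Finset.range (m - 1), a i • w (i + 1) →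
    ∀ i < m - 1, a i = 0
  zero : 2 ≤ m → ∀ d : F, g (w 0) ≠ d • w 1

/-- `w` differs from `ω` by a change of determinant `t` -/
def Rl (ω w : ℕ → V) (t : F) (k : ℕ) : Prop :=
  w 0 = t • ω 0 ∧ (2 ≤ k → ∃ c : F, w 1 = ω 1 - c • ω 0) ∧ ∀ i, 2 ≤ i → i < k → w i = ω i

theorem gd_eqX {g : End F V} {Y X W : Submodule F V} {v : V} {k : ℕ} {μ : F[X]} (h : CD g Y X W v k μ) :
    gdK g v k = X := by
  rw [h.eqX, gdK, obs_range]

theorem exists_Pc [Fintype F] (h4 : 4 ≤ Fintype.card F) {g : End F V} (hd : LinearMap.det g ≠ 0) {Y X W : Submodule F V}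
    {v : V} {k : ℕ} {μ : F[X]} (h : CD g Y X W v k μ) : ∃ ω : ℕ → V, ∀ t : F, t ≠ 0 → ∃ w, Pc g X w k t ∧ Rl ω w t k := by
  have base : ∀ t : F, t ≠ 0 → ∀ c : ℕ → F, c 0 ≠ 0 → (∀ a : ℕ → F, ∑ i ∈ Finset.range k, a i • g (pw g v t c i) =
      ∑ i ∈ Finset.range (k - 1), a i • pw g v t c (i + 1) → ∀ i < k, a i = 0) → Pc g X (pw g v t c) k t := by
    intro t ht c hc h1
    refine ⟨pw_ind h.ind ht c, ?_, fun i _ => pw_tri g v t c i, h1, fun hk => pw_zero h.ind ht hk hc⟩
    rw [← gd_eqX h]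
    exact obs_span (pw_ind h.ind ht c) fun i hi => pw_mem g v t c hi
  obtain ⟨j, rfl⟩ : ∃ j, k = j + 1 := ⟨k - 1, by have := h.pos; omega⟩
  rcases j with _ | _ | j
  · refine ⟨pw g v 1 1, fun t ht => ⟨_, base t ht 1 one_ne_zero fun a ha i hi => ?_, by simp [pw], by omega, by omega⟩⟩
    obtain rfl : i = 0 := by omega
    have h1 : g (a 0 • pw g v t 1 0) = g 0 := by simpa using ha
    exact gd_ind.1 (pw_ind h.ind ht 1) a (by simpa using inj_of_det hd h1) 0 hi
  · have h2 : g (g v) ∈ gdK g v 2 := by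
      rw [gd_eqX h]; simpa [pow_two] using h.mem 2
    rw [gdK, obs_range, mem_span_range_iff_exists_fun] at h2
    obtain ⟨s, hs⟩ := h2
    rw [Fin.sum_univ_two] at hs
    refine ⟨pw g v 1 0, fun t ht => ?_⟩
    obtain ⟨c, c0, c1⟩ := exists_quad_ne h4 (s 1) ((1 - t) * s 0)
    refine ⟨_, base t ht (fun _ => c) c0 fun a ha => ?_, by simp [pw], fun _ => ⟨c, by simp [pw]⟩, by omega⟩
    have h3 := (gd_ind (w := fun i => (g ^ i) v)).1 h.ind
      (fun i => if i = 0 then a 1 * s 0 + a 0 * c else a 1 * (s 1 - c) + a 0 * (t - 1)) (by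
        simp only [zero_add, Finset.sum_range_succ, Finset.range_zero, Finset.sum_empty, pw, map_sub, map_smul, ← hs,
          Nat.add_one_sub_one] at ha ⊢
        rw [← sub_eq_zero] at ha
        rw [← ha]
        simp only [Fin.val_zero, Fin.val_one, pow_zero, pow_one, Module.End.one_apply, if_true, one_ne_zero, if_false]
        module)
    have e0 := h3 0 (by omega)
    have e1 := h3 1 (by omega)
    simp only [if_true, one_ne_zero, if_false] at e0 e1
    have a1 : a 1 = 0 := by
      refine (mul_eq_zero.1 (show a 1 * (c * (s 1 - c) + (1 - t) * s 0) = 0 from ?_)).resolve_right c1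
      linear_combination c * e1 + (1 - t) * e0
    have a0 : a 0 = 0 := by
      rw [a1] at e0
      simpa [c0] using e0
    intro i hi
    interval_cases i <;> assumption
  · have q1 : g (pw g v 1 1 (j + 1)) ∉ gdK g v (j + 2) := by
      intro hm
      refine pw_notMem h.ind one_ne_zero 1 (show j + 2 < j + 1 + 1 + 1 by omega) ?_
      rw [pw]
      exact sub_mem hm (smul_mem _ _ (pw_mem g v 1 1 (by omega)))
    obtain ⟨c, c0, c1, -⟩ := avoid3 h4 (P := fun c => c = 0)
      (Q := fun c => g (g (pw g v 1 1 (j + 1))) - c • g (pw g v 1 1 (j + 1)) ∈ gdK g v (j + 2)) (R := fun _ => False)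
      (fun a b ha hb => by rw [ha, hb]) (fun a b ha hb => by
        by_contra hab
        have := smul_mem _ (b - a)⁻¹ (sub_mem ha hb)
        rw [sub_sub_sub_cancel_left, ← sub_smul, smul_smul, inv_mul_cancel₀ (sub_ne_zero.2 (Ne.symm hab)), one_smul] at this
        exact q1 this) (fun _ _ h => h.elim)
    let cs : ℕ → F := fun i => if i = j + 1 then c else 1
    have cs0 : ∀ i, cs i ≠ 0 := fun i => by
      simp only [cs]
      split_ifs
      · exact c0
      · exact one_ne_zero
    refine ⟨pw g v 1 cs, fun t ht => ⟨_, base t ht cs (cs0 0) fun a ha => ?_, by simp [pw],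
      fun _ => ⟨0, by simp [pw]⟩, fun i hi _ => ?_⟩⟩
    · rw [Finset.sum_range_succ, Nat.add_one_sub_one] at ha
      have q2 : pw g v t cs (j + 1) = pw g v 1 1 (j + 1) := by
        rw [pw_t g v t 1]
        exact pw_c g v 1 _ fun i hi => by simp only [cs]; rw [if_neg (by omega)]; rfl
      have q3 : a (j + 1 + 1) = 0 := by
        by_contra a0
        refine c1 ?_
        have q4 : a (j + 1 + 1) • g (pw g v t cs (j + 1 + 1)) ∈ gdK g v (j + 2) := by
          rw [eq_sub_of_add_eq' ha, ← Finset.sum_sub_distrib]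
          refine sum_mem fun i hi => ?_
          have hi' := Finset.mem_range.1 hi
          rw [← smul_sub, ← neg_sub]
          refine smul_mem _ _ (neg_mem ?_)
          have s1 := pw_step g v t cs i
          by_cases i0 : i = 0
          · rw [i0]
            exact sub_mem (gdK_mono g v (by omega) (gdK_map g v (pw_mem g v t cs (Nat.lt_succ_self 0))))
              (pw_mem g v t cs (by omega))
          · rw [if_neg i0, one_smul] at s1
            rw [s1]
            exact smul_mem _ _ (pw_mem g v t cs hi')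
        have q5 := smul_mem _ (a (j + 1 + 1))⁻¹ q4
        rw [smul_smul, inv_mul_cancel₀ a0, one_smul, pw, q2, map_sub, map_smul] at q5
        simpa [cs] using q5
      rw [q3, zero_smul, add_zero] at ha
      have q6 := pw_one h.ind ht (by omega) (fun i _ => cs0 i) a ha
      intro i hi
      by_cases e : i = j + 1 + 1
      · rw [e, q3]
      · exact q6 i (by omega)
    · obtain ⟨i, rfl⟩ : ∃ l, i = l + 1 := ⟨i - 1, by omega⟩
      exact pw_t g v t 1 cs i

theorem exists_top {g : End F V} {Y X W : Submodule F V} {v : V} {m : ℕ} {μ : F[X]} (h : CD g Y X W v (m + 1) μ)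
    (hm : 1 ≤ m) : ∃ ω : ℕ → V, ∀ t : F, t ≠ 0 → (m = 1 → t = 1) → ∃ w, Cg g X w m t ∧ Rl ω w t (m + 1) := by
  let cs : ℕ → F := fun i => if i = m - 1 then 0 else 1
  have cs0 : ∀ i < m - 1, cs i ≠ 0 := fun i hi => by
    simp only [cs]; rw [if_neg (by omega)]; exact one_ne_zero
  refine ⟨pw g v 1 cs, fun t ht h1 => ⟨pw g v t cs, ⟨hm, pw_ind h.ind ht cs, fun i hi => ?_, h.finrank, ?_,
    fun i _ => pw_tri g v t cs i, pw_one h.ind ht (by omega) cs0,
    fun h2 => pw_zero h.ind ht (by omega) (cs0 0 (by omega))⟩, by simp [pw], fun _ => ⟨0, by simp [pw]⟩, fun i hi _ => ?_⟩⟩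
  · rw [← gd_eqX h]; exact pw_mem g v t cs (by omega)
  · have s1 := pw_step g v t cs (m - 1)
    rw [show m - 1 + 1 = m by omega, show cs (m - 1) = 0 by simp [cs], zero_smul, sub_eq_zero] at s1
    rw [s1]
    split_ifs with h2
    · rw [h1 (by omega), one_smul]
    · rw [one_smul]
  · obtain ⟨i, rfl⟩ : ∃ l, i = l + 1 := ⟨i - 1, by omega⟩
    exact pw_t g v t 1 cs i

/-- concatenation -/
def app (w : ℕ → V) (k : ℕ) (x : ℕ → V) (i : ℕ) : V := if i < k then w i else x (i - k)

theorem app_lt (w : ℕ → V) {k : ℕ} (x : ℕ → V) {i : ℕ} (h : i < k) : app w k x i = w i := if_pos h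

theorem app_add (w : ℕ → V) (k : ℕ) (x : ℕ → V) (i : ℕ) : app w k x (k + i) = x i := by
  rw [app, if_neg (by omega), Nat.add_sub_cancel_left]

theorem Pc.app {g : End F V} (hd : LinearMap.det g ≠ 0) {X Z : Submodule F V} {w x : ℕ → V} {k m : ℕ} {t : F}
    (h : Pc g X w k t) (hk : 1 ≤ k) (h' : Cg g Z x m 1) (hX : ∀ u ∈ X, g u ∈ X) (hZ : ∀ u ∈ Z, g u ∈ Z)
    (hXZ : Disjoint X Z) : Cg g (X ⊔ Z) (app w k x) (k + m) t := by
  have wX : ∀ i < k, w i ∈ X := fun i hi => by rw [← h.eq]; exact subset_span ⟨i, hi, rfl⟩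
  have m1 := h'.pos
  have spl : ∀ a ∈ X, ∀ b ∈ Z, a + b = 0 → a = 0 ∧ b = 0 := by
    intro a ha b hb e
    have h1 : a = 0 := (disjoint_def.1 hXZ) a ha (by rw [eq_neg_of_add_eq_zero_left e]; exact neg_mem hb)
    exact ⟨h1, by rwa [h1, zero_add] at e⟩
  have s1 : ∀ (a : ℕ → F) (φ : V → V) (l : ℕ), ∑ i ∈ Finset.range (k + l), a i • φ (Lev.app w k x i) =
      ∑ i ∈ Finset.range k, a i • φ (w i) + ∑ i ∈ Finset.range l, a (k + i) • φ (x i) := by
    intro a φ l
    rw [Finset.sum_range_add]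
    congr 1
    · exact Finset.sum_congr rfl fun i hi => by rw [app_lt w x (Finset.mem_range.1 hi)]
    · exact Finset.sum_congr rfl fun i _ => by rw [app_add]
  refine ⟨by omega, gd_ind.2 fun a ha i hi => ?_, fun i hi => ?_, ?_, ?_, fun i hi => ?_, fun a ha i hi => ?_, fun _ d => ?_⟩
  · rw [add_assoc, s1 a fun u => u] at ha
    obtain ⟨e1, e2⟩ := spl _ (sum_mem fun i hi => smul_mem _ _ (wX i (Finset.mem_range.1 hi))) _
      (sum_mem fun i hi => smul_mem _ _ (h'.mem i (by have := Finset.mem_range.1 hi; omega))) ha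
    by_cases hik : i < k
    · exact gd_ind.1 h.ind a e1 i hik
    · have := gd_ind.1 h'.ind (fun i => a (k + i)) e2 (i - k) (by omega)
      rwa [show k + (i - k) = i by omega] at this
  · by_cases hik : i < k
    · rw [app_lt w x hik]; exact mem_sup_left (wX i hik)
    · rw [show i = k + (i - k) by omega, app_add]; exact mem_sup_right (h'.mem _ (by omega))
  · have h1 := Submodule.finrank_sup_add_finrank_inf_eq X Z
    rw [hXZ.eq_bot, finrank_bot, h'.dim, ← h.eq, obs_range, finrank_span_eq_card h.ind, ← obs_range, h.eq] at h1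
    simpa [add_assoc] using h1
  · rw [app_add, show k + m - 1 = k + (m - 1) by omega, app_add, h'.top]
  · by_cases h1 : i + 1 < k
    · obtain ⟨ε, hε, e⟩ := h.tri i h1
      refine ⟨ε, hε, ?_⟩
      rw [app_lt w x h1, app_lt w x (show i < k by omega)]
      refine span_mono ?_ e
      rintro _ ⟨j, hj, rfl⟩
      exact ⟨j, hj, app_lt w x (by have : j ≤ i := hj; omega)⟩
    · by_cases h2 : i < k
      · refine ⟨0, Or.inl rfl, ?_⟩
        rw [zero_smul, sub_zero, app_lt w x h2]
        have h3 := hX _ (wX i h2)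
        rw [← h.eq] at h3
        refine span_mono ?_ h3
        rintro _ ⟨j, hj, rfl⟩
        have hj' : j < k := hj
        exact ⟨j, show j ≤ i by omega, app_lt w x hj⟩
      · obtain ⟨l, rfl⟩ : ∃ l, i = k + l := ⟨i - k, by omega⟩
        obtain ⟨ε, hε, e⟩ := h'.tri l (by omega)
        refine ⟨ε, by tauto, ?_⟩
        rw [add_assoc, app_add, app_add]
        refine span_mono ?_ e
        rintro _ ⟨j, hj, rfl⟩
        exact ⟨k + j, Nat.add_le_add_left hj k, app_add w k x j⟩
  · have s2 : ∑ i ∈ Finset.range (k + m - 1), a i • Lev.app w k x (i + 1) =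
        ∑ i ∈ Finset.range (k - 1), a i • w (i + 1) + (a (k - 1) • x 0 +
          ∑ i ∈ Finset.range (m - 1), a (k + i) • x (i + 1)) := by
      rw [show k + m - 1 = (k - 1) + (m - 1 + 1) by omega, Finset.sum_range_add, Finset.sum_range_succ', add_comm _ (a _ • _)]
      congr 1
      · exact Finset.sum_congr rfl fun i hi => by rw [app_lt w x (by have := Finset.mem_range.1 hi; omega)]
      · congr 1
        · rw [add_zero, show k - 1 + 1 = k + 0 by omega, app_add]
        · refine Finset.sum_congr rfl fun i _ => ?_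
          rw [show k - 1 + (i + 1) + 1 = k + (i + 1) by omega, app_add, show k - 1 + (i + 1) = k + i by omega]
    rw [s2, show k + m - 1 = k + (m - 1) by omega, s1 a g, ← sub_eq_zero, add_sub_add_comm] at ha
    obtain ⟨e1, e2⟩ := spl _ (sub_mem (sum_mem fun i hi => smul_mem _ _ (hX _ (wX i (Finset.mem_range.1 hi))))
      (sum_mem fun i hi => smul_mem _ _ (wX _ (by have := Finset.mem_range.1 hi; omega)))) _
      (sub_mem (sum_mem fun i hi => smul_mem _ _ (hZ _ (h'.mem i (by have := Finset.mem_range.1 hi; omega))))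
        (add_mem (smul_mem _ _ (h'.mem 0 (by omega)))
          (sum_mem fun i hi => smul_mem _ _ (h'.mem _ (by have := Finset.mem_range.1 hi; omega))))) ha
    have e3 := h.one a (sub_eq_zero.1 e1)
    by_cases hik : i < k
    · exact e3 i hik
    · rw [e3 (k - 1) (by omega), zero_smul, zero_add] at e2
      have := h'.one (fun i => a (k + i)) (sub_eq_zero.1 e2) (i - k) (by omega)
      rwa [show k + (i - k) = i by omega] at this
  · rw [app_lt w x (show 0 < k by omega)]
    by_cases h2 : 2 ≤ k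
    · rw [app_lt w x (show 1 < k by omega)]; exact h.zero h2 d
    · obtain rfl : k = 1 := by omega
      rw [show Lev.app w 1 x 1 = x 0 from app_add w 1 x 0]
      intro e
      have h3 : g (w 0) = g 0 := by
        rw [map_zero]
        exact (disjoint_def.1 hXZ) _ (hX _ (wX 0 (by omega))) (by rw [e]; exact smul_mem _ _ (h'.mem 0 (by omega)))
      exact h.ind.ne_zero 0 (inj_of_det hd h3)

theorem exists_Cg [Fintype F] (h4 : 4 ≤ Fintype.card F) {g : End F V} (hd : LinearMap.det g ≠ 0) :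
    ∀ (n : ℕ) (W Z : Submodule F V), finrank F W = n → (∀ u ∈ W, g u ∈ W) → (∀ u ∈ Z, g u ∈ Z) → Disjoint W Z →
      (∃ x m, Cg g Z x m 1) → ∃ x m, Cg g (W ⊔ Z) x m 1 := by
  intro n
  induction n using Nat.strong_induction_on with
  | _ n ih =>
    intro W Z hn hW hZ hWZ hx
    by_cases h0 : W = ⊥
    · rwa [h0, bot_sup_eq]
    obtain ⟨X, W₁, v, k, μ, h⟩ := exists_CD g hW h0
    have h1 := h.add
    have h2 := h.pos
    have h3 : ∀ u ∈ W₁ ⊔ Z, g u ∈ W₁ ⊔ Z := by
      intro u hu
      obtain ⟨a, ha, b, hb, rfl⟩ := mem_sup.1 hu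
      rw [map_add]
      exact add_mem (mem_sup_left (h.invW a ha)) (mem_sup_right (hZ b hb))
    rw [← h.sup] at hWZ
    obtain ⟨x, m, hx⟩ := ih (finrank F W₁) (by omega) W₁ Z rfl h.invW hZ (hWZ.mono_left le_sup_right) hx
    obtain ⟨ω, hω⟩ := exists_Pc h4 hd h
    obtain ⟨w, hw, -⟩ := hω 1 one_ne_zero
    rw [← h.sup, sup_assoc]
    exact ⟨_, _, hw.app hd h2 hx h.invX h3 (h.dis.disjoint_sup_right_of_disjoint_sup_left hWZ)⟩

theorem Rl.det {ω w : ℕ → V} {t : F} {m : ℕ} (hm : 1 ≤ m) (h : Rl ω w t (m + 1)) (b : Basis (Fin (m + 1)) F V) :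
    b.det (fun i => w i) = t * b.det fun i => ω i := by
  obtain ⟨h0, h1, h2⟩ := h
  obtain ⟨c, hc⟩ := h1 (by omega)
  let i1 : Fin (m + 1) := ⟨1, by omega⟩
  have h01 : (0 : Fin (m + 1)) ≠ i1 := by simp [i1, Fin.ext_iff]
  have e1 : (fun i : Fin (m + 1) => w i) = Function.update (Function.update (fun i : Fin (m + 1) => ω i) i1
      (ω i1 + (-c) • ω (0 : Fin (m + 1)))) 0 (t • ω 0) := by
    funext i
    by_cases i0 : i = 0
    · rw [i0, Function.update_self]; exact h0
    · rw [Function.update_of_ne i0]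
      by_cases i1' : i = i1
      · rw [i1', Function.update_self, neg_smul, ← sub_eq_add_neg]; exact hc
      · rw [Function.update_of_ne i1']
        refine h2 i ?_ i.2
        have a0 : (i : ℕ) ≠ 0 := fun e => i0 (Fin.ext e)
        have a1 : (i : ℕ) ≠ 1 := fun e => i1' (Fin.ext e)
        omega
  have e2 : Function.update (Function.update (fun i : Fin (m + 1) => ω i) i1 (ω i1 + (-c) • ω (0 : Fin (m + 1)))) 0 (ω 0) =
      Function.update (fun i : Fin (m + 1) => ω i) i1 (ω i1 + (-c) • ω (0 : Fin (m + 1))) := by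
    rw [Function.update_eq_self_iff, Function.update_of_ne h01]; rfl
  rw [e1, AlternatingMap.map_update_smul, e2, AlternatingMap.map_update_add, AlternatingMap.map_update_smul,
    Function.update_eq_self, AlternatingMap.map_update_self _ (fun i : Fin (m + 1) => ω i) h01.symm]
  simp

theorem good [Fintype F] (h4 : 4 ≤ Fintype.card F) {g : End F V} {m : ℕ} (hm : 2 ≤ m) (hd : LinearMap.det g ≠ 0)
    (hg : NSc g) (b : Basis (Fin (m + 1)) F V) {δ : F} (hδ : δ ≠ 0) : ∃ w, Cf g w m ∧ b.det (fun i => w i) = δ := by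
  have hn : finrank F V = m + 1 := by simpa using finrank_eq_card_basis b
  have key : ∃ ω : ℕ → V, ∀ t : F, t ≠ 0 → ∃ w, Cg g ⊤ w m t ∧ Rl ω w t (m + 1) := by
    obtain ⟨u, hu⟩ := hg
    have u0 : (⊤ : Submodule F V) ≠ ⊥ := by
      intro e
      have : u = 0 := by rw [← mem_bot F, ← e]; exact mem_top
      exact hu 0 (by rw [this]; simp)
    obtain ⟨X, W, v, k, μ, h⟩ := exists_CD g (Y := ⊤) (fun _ _ => mem_top) u0
    have k2 := h.two (mem_top (x := u)) hu
    obtain ⟨l, rfl⟩ : ∃ l, k = l + 1 := ⟨k - 1, by omega⟩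
    obtain ⟨ω, hω⟩ := exists_top h (by omega)
    have h1 := h.add
    rw [finrank_top, hn] at h1
    by_cases h0 : W = ⊥
    · have h2 := h.sup
      rw [h0, sup_bot_eq] at h2
      rw [h0, finrank_bot] at h1
      obtain rfl : l = m := by omega
      rw [h2] at hω
      exact ⟨ω, fun t ht => hω t ht (by omega)⟩
    obtain ⟨x₀, hx₀, -⟩ := hω 1 one_ne_zero fun _ => rfl
    obtain ⟨X₁, W₁, v₁, k₁, μ₁, h'⟩ := exists_CD g h.invW h0
    have hd1 := h.dis.symm
    rw [← h'.sup] at hd1
    obtain ⟨x, r, hx⟩ := exists_Cg h4 hd _ W₁ X rfl h'.invW h.invX (hd1.mono_left le_sup_right) ⟨x₀, l, hx₀⟩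
    obtain ⟨ω₁, hω₁⟩ := exists_Pc h4 hd h'
    refine ⟨app ω₁ k₁ x, fun t ht => ?_⟩
    obtain ⟨w, hw, r0, r1, r2⟩ := hω₁ t ht
    have h3 := hw.app hd h'.pos hx h'.invX (by
      intro u hu
      obtain ⟨a, ha, b, hb, rfl⟩ := mem_sup.1 hu
      rw [map_add]
      exact add_mem (mem_sup_left (h'.invW a ha)) (mem_sup_right (h.invX b hb)))
      (h'.dis.disjoint_sup_right_of_disjoint_sup_left hd1)
    rw [← sup_assoc, h'.sup, sup_comm, h.sup] at h3
    have h5 := h3.dim
    rw [finrank_top, hn] at h5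
    rw [show k₁ + r = m by omega] at h3
    have p := h'.pos
    refine ⟨_, h3, by rw [app_lt w x p, app_lt ω₁ x p, r0], fun _ => ?_, fun i hi _ => ?_⟩
    · by_cases k2 : 2 ≤ k₁
      · rw [app_lt w x (show 1 < k₁ by omega), app_lt ω₁ x (show 1 < k₁ by omega), app_lt ω₁ x p]
        exact r1 k2
      · exact ⟨0, by simp [app, show ¬ 1 < k₁ by omega]⟩
    · by_cases hi' : i < k₁
      · rw [app_lt w x hi', app_lt ω₁ x hi', r2 i hi hi']
      · simp [app, hi']
  obtain ⟨ω, hω⟩ := key
  obtain ⟨w₁, h₁, r₁⟩ := hω 1 one_ne_zero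
  have d0 : b.det (fun i => ω i) ≠ 0 := by
    have e := r₁.det (by omega) b
    rw [one_mul] at e
    rw [← e]
    exact ((Basis.is_basis_iff_det b).1 ⟨h₁.ind, h₁.ind.span_eq_top_of_card_eq_finrank (by simp [hn])⟩).ne_zero
  obtain ⟨w, h, r⟩ := hω (δ * (b.det fun i => ω i)⁻¹) (mul_ne_zero hδ (inv_ne_zero d0))
  refine ⟨w, ⟨h.ind, h.top, fun i hi => ?_, h.one, h.zero hm⟩, ?_⟩
  · obtain ⟨ε, hε, e⟩ := h.tri i hi
    exact ⟨ε, by tauto, e⟩
  · rw [r.det (by omega) b, mul_assoc, inv_mul_cancel₀ d0, mul_one]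


end CfsgLib.Lev
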