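import Cfsg.Agent.Lib.Lev.Defs

/-! Conjugating dual pairs (plans/LEV.md). -/

set_option autoImplicit false
set_option linter.unusedSectionVars false

namespace CfsgLib.Lev

open Module Polynomial Submodule
open scoped Pointwise

variable {F : Type*} [Field F] {V : Type*} [AddCommGroup V] [Module F V] [FiniteDimensional F V]
  {U : Type*} [AddCommGroup U] [Module F U] [FiniteDimensional F U]
  {U' : Type*} [AddCommGroup U'] [Module F U'] [FiniteDimensional F U']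

theorem gr_trans {a b : V} (h : a = 0 ↔ b = 0) : ∃ g : V ≃ₗ[F] V, g a = b := by
  by_cases ha : a = 0
  · exact ⟨1, by simp [ha, h.1 ha]⟩
  obtain ⟨g, hg⟩ := Submodule.exists_linearEquiv_restrict_eq ((LinearEquiv.toSpanNonzeroSingleton F V a ha).symm.trans
    (LinearEquiv.toSpanNonzeroSingleton F V b (mt h.2 ha)))
  refine ⟨g, ?_⟩
  have := hg (LinearEquiv.toSpanNonzeroSingleton F V a ha 1)
  rw [LinearEquiv.trans_apply, LinearEquiv.symm_apply_apply] at this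
  simpa using this.symm

theorem gr_gen {ι : Type} [Fintype ι] [DecidableEq ι] {u u' : ι → V} {f f' : ι → Dual F V}
    (a : ∀ i j, f i (u j) = if i = j then 1 else 0) (b : ∀ i j, f' i (u' j) = if i = j then 1 else 0) {y y' : V}
    (c : ∀ i, f i y = 0) (c' : ∀ i, f' i y' = 0) (hy : y = 0 ↔ y' = 0) :
    ∃ x : End F V, LinearMap.det x ≠ 0 ∧ (∀ i, x (u i) = u' i) ∧ x y = y' ∧ ∀ i w, f' i (x w) = f i w := by
  have rk : ∀ {u : ι → V} {f : ι → Dual F V}, (∀ i j, f i (u j) = if i = j then 1 else 0) →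
      finrank F (ι → F) + finrank F (LinearMap.ker (LinearMap.pi f)) = finrank F V := fun {u f} a => by
    rw [← (LinearMap.pi f).finrank_range_add_finrank_ker, (LinearMap.range_eq_top (f := LinearMap.pi f)).2 fun t =>
      ⟨∑ j, t j • u j, funext fun i => by simp [a]⟩, finrank_top]
  let k₀ := LinearEquiv.ofFinrankEq (R := F) (LinearMap.ker (LinearMap.pi f)) (LinearMap.ker (LinearMap.pi f'))
    (by have := rk a; have := rk b; omega)
  have hK : ∀ {f : ι → Dual F V} {w : V}, w ∈ LinearMap.ker (LinearMap.pi f) ↔ ∀ i, f i w = 0 := by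
    simp [funext_iff]
  obtain ⟨g, hg⟩ := gr_trans (F := F) (a := k₀ ⟨y, hK.2 c⟩) (b := ⟨y', hK.2 c'⟩) (by simpa using hy)
  let P : V →ₗ[F] LinearMap.ker (LinearMap.pi f) :=
    (1 - ∑ i, (f i).smulRight (u i) : End F V).codRestrict _ fun w => hK.2 fun i => by simp [a]
  have hP : ∀ w, (∀ i, f i w = 0) → (P w : V) = w := fun w hw => by simp [P, hw]
  obtain ⟨x, hx⟩ : ∃ x : End F V, ∀ w, x w = ∑ i, f i w • u' i + g (k₀ (P w)) :=
    ⟨∑ i, (f i).smulRight (u' i) + (Submodule.subtype _) ∘ₗ (k₀.trans g).toLinearMap ∘ₗ P, fun w => by simp⟩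
  have h1 : ∀ i w, f' i (x w) = f i w := fun i w => by simp [hx, b, hK.1 (g (k₀ (P w))).2 i]
  refine ⟨x, det_ne_of_inj ((injective_iff_map_eq_zero x).2 fun w hw => ?_), fun i => ?_, ?_, h1⟩
  · have h2 : ∀ i, f i w = 0 := fun i => by rw [← h1, hw, map_zero]
    rw [← hP w h2]
    simpa [hx, h2] using hw
  · have : P (u i) = 0 := Subtype.ext (by simp [P, a])
    simp [hx, this, a]
  · rw [hx, show P y = ⟨y, hK.2 c⟩ from Subtype.ext (hP y c), hg]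
    simp [c]

theorem gr1 {v v' : V} {f f' : Dual F V} (h : f v = 1) (h' : f' v' = 1) :
    ∃ x : End F V, LinearMap.det x ≠ 0 ∧ x v = v' ∧ ∀ u, f' (x u) = f u := by
  obtain ⟨x, h1, h2, -, h3⟩ := gr_gen (ι := Unit) (u := fun _ => v) (u' := fun _ => v') (f := fun _ => f)
    (f' := fun _ => f') (by simpa) (by simpa) (y := 0) (y' := 0) (by simp) (by simp) Iff.rfl
  exact ⟨x, h1, h2 (), h3 ()⟩

theorem gr2 {u₁ u₂ u₁' u₂' : V} {f₁ f₂ f₁' f₂' : Dual F V} (a₁ : f₁ u₁ = 1) (a₂ : f₁ u₂ = 0) (a₃ : f₂ u₁ = 0)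
    (a₄ : f₂ u₂ = 1) (b₁ : f₁' u₁' = 1) (b₂ : f₁' u₂' = 0) (b₃ : f₂' u₁' = 0) (b₄ : f₂' u₂' = 1) {y y' : V}
    (c₁ : f₁ y = 0) (c₂ : f₂ y = 0) (c₁' : f₁' y' = 0) (c₂' : f₂' y' = 0) (hy : y = 0 ↔ y' = 0) :
    ∃ x : End F V, LinearMap.det x ≠ 0 ∧ x u₁ = u₁' ∧ x u₂ = u₂' ∧ x y = y' ∧ (∀ u, f₁' (x u) = f₁ u) ∧
      ∀ u, f₂' (x u) = f₂ u := by
  obtain ⟨x, h1, h2, h3, h4⟩ := gr_gen (u := ![u₁, u₂]) (u' := ![u₁', u₂']) (f := ![f₁, f₂]) (f' := ![f₁', f₂'])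
    (by simp [Fin.forall_fin_two, *]) (by simp [Fin.forall_fin_two, *]) (y := y) (y' := y')
    (by simp [Fin.forall_fin_two, *]) (by simp [Fin.forall_fin_two, *]) hy
  exact ⟨x, h1, h2 0, h2 1, h3, h4 0, h4 1⟩

theorem rank_one_conj (h2 : 2 ≤ finrank F V) {e e' : V} {φ φ' : Dual F V} (he : e ≠ 0) (he' : e' ≠ 0) (hφ : φ ≠ 0)
    (hφ' : φ' ≠ 0) (h : φ e = φ' e') : (1 + φ'.smulRight e' : End F V) ∈ cG (1 + φ.smulRight e) := by
  suffices ∃ x : End F V, LinearMap.det x ≠ 0 ∧ x e = e' ∧ ∀ u, φ' (x u) = φ u by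
    obtain ⟨x, h1, h3, h4⟩ := this
    exact ⟨x, h1, LinearMap.ext fun u => by simp [h3, h4]⟩
  by_cases h0 : φ e = 0
  · have A : ∀ {e : V} {φ : Dual F V}, e ≠ 0 → φ ≠ 0 → φ e = 0 →
        ∃ u, φ u = 1 ∧ ∃ ψ : Dual F V, ψ u = 0 ∧ ψ e = 1 := fun {e φ} he hφ h0 => by
      obtain ⟨u, hu⟩ := LinearMap.surjective_iff_ne_zero.2 hφ 1
      exact ⟨u, hu, exists_dual_pair (LinearIndependent.pair_iff.2 fun s t hst => by
        have h3 : s = 0 := by simpa [hu, h0] using congrArg φ hst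
        exact ⟨h3, by simpa [h3, he] using hst⟩) 0 1⟩
    obtain ⟨u, hu, ψ, p1, p2⟩ := A he hφ h0
    obtain ⟨u', hu', ψ', p1', p2'⟩ := A he' hφ' (h ▸ h0)
    obtain ⟨x, h1, -, h3, -, h4, -⟩ := gr2 hu h0 p1 p2 hu' (h ▸ h0) p1' p2' (y := 0) (y' := 0) (by simp) (by simp)
      (by simp) (by simp) Iff.rfl
    exact ⟨x, h1, h3, h4⟩
  · obtain ⟨x, h1, h3, h4⟩ := gr1 (v := e) (v' := e') (f := (φ e)⁻¹ • φ) (f' := (φ e)⁻¹ • φ') (by simp [h0])
      (by simp [← h, h0])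
    exact ⟨x, h1, h3, fun u => by simpa [h0] using h4 u⟩


end CfsgLib.Lev
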