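import Cfsg.Agent.Lib.Lev.Cyc
import Cfsg.Agent.Lib.Lev.Blk
import Cfsg.Agent.Lib.Lev.CDec
import Cfsg.Agent.Lib.Lev.Poly

/-! Quadratic maps: two blocks, determinant minus one, square zero (plans/LEV.md). -/

set_option autoImplicit false
set_option linter.unusedSectionVars false

namespace CfsgLib.Lev

open Module Polynomial Submodule
open scoped Pointwise

variable {F : Type*} [Field F] {V : Type*} [AddCommGroup V] [Module F V] [FiniteDimensional F V]
  {U : Type*} [AddCommGroup U] [Module F U] [FiniteDimensional F U]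
  {U' : Type*} [AddCommGroup U'] [Module F U'] [FiniteDimensional F U']

theorem tt_basis (h2 : finrank F V = 2) {A : End F V} {u : V} (hu : ∀ t : F, A u ≠ t • u) :
    ∃ b : Basis (Fin 2) F V, b 0 = u ∧ b 1 = A u :=
  ⟨basisOfLinearIndependentOfCardEqFinrank (pair_of_ne hu) (by rw [h2]; simp),
    by rw [coe_basisOfLinearIndependentOfCardEqFinrank]; rfl,
    by rw [coe_basisOfLinearIndependentOfCardEqFinrank]; rfl⟩

theorem tt_det2 (b : Basis (Fin 2) F V) {T : End F V} {a c e g : F} (h0 : T (b 0) = a • b 0 + c • b 1)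
    (h1 : T (b 1) = e • b 0 + g • b 1) : LinearMap.det T = a * g - e * c := by
  rw [← LinearMap.det_toMatrix b, Matrix.det_fin_two]
  simp [LinearMap.toMatrix_apply, h0, h1]

theorem tt_res {A : End F V} {s d : F} (hq : A * A = s • A - d • 1) {W : Submodule F V} (hW : ∀ x ∈ W, A x ∈ W) :
    A.restrict hW * A.restrict hW = s • A.restrict hW - d • 1 := by
  ext x
  simpa using LinearMap.congr_fun hq (x : V)

theorem tt_ne {A : End F V} {X W : Submodule F V} {v : V} {μ : F[X]} (h : CD A ⊤ X W v 2 μ) :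
    ∃ u : X, ∀ t : F, A.restrict h.invX u ≠ t • u :=
  ⟨⟨v, by simpa using h.mem 0⟩, fun t ht => h.ne le_rfl t (congrArg Subtype.val ht)⟩

theorem tt_monic (a b : F) : (X ^ 2 - C a * X + C b : F[X]).Monic ∧ (X ^ 2 - C a * X + C b : F[X]).natDegree = 2 := by
  have := poly_tri (F := F) le_rfl (-a) b
  rwa [C_neg, neg_mul, ← add_assoc, ← sub_eq_add_neg] at this

theorem two_blk (h2 : finrank F V = 2) {A : End F V} {s d : F} (hq : A * A = s • A - d • 1) (hd : d ≠ 0) (hA : NSc A)
    (x : F) {z : F} (hz : z ≠ 0) (hx : x ≠ s ∨ z ^ 2 ≠ 1) : ∃ B h : End F V, LinearMap.det h = z ∧ B * h = h * A ∧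
      CA (A * B) (X ^ 2 - C (-(d * (z + z⁻¹)) + (s - x) * (s + z⁻¹ * x)) * X + C (d ^ 2)) := by
  obtain ⟨u, hu⟩ := hA
  have hp := pair_of_ne hu
  obtain ⟨f, f0, f1⟩ := exists_dual_pair hp 0 1
  obtain ⟨b, b0, b1⟩ := tt_basis h2 hu
  have hAA : A (A u) = s • A u - d • u := by simpa using LinearMap.congr_fun hq u
  set h : End F V := 1 + f.smulRight (x • u + (z - 1) • A u) with hh
  have dh : LinearMap.det h = z := by rw [hh, det_one_add]; simp [f0, f1]
  obtain ⟨h', -, e2⟩ := exists_inv (h := h) (by rw [dh]; exact hz)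
  have hB : h * A * h' * h = h * A := by rw [mul_assoc, e2, mul_one]
  generalize h * A * h' = B at hB
  have hu0 : h u = u := by simp [hh, f0]
  have hu1 : h (A u) = x • u + z • A u := by
    simp only [hh, LinearMap.add_apply, Module.End.one_apply, LinearMap.smulRight_apply, f1, one_smul]
    module
  have B0 : B u = x • u + z • A u := by
    have := LinearMap.congr_fun hB u
    rwa [Module.End.mul_apply, Module.End.mul_apply, hu0, hu1] at this
  have B1 : B (A u) = (z⁻¹ * ((s - x) * x - d)) • u + (s - x) • A u := by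
    have := LinearMap.congr_fun hB (A u)
    rw [Module.End.mul_apply, Module.End.mul_apply, hu1, hAA, map_sub, map_smul, map_smul, hu0, hu1, map_add,
      map_smul, map_smul, B0] at this
    have h3 : z • B (A u) = ((s - x) * x - d) • u + (z * (s - x)) • A u := by
      linear_combination (norm := module) this
    calc B (A u) = z⁻¹ • z • B (A u) := by rw [smul_smul, inv_mul_cancel₀ hz, one_smul]
      _ = _ := by rw [h3, smul_add, smul_smul, smul_smul, ← mul_assoc, inv_mul_cancel₀ hz, one_mul]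
  have T0 : (A * B) u = (-(d * z)) • u + (x + s * z) • A u := by
    rw [Module.End.mul_apply, B0, map_add, map_smul, map_smul, hAA]; module
  have T1 : (A * B) (A u) = (-(d * (s - x))) • u + (z⁻¹ * ((s - x) * x - d) + s * (s - x)) • A u := by
    rw [Module.End.mul_apply, B1, map_add, map_smul, map_smul, hAA]; module
  refine ⟨B, h, dh, hB, (tt_monic _ _).1, by rw [(tt_monic _ _).2, h2], ?_, NSc.cyc_two (nsc_of_ne fun t ht => ?_) h2⟩
  · generalize A * B = T at T0 T1
    have zi := mul_inv_cancel₀ hz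
    have key : ∀ (a c : F) w, aeval T (X ^ 2 - C a * X + C c : F[X]) w = T (T w) - a • T w + c • w := by
      intro a c w
      simp only [map_add, map_sub, map_mul, aeval_X, aeval_C, LinearMap.add_apply, LinearMap.sub_apply,
        Module.End.mul_apply, pow_two, Module.algebraMap_end_apply]
    refine b.ext fun i => ?_
    rw [key, LinearMap.zero_apply]
    fin_cases i
    · simp only [Fin.zero_eta, b0, T0, T1, map_add, map_smul]
      match_scalars
      · linear_combination (d * (s - x) * x - d ^ 2) * zi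
      · ring
    · simp only [Fin.mk_one, b1, T0, T1, map_add, map_smul]
      match_scalars
      · ring
      · linear_combination (d * (s - x) * x - d ^ 2) * zi
  · rw [ht] at T0 T1
    have a0 := LinearIndependent.pair_iff.1 hp (-(d * z) - t) (x + s * z) (by
      rw [sub_smul, sub_add_eq_add_sub, ← T0]; simp)
    have a1 := LinearIndependent.pair_iff.1 hp (-(d * (s - x))) (z⁻¹ * ((s - x) * x - d) + s * (s - x) - t) (by
      rw [sub_smul, ← add_sub_assoc, ← T1]; simp)
    have e1 : s - x = 0 := (mul_eq_zero.1 (neg_eq_zero.1 a1.1)).resolve_left hd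
    rcases hx with hx | hx
    · exact hx (sub_eq_zero.1 e1).symm
    · apply hx
      have e3 := a1.2
      rw [e1] at e3
      have zi := mul_inv_cancel₀ hz
      refine mul_left_cancel₀ hd ?_
      linear_combination z * e3 - z * a0.1 + d * zi

theorem tt [Fintype F] (h4 : 4 ≤ Fintype.card F) {A : End F V} (hd : LinearMap.det A ≠ 0) {X W : Submodule F V} {v : V}
    {μ : F[X]} (h : CD A ⊤ X W v 2 μ) (hW : finrank F W = 2) (hn : NSc (A.restrict h.invW)) : ∃ T ∈ cS A ^ 2, SS T := by
  obtain ⟨s, d, hq⟩ := h.quad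
  have d0 : d ≠ 0 := by
    rintro rfl
    refine h.ne le_rfl s (inj_of_det hd ?_)
    simpa using LinearMap.congr_fun hq v
  obtain ⟨z, z0, z1⟩ := exists_sq_ne_one h4
  have zi := mul_inv_cancel₀ z0
  obtain ⟨x, x0, x1, -⟩ := poly_avoid h4 s (-s * z⁻¹) s
  obtain ⟨B₁, h₁, d₁, e₁, c₁⟩ := two_blk h.finrank (tt_res hq h.invX) d0 (tt_ne h) s z0 (Or.inr z1)
  obtain ⟨B₂, h₂, d₂, e₂, c₂⟩ := two_blk hW (tt_res hq h.invW) d0 hn x (inv_ne_zero z0) (Or.inl x0)
  have hb := (dir_of_compl h.invX h.invW h.compl).blk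
  obtain ⟨B, y, dy, ey, hB⟩ := hb.conj e₁ e₂ (d₁ ▸ z0) (d₂ ▸ inv_ne_zero z0)
  rw [d₁, d₂, zi] at dy
  have δ0 : (s - x) * (s + z * x) ≠ 0 := by
    refine mul_ne_zero (sub_ne_zero.2 x0.symm) fun e => x1 ?_
    linear_combination z⁻¹ * e - x * zi
  rw [inv_inv] at c₂
  have f₁ : (Polynomial.X ^ 2 - C (-(d * (z + z⁻¹)) + (s - s) * (s + z⁻¹ * s)) * Polynomial.X + C (d ^ 2) : F[X]) =
      (Polynomial.X - C (-(d * z))) * (Polynomial.X - C (-(d * z⁻¹))) := by
    have : (C (d ^ 2) : F[X]) = C (d * z) * C (d * z⁻¹) := by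
      rw [← C_mul]; congr 1; linear_combination (-d ^ 2) * zi
    rw [this]
    simp only [sub_self, zero_mul, add_zero, mul_add, C_neg, C_add]
    ring
  rw [f₁] at c₁
  have ev : ∀ ρ : F, ρ ≠ 0 → ρ ^ 2 + d * (z + z⁻¹) * ρ + d ^ 2 = 0 → (Polynomial.X ^ 2 -
      C (-(d * (z⁻¹ + z)) + (s - x) * (s + z * x)) * Polynomial.X + C (d ^ 2) : F[X]).eval ρ ≠ 0 := by
    intro ρ r0 e e'
    simp only [eval_add, eval_sub, eval_mul, eval_pow, eval_X, eval_C] at e'
    refine mul_ne_zero δ0 r0 ?_
    linear_combination e - e'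
  have r₁ := ev (-(d * z)) (neg_ne_zero.2 (mul_ne_zero d0 z0)) (by linear_combination (-d ^ 2) * zi)
  have r₂ := ev (-(d * z⁻¹)) (neg_ne_zero.2 (mul_ne_zero d0 (inv_ne_zero z0))) (by linear_combination (-d ^ 2) * zi)
  have hc := (hb.mul hB).ca c₁ c₂ ((poly_cop r₁).mul_left (poly_cop r₂))
  rw [mul_assoc] at hc
  refine ⟨A * B, ?_, hc.ss ?_⟩
  · rw [pow_two]
    exact Set.mul_mem_mul (self_mem_cS A) ⟨y, dy, ey⟩
  · rw [eval_mul]
    refine mul_ne_zero (fun e => z1 (mul_left_cancel₀ d0 ?_)) r₁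
    simp only [eval_sub, eval_X, eval_C] at e
    linear_combination (-z) * e + d * zi

theorem tt_ext {A : End F V} {X W : Submodule F V} {v : V} {k : ℕ} {μ : F[X]} (h : CD A ⊤ X W v k μ)
    (c₁ : End F X) (hc : c₁ * A.restrict h.invX = A.restrict h.invX * c₁) :
    ∃ c : End F V, LinearMap.det c = LinearMap.det c₁ ∧ c * A = A * c := by
  obtain ⟨c, hd⟩ := exists_dir (prodEquivOfIsCompl X W h.compl).symm c₁ 1
  exact ⟨c, by rw [hd.det, map_one, mul_one],
    hd.comm (dir_of_compl h.invX h.invW h.compl) hc (by rw [one_mul, mul_one])⟩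

theorem neg_one_of_sep [Fintype F] (h2 : (2 : F) ≠ 0) {A : End F V} {X W : Submodule F V} {v : V} {μ : F[X]}
    (h : CD A ⊤ X W v 2 μ) {s d : F} (hq : A * A = s • A - d • 1) (hs : s ^ 2 - 4 * d ≠ 0) :
    ∃ c : End F V, LinearMap.det c = -1 ∧ c * A = A * c := by
  obtain ⟨α, β, e⟩ := exists_norm h2 hs
  obtain ⟨c, dc, ec⟩ := tt_ext h (α • 1 + β • A.restrict h.invX) (by simp [add_mul, mul_add])
  refine ⟨c, ?_, ec⟩
  obtain ⟨u, hu⟩ := tt_ne h
  obtain ⟨b, b0, b1⟩ := tt_basis h.finrank hu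
  have hAA := LinearMap.congr_fun (tt_res hq h.invX) u
  generalize A.restrict h.invX = A₁ at *
  rw [dc, tt_det2 b (a := α) (c := β) (e := -(β * d)) (g := α + β * s) (by simp [b0, b1]) ?_]
  · linear_combination e
  · simp only [Module.End.mul_apply, LinearMap.sub_apply, LinearMap.smul_apply, Module.End.one_apply] at hAA
    simp only [b0, b1, LinearMap.add_apply, LinearMap.smul_apply, Module.End.one_apply, hAA]
    module

theorem neg_one_of_odd {A : End F V} {X W : Submodule F V} {v : V} {k : ℕ} {μ : F[X]} (h : CD A ⊤ X W v k μ)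
    (hk : Odd k) : ∃ c : End F V, LinearMap.det c = -1 ∧ c * A = A * c := by
  obtain ⟨c, dc, ec⟩ := tt_ext h ((-1 : F) • 1) (by simp)
  exact ⟨c, by rw [dc, LinearMap.det_smul, map_one, mul_one, h.finrank, hk.neg_one_pow], ec⟩

theorem tt_conj {A : End F V} {a : F} (hq : (A - a • 1) * (A - a • 1) = 0) (hA : NL A) {c : F} (hc : c ≠ 0) :
    a • 1 + c ^ 2 • (A - a • 1) ∈ cS A := by
  obtain ⟨N, rfl⟩ : ∃ N, A = a • 1 + N := ⟨A - a • 1, by abel⟩
  rw [add_sub_cancel_left] at hq ⊢
  have hN : ∀ y, N (N y) = 0 := fun y => LinearMap.congr_fun hq y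
  have hk : LinearMap.ker N = LinearMap.range N := by
    refine le_antisymm (fun x hx => ?_) (by rintro _ ⟨y, rfl⟩; exact hN y)
    by_contra hr
    obtain ⟨f, f1, f0⟩ := Submodule.exists_dual_map_eq_bot_of_notMem hr inferInstance
    have f2 : ∀ y, f (N y) = 0 := fun y => by
      have : f (N y) ∈ (LinearMap.range N).map f := mem_map_of_mem ⟨y, rfl⟩
      rwa [f0, mem_bot] at this
    refine hA a x ((f x)⁻¹ • f) ⟨by simp [inv_mul_cancel₀ f1], by simp [LinearMap.mem_ker.1 hx], fun y => ?_⟩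
    simp [f2, mul_left_comm]
  obtain ⟨R', hR⟩ := (LinearMap.range N).exists_isCompl
  have hr : finrank F R' = finrank F (LinearMap.range N) := by
    have h1 := N.finrank_range_add_finrank_ker
    have h2 := finrank_add_eq_of_isCompl hR
    rw [hk] at h1
    omega
  obtain ⟨h, hd⟩ := exists_dir (prodEquivOfIsCompl _ R' hR).symm (c • 1) (c⁻¹ • 1)
  have h1 : ∀ r : LinearMap.range N, h r = c • (r : V) := fun r => by
    have := hd r
    rw [prodEquivOfIsCompl_symm_apply_left, LinearEquiv.symm_apply_eq] at this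
    simpa using this
  have h2 : ∀ r : R', h r = c⁻¹ • (r : V) := fun r => by
    have := hd r
    rw [prodEquivOfIsCompl_symm_apply_right, LinearEquiv.symm_apply_eq] at this
    simpa using this
  refine ⟨h, ?_, ?_⟩
  · rw [hd.det, LinearMap.det_smul, LinearMap.det_smul, map_one, map_one, hr, mul_one, mul_one, ← mul_pow,
      mul_inv_cancel₀ hc, one_pow]
  · ext y
    obtain ⟨r, r', rfl, -⟩ := existsUnique_add_of_isCompl hR y
    have h3 : N r = 0 := LinearMap.mem_ker.1 (by rw [hk]; exact r.2)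
    have h4 : h (N r') = c • N r' := h1 ⟨N r', r', rfl⟩
    simp only [Module.End.mul_apply, LinearMap.add_apply, LinearMap.smul_apply, Module.End.one_apply, map_add,
      map_smul, h1, h2, h3, h4, map_zero]
    match_scalars <;> field_simp

theorem sc3 [Fintype F] (h4 : 4 ≤ Fintype.card F) (h2 : (2 : F) ≠ 0) (hn : 4 ≤ finrank F V) (he : Even (finrank F V))
    {A : End F V} {a : F} (ha : a ≠ 0) (hq : (A - a • 1) * (A - a • 1) = 0) (hA : NL A) :
    (a ^ finrank F V • 1 : End F V) ∈ cS A ^ finrank F V := by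
  have key : ∀ (j : ℕ) (s : F), SQ j s → a ^ j • 1 + (a ^ j * a⁻¹ * s) • (A - a • 1) ∈ cS A ^ j := by
    intro j
    induction j with
    | zero =>
      rintro s ⟨c, -, rfl⟩
      simp
    | succ j ih =>
      intro s hs
      obtain ⟨c, s', c0, hs', rfl⟩ := hs.uncons
      have := mul_mem_pow_succ (ih s' hs') (tt_conj hq hA c0)
      convert this using 1
      generalize A - a • 1 = N at hq
      simp only [add_mul, mul_add, smul_mul_assoc, mul_smul_comm, one_mul, mul_one, hq, smul_zero]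
      match_scalars <;> field_simp <;> ring
  simpa using key _ 0 (sq_zero h4 h2 hn he)

end CfsgLib.Lev
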