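import Cfsg.Agent.Lib.Lev.NS
import Cfsg.Agent.Lib.Lev.TT

/-! Maps without a one-dimensional summand (plans/LEV.md). -/

set_option autoImplicit false
set_option linter.unusedSectionVars false

namespace CfsgLib.Lev

open Module Polynomial Submodule
open scoped Pointwise

variable {F : Type*} [Field F] {V : Type*} [AddCommGroup V] [Module F V] [FiniteDimensional F V]
  {U : Type*} [AddCommGroup U] [Module F U] [FiniteDimensional F U]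
  {U' : Type*} [AddCommGroup U'] [Module F U'] [FiniteDimensional F U']

theorem add_blk [Fintype F] (h4 : 4 ≤ Fintype.card F) (h3 : 3 ≤ finrank F U) {e : V ≃ₗ[F] U × U'} {A : End F V}
    {A₁ : End F U} {A₂ T₂ : End F U'} (h : Blk e A A₁ A₂) (hd : LinearMap.det A ≠ 0) {b : ℕ}
    (hR : RR (cS A₁) (LinearMap.det A₁) b) (hT : T₂ ∈ cS A₂ ^ b) {ψ π₁ π₂ : F[X]} (hc : CA T₂ ψ) (i₁ : Irreducible π₁)
    (i₂ : Irreducible π₂) (z₁ : π₁.eval 0 ≠ 0) (z₂ : π₂.eval 0 ≠ 0) {N : ℕ} (hψ : ψ ∣ (π₁ * π₂) ^ N) :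
    ∃ T ∈ cS A ^ b, SS T := by
  have d₁ := (h.det_ne hd).1
  obtain ⟨γ, ψ₁, a1, a2, a3, a4, a5, a6⟩ := exists_cp h4 h3
    (c := (-1) ^ finrank F U * LinearMap.det A₁ ^ b) (mul_ne_zero (by simp) (pow_ne_zero _ d₁)) i₁ i₂ z₁ z₂
  obtain ⟨T₁, h1⟩ := exists_CA (V := U) a1 a2
  obtain ⟨T, hT', hb⟩ := h.powS (hR T₁ (h1.ss a4) (by
    rw [h1.det, a3, ← mul_assoc, ← mul_pow, neg_mul_neg, one_mul, one_pow, one_mul])) hT
  have hco : IsCoprime ((X - C γ) * ψ₁) ψ := ((a5.mul_right a6).pow_right (n := N)).of_isCoprime_of_dvd_right hψ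
  have h2 := hb.ca h1 hc hco
  rw [mul_assoc] at h2
  refine ⟨T, hT', h2.ss ?_⟩
  rw [eval_mul]
  refine mul_ne_zero a4 fun e0 => ?_
  obtain ⟨p, q, e⟩ := hco
  simpa [e0] using congrArg (eval γ) e

theorem inv_two [Fintype F] (h4 : 4 ≤ Fintype.card F) (h3 : 3 ≤ finrank F U) (h2 : finrank F U' = 2)
    {e : V ≃ₗ[F] U × U'} {A : End F V} {A₁ : End F U} {A₂ : End F U'} (h : Blk e A A₁ A₂) (hd : LinearMap.det A ≠ 0)
    (hn : NSc A₂) {b : ℕ} (hb : 1 ≤ b) (hR : RR (cS A₁) (LinearMap.det A₁) b) : ∃ T ∈ cS A ^ b, SS T := by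
  have c₂ := cls_cS (h.det_ne hd).2 hn
  obtain ⟨T₂, hT, h1⟩ := exists_nsc_pow c₂ hb
  obtain ⟨ψ, hψ⟩ := (h1.cyc_two h2).ca
  obtain ⟨π₁, π₂, i₁, i₂, z₁, z₂, hp⟩ := two_fac hψ.monic (hψ.deg.trans h2) fun e0 =>
    pow_ne_zero b c₂.d0 (by rw [← det_of_mem_pow c₂.det hT, hψ.det, e0, mul_zero])
  exact add_blk h4 h3 h hd hR hT hψ i₁ i₂ z₁ z₂ (N := 1) (by rwa [pow_one])

theorem inv_step [Fintype F] (h4 : 4 ≤ Fintype.card F) (h3 : 3 ≤ finrank F V) {A : End F V} (hd : LinearMap.det A ≠ 0)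
    (hA : NL A) {X W : Submodule F V} {v : V} {k : ℕ} {μ : F[X]} (h : CD A ⊤ X W v k μ)
    (ih : 3 ≤ finrank F W → LinearMap.det (A.restrict h.invW) ≠ 0 → NL (A.restrict h.invW) →
      RR (cS (A.restrict h.invW)) (LinearMap.det (A.restrict h.invW)) (finrank F W / 2 + 1)) :
    ∃ a b, PP (cS A) (LinearMap.det A) a ∧ RR (cS A) (LinearMap.det A) b ∧ 2 ≤ k ∧
      (finrank F W = 0 ∧ a = 3 ∧ b = 2 ∨ finrank F W = 2 ∧ a = 4 ∧ b = 3 ∨ 3 ≤ finrank F W ∧ ∃ c, a = 2 * c ∧ b = c + 1 ∧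
        (k = 2 ∧ c = finrank F W / 2 + 1 ∨ 3 ≤ k ∧ c = max (finrank F W / 2 + 1) 3)) := by
  have hn := hA.nsc (by omega)
  have cA := cls_cS hd hn
  have hk : 2 ≤ k := let ⟨u, hu⟩ := hn; h.two mem_top hu
  have hW := hA.restrict h.invX h.invW h.compl
  have bX := (dir_of_compl h.invX h.invW h.compl).blk
  have bW := (dir_of_compl h.invW h.invX h.compl.symm).blk
  have dX := (bX.det_ne hd).1
  have dW := (bX.det_ne hd).2
  have nX : NSc (A.restrict h.invX) := h.cyc.nsc (h.finrank ▸ hk)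
  obtain h0 | h2 | hl : finrank F W = 0 ∨ finrank F W = 2 ∨ 3 ≤ finrank F W := by have := hW.ne_one; omega
  · exact ⟨3, 2, (pp_cyc h4 h3 hd (h.cyc_top h0)).1, (pp_cyc h4 h3 hd (h.cyc_top h0)).2, hk, .inl ⟨h0, rfl, rfl⟩⟩
  · obtain ⟨T, hT, hs⟩ : ∃ T ∈ cS A ^ 2, SS T := by
      obtain rfl | hk3 : k = 2 ∨ 3 ≤ k := by omega
      · exact tt h4 hd h h2 (hW.nsc (by omega))
      · exact inv_two h4 (h.finrank ▸ hk3) h2 bX hd (hW.nsc (by omega)) one_le_two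
          (pp_cyc h4 (h.finrank ▸ hk3) dX h.cyc).2
    exact ⟨4, 3, (pp_of_ss h4 h3 cA hT hs).1, (pp_of_ss h4 h3 cA hT hs).2, hk, .inr (.inl ⟨h2, rfl, rfl⟩)⟩
  · obtain rfl | hk3 : k = 2 ∨ 3 ≤ k := by omega
    · obtain ⟨T, hT, hs⟩ := inv_two h4 hl h.finrank bW hd nX (by omega) (ih hl dW hW)
      exact ⟨_, _, (pp_of_ss h4 h3 cA hT hs).1, (pp_of_ss h4 h3 cA hT hs).2, hk,
        .inr (.inr ⟨hl, _, rfl, rfl, .inl ⟨rfl, rfl⟩⟩)⟩
    · obtain ⟨χ, π₁, π₂, a1, a2, a3, i₁, i₂, z₁, z₂, hp⟩ := exists_two_roots (m := finrank F X) (by rw [h.finrank]; omega)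
        (c := (-1) ^ finrank F X * LinearMap.det (A.restrict h.invX) ^ max (finrank F W / 2 + 1) 3)
        (mul_ne_zero (by simp) (pow_ne_zero _ dX))
      obtain ⟨T₂, h1⟩ := exists_CA (V := X) a1 a2
      obtain ⟨T, hT, hs⟩ := add_blk h4 hl bW hd (RR.mono h4 hl (cls_cS dW (hW.nsc (by omega))) (ih hl dW hW)
        (le_max_left _ 3)) ((pp_cyc h4 (h.finrank ▸ hk3) dX h.cyc).1.mono (cls_cS dX nX) (le_max_right _ 3) T₂
          (h1.cyc.nsc (h.finrank ▸ hk)) (by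
            rw [h1.det, a3, ← mul_assoc, ← mul_pow, neg_mul_neg, one_mul, one_pow, one_mul])) h1 i₁ i₂ z₁ z₂ hp
      exact ⟨_, _, (pp_of_ss h4 h3 cA hT hs).1, (pp_of_ss h4 h3 cA hT hs).2, hk,
        .inr (.inr ⟨hl, _, rfl, rfl, .inr ⟨hk3, rfl⟩⟩)⟩

theorem nl_inv [Fintype F] (h4 : 4 ≤ Fintype.card F) (h3 : 3 ≤ finrank F V) {A : End F V} (hd : LinearMap.det A ≠ 0)
    (hA : NL A) : RR (cS A) (LinearMap.det A) (finrank F V / 2 + 1) ∧ PP (cS A) (LinearMap.det A) (finrank F V) := by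
  induction hn : finrank F V using Nat.strong_induction_on generalizing V with
  | _ n ih =>
    subst hn
    have cA := cls_cS hd (hA.nsc (by omega))
    obtain ⟨X, W, v, k, μ, h⟩ := exists_CD A (Y := ⊤) (fun _ _ => mem_top) fun e => by
      rw [← finrank_top, e, finrank_bot] at h3
      omega
    have h1 := h.add
    have h2 := h.pos
    rw [finrank_top] at h1
    obtain ⟨a, b, hP, hR, hk, hc⟩ := inv_step h4 h3 hd hA h fun hl d hW => (ih _ (by omega) hl d hW rfl).1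
    refine ⟨RR.mono h4 h3 cA hR ?_, hP.mono cA ?_⟩ <;>
      obtain ⟨_, _, _⟩ | ⟨_, _, _⟩ | ⟨_, c, _, _, ⟨_, _⟩ | ⟨_, _⟩⟩ := hc <;> omega

theorem nl_half [Fintype F] (h4 : 4 ≤ Fintype.card F) {A : End F V} (hd : LinearMap.det A ≠ 0) (hA : NL A)
    {X W : Submodule F V} {v : V} {k : ℕ} {μ : F[X]} (h : CD A ⊤ X W v k μ) (hk : 4 ≤ k) (ek : Even k)
    (en : Even (finrank F V)) : RR (cS A) (LinearMap.det A) (finrank F V / 2) := by
  have h1 := h.add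
  rw [finrank_top] at h1
  have h3 : 3 ≤ finrank F V := by omega
  obtain ⟨a, b, -, hR, -, hc⟩ := inv_step h4 h3 hd hA h fun hl d hW => (nl_inv h4 hl d hW).1
  rw [Nat.even_iff] at ek en
  refine RR.mono h4 h3 (cls_cS hd (hA.nsc (by omega))) hR ?_
  obtain ⟨_, _, _⟩ | ⟨_, _, _⟩ | ⟨_, c, _, _, ⟨_, _⟩ | ⟨_, _⟩⟩ := hc <;> omega


end CfsgLib.Lev
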