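import Cfsg.Agent.Lib.Lev.Gr
import Cfsg.Agent.Lib.Lev.Blk

/-! Splitting off a line (plans/LEV.md). -/

set_option autoImplicit false
set_option linter.unusedSectionVars false

namespace CfsgLib.Lev

open Module Polynomial Submodule
open scoped Pointwise

variable {F : Type*} [Field F] {V : Type*} [AddCommGroup V] [Module F V] [FiniteDimensional F V]
  {U : Type*} [AddCommGroup U] [Module F U] [FiniteDimensional F U]
  {U' : Type*} [AddCommGroup U'] [Module F U'] [FiniteDimensional F U']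

theorem lx_dual {ι : Type*} {w : ι → V} (h : LinearIndependent F w) (a : ι → F) : ∃ f : Dual F V, ∀ i, f (w i) = a i := by
  obtain ⟨g, hg⟩ := LinearMap.exists_extend ((Basis.span h).constr F a)
  refine ⟨g, fun i => ?_⟩
  have := LinearMap.congr_fun hg (Basis.span h i)
  rw [Basis.constr_basis] at this
  simpa [Basis.span_apply] using this

theorem lx_exists (h4 : 4 ≤ finrank F V) (f g : Dual F V) (x : V) : ∃ y, f y = 0 ∧ g y = 0 ∧ y ∉ span F {x} := by
  by_contra! h
  have h1 := LinearMap.finrank_range_add_finrank_ker (f.prod g)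
  have h2 : finrank F (LinearMap.range (f.prod g)) ≤ 2 := (finrank_le _).trans (by simp)
  have h3 : finrank F (LinearMap.ker (f.prod g)) ≤ finrank F (span F {x}) :=
    finrank_mono fun y hy => h y (congrArg Prod.fst hy) (congrArg Prod.snd hy)
  have h5 : finrank F (span F {x}) ≤ 1 := (finrank_span_le_card ({x} : Set V)).trans (by simp)
  omega

theorem lx_ne {u w z : V} (h : LinearIndependent F ![u, w, z]) (a b : F) : z - a • w - b • u ≠ 0 := fun e => by
  have := Fintype.linearIndependent_iff.1 h ![-b, -a, 1] (by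
    rw [← e]
    simp [Fin.sum_univ_three]
    abel) 2
  simp at this

theorem lx (h4 : 4 ≤ finrank F V) {A G : End F V} {u : V} (dA : LinearMap.det A ≠ 0) (dG : LinearMap.det G ≠ 0)
    (hu : LinearIndependent F ![u, A u, A (A u)]) (hG : NSc G) :
    ∃ B ∈ cG A, ∃ (Q : End F V) (v : V) (f : Dual F V), G = Q * B ∧ Ln Q 1 v f ∧ ∃ x, f x = 0 ∧ ∀ t : F, Q x ≠ t • x := by
  obtain ⟨u', hu'⟩ := hG
  obtain ⟨f', p0, p1⟩ := exists_dual_pair (pair_of_ne hu') 0 1
  obtain ⟨f₀, hf⟩ := lx_dual hu ![0, 1, f' (G (G u'))]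
  have q0 : f₀ u = 0 := hf 0
  have q1 : f₀ (A u) = 1 := hf 1
  have q2 : f₀ (A (A u)) = f' (G (G u')) := hf 2
  generalize hγ : f' (G (G u')) = γ at q2
  obtain ⟨y', y1, y2, y3⟩ := lx_exists h4 f' (f' ∘ₗ G)
    (G (G u' - γ • u') - f' (G (G (G u' - γ • u'))) • u')
  obtain ⟨x, dx, x1, x2, x3, x4, x5⟩ := gr2 (u₁ := A u - γ • u) (u₂ := u) (u₁' := G u' - γ • u') (u₂' := u')
    (f₁ := f₀) (f₂ := f₀ ∘ₗ A) (f₁' := f') (f₂' := f' ∘ₗ G) (by simp [q0, q1]) q0 (by simp [q1, q2]) q1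
    (by simp [p0, p1]) p0 (by simp [p1, hγ]) p1
    (y := A (A u - γ • u) - f₀ (A (A (A u - γ • u))) • u) (y' := y') (by simp [q0, q1, q2]) (by simp [q1]) y1 y2
    (iff_of_false (by rw [map_sub, map_smul]; exact lx_ne hu _ _) fun e => y3 (e ▸ zero_mem _))
  obtain ⟨x', i1, i2⟩ := exists_inv dx
  have hB := conj_mem_cG dx i2 A
  have hx : ∀ w, (x * A * x') (x w) = x (A w) := fun w => by
    rw [← End.mul_apply, mul_assoc, i2, mul_one, End.mul_apply]
  have hf' : ∀ w, f' ((x * A * x') w) = f' (G w) := fun w => by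
    rw [← End.one_apply (R := F) w, ← i1, End.mul_apply x x', hx, x4]
    exact (x5 _).symm
  generalize x * A * x' = B at hB hx hf'
  obtain ⟨B', j1, j2⟩ := exists_inv (h := B) (by rwa [det_of_cG hB])
  have hQ : ∀ w, (G * B') (B w) = G w := fun w => by rw [← End.mul_apply, mul_assoc, j2, mul_one]
  have b1 : B u' = G u' := by
    rw [← x2, hx, ← sub_add_cancel (A u) (γ • u), map_add, map_smul, x1, x2, sub_add_cancel]
  have b2 : B (G u' - γ • u') = y' + f₀ (A (A (A u - γ • u))) • u' := by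
    rw [← x1, hx, ← x3, ← x2, ← map_smul, ← map_add, sub_add_cancel]
  refine ⟨B, hB, G * B', G u', f', by rw [mul_assoc, j2, mul_one], ⟨p1, ?_, fun w => ?_⟩, B (G u' - γ • u'),
    by rw [b2]; simp [y1, p0], fun t ht => ?_⟩
  · rw [one_smul, ← b1, hQ, b1]
  · rw [one_mul, End.mul_apply, ← hf', ← End.mul_apply, j1, End.one_apply]
  · rw [hQ, b2] at ht
    by_cases t0 : t = 0
    · rw [t0, zero_smul, ← map_zero G] at ht
      simpa [p0, p1] using congrArg f' (inj_of_det dG ht)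
    · refine y3 (mem_span_singleton.2 ⟨t⁻¹, ?_⟩)
      have y2' : f' (G y') = 0 := y2
      rw [ht, inv_smul_eq_iff₀ t0]
      simp [y2', p1, smul_smul]

theorem pp_line {n : ℕ} (hn : finrank F V = n + 1) (h3 : 3 ≤ n) {A : End F V} {γ : F} {v u : V} {f : Dual F V}
    (dA : LinearMap.det A ≠ 0) (hL : Ln A γ v f) (hu : LinearIndependent F ![u, A u, A (A u)])
    (ih : PP (cS (A.restrict hL.inv)) (LinearMap.det (A.restrict hL.inv)) n) : PP (cS A) (LinearMap.det A) (n + 1) := by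
  intro g hg hd
  have d0 := hL.det
  have γ0 : γ ^ n ≠ 0 := pow_ne_zero _ fun e => dA (d0.trans (mul_eq_zero_of_left e _))
  obtain ⟨B, hB, Q, v', f', e, hQ, w, w0, hw⟩ := lx (by omega) (G := (γ ^ n)⁻¹ • g) dA
    (by rw [LinearMap.det_smul, hd]; exact mul_ne_zero (pow_ne_zero _ (inv_ne_zero γ0)) (pow_ne_zero _ dA)) hu
    (let ⟨z, hz⟩ := hg; ⟨z, fun t ht => hz (γ ^ n * t) (by rw [mul_smul, ← ht]; simp [γ0])⟩)
  have e' : g = (γ ^ n • Q) * B := by rw [smul_mul_assoc, ← e, smul_inv_smul₀ γ0]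
  obtain ⟨x, dx, x1, x2⟩ := gr1 hL.fv hQ.fv
  obtain ⟨y, i1, i2⟩ := exists_inv dx
  have a1 : ∀ z, x (y z) = z := fun z => by rw [← End.mul_apply, i1, End.one_apply]
  have a2 : ∀ z, y (x z) = z := fun z => by rw [← End.mul_apply, i2, End.one_apply]
  have hT : Ln (y * (γ ^ n • Q) * x) (γ ^ n) v f := ⟨hL.fv, by
    simp only [End.mul_apply, LinearMap.smul_apply, map_smul, x1, hQ.Tv, one_smul]
    rw [← x1, a2], fun z => by
    simp only [End.mul_apply, LinearMap.smul_apply, map_smul, smul_eq_mul]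
    rw [← x2, a1, hQ.fT, one_mul, x2]⟩
  have c1 : γ ^ n • Q ∈ cG (y * (γ ^ n • Q) * x) := ⟨x, dx, by rw [← mul_assoc, ← mul_assoc, i1, one_mul]⟩
  have h1 := hL.pow hT (ih _ ⟨⟨y w, by rw [LinearMap.mem_ker, ← x2, a1, w0]⟩, fun t ht => hw ((γ ^ n)⁻¹ * t) (by
    have h2 := congrArg x (congrArg Subtype.val ht)
    simp only [LinearMap.coe_restrict_apply, End.mul_apply, a1, LinearMap.smul_apply, SetLike.val_smul,
      map_smul] at h2
    rw [mul_smul, ← h2, inv_smul_smul₀ γ0])⟩ (by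
    refine mul_left_cancel₀ γ0 (mul_right_cancel₀ dA ?_)
    rw [← hT.det, ← det_of_cG c1, ← mul_pow, ← d0, ← pow_succ, ← hd, e', map_mul, det_of_cG hB]))
  rw [← hL.full.cG_eq] at h1 ⊢
  rw [e']
  exact mul_mem_pow_succ (cG_pow_inv h1 c1) hB

theorem nsc_line {A : End F V} {γ : F} {v u : V} {f : Dual F V} (hL : Ln A γ v f)
    (hu : LinearIndependent F ![u, A u, A (A u)]) : NSc (A.restrict hL.inv) := by
  refine nsc_of_ne fun t ht => lx_ne hu (γ + t) (-(t * γ)) ?_
  have h1 := congrArg Subtype.val (LinearMap.congr_fun ht ⟨A u - γ • u, by simp [hL.fT]⟩)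
  simp only [LinearMap.coe_restrict_apply, map_sub, map_smul, LinearMap.smul_apply, End.one_apply,
    SetLike.val_smul] at h1
  rw [add_smul, ← sub_sub, h1]
  module


end CfsgLib.Lev
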