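import Cfsg.Agent.Lib.Lev.Gr
import Cfsg.Agent.Lib.Lev.Poly

/-! Homologies and transvections (plans/LEV.md). -/

set_option autoImplicit false
set_option linter.unusedSectionVars false

namespace CfsgLib.Lev

open Module Polynomial Submodule
open scoped Pointwise

variable {F : Type*} [Field F] {V : Type*} [AddCommGroup V] [Module F V] [FiniteDimensional F V]
  {U : Type*} [AddCommGroup U] [Module F U] [FiniteDimensional F U]
  {U' : Type*} [AddCommGroup U'] [Module F U'] [FiniteDimensional F U']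

theorem r1_form {W : Submodule F V} {v : V} (hv : v ∉ W) : ∃ φ : Dual F V, φ v = 1 ∧ ∀ w ∈ W, φ w = 0 := by
  obtain ⟨φ, h1, h2⟩ := exists_dual_map_eq_bot_of_notMem hv inferInstance
  refine ⟨(φ v)⁻¹ • φ, by simp [h1], fun w hw => ?_⟩
  have h3 : φ w = 0 := (Submodule.eq_bot_iff _).1 h2 _ ⟨w, hw, rfl⟩
  simp [h3]

theorem r1_finrank {W : Submodule F V} {v : V} {φ : Dual F V} (h : φ v = 1) (hv : v ∈ W) :
    finrank F ↥(W ⊓ LinearMap.ker φ) + 1 = finrank F W := by
  have h1 : W ⊓ LinearMap.ker φ ⊔ span F {v} = W := by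
    refine le_antisymm (sup_le inf_le_left ((span_singleton_le_iff_mem v W).2 hv)) fun u hu => ?_
    rw [← sub_add_cancel u (φ u • v)]
    exact add_mem_sup ⟨W.sub_mem hu (W.smul_mem _ hv), by simp [h]⟩ (smul_mem _ _ (mem_span_singleton_self v))
  rw [← finrank_sup_span_singleton (v := v) fun e => by simpa [h] using e.2, h1]

/-- a form with prescribed values on `e`, `e'` whose kernel contains a vector that is no eigenvector modulo `e` -/
theorem r1_choose {a : F} (ha : a ≠ 0) {W : Submodule F V} (h3 : 3 ≤ finrank F W) {g : End F V} {e e' : V} (he : e ∈ W)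
    (he' : e' ∈ W) (hg : g e' = e) (hn : ∀ t : F, g e ≠ t • e) {f : Dual F V} (f1 : f e = 1) (f2 : f e' = a⁻¹) :
    ∃ f' : Dual F V, f' e = 1 ∧ f' e' = a⁻¹ ∧ ∃ w ∈ W, f' w = 0 ∧ ∀ t c : F, g w ≠ t • w + c • e := by
  classical
  obtain ⟨x₀, hx, hx'⟩ : ∃ x₀ ∈ W, x₀ ∉ span F {e, e'} := by
    by_contra! h
    have h1 := finrank_mono (show W ≤ span F {e, e'} from h)
    have h2 := (finrank_span_le_card (R := F) ({e, e'} : Set V)).trans
      (show _ ≤ 2 by rw [Set.toFinset_insert, Set.toFinset_singleton]; exact Finset.card_le_two)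
    omega
  obtain ⟨θ, t0, ht⟩ := r1_form hx'
  have t1 : θ e = 0 := ht e (subset_span (by simp))
  have t2 : θ e' = 0 := ht e' (subset_span (by simp))
  by_contra! h
  obtain ⟨s₁, c₁, h1⟩ := h f f1 f2 (e - a • e') (W.sub_mem he (W.smul_mem _ he')) (by simp [f1, f2, ha])
  obtain ⟨s₂, c₂, h2⟩ := h f f1 f2 (x₀ - f x₀ • e) (W.sub_mem hx (W.smul_mem _ he)) (by simp [f1])
  obtain ⟨s₃, c₃, h4⟩ := h (f + θ) (by simp [f1, t1]) (by simp [f2, t2]) (x₀ - f x₀ • e - e)
    (W.sub_mem (W.sub_mem hx (W.smul_mem _ he)) he) (by simp [f1, t0, t1])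
  have h5 : θ (g e) = 0 := by simpa [hg, t1, t2] using congrArg θ h1
  rw [map_sub, h2] at h4
  obtain rfl : s₂ = s₃ := by simpa [t0, t1, h5] using congrArg θ h4
  refine hn (c₂ + s₂ - c₃) ?_
  rw [sub_eq_iff_eq_add] at h4
  linear_combination (norm := module) -h4

theorem r1_core {a : F} (ha : a ≠ 0) : ∀ (j : ℕ) (W : Submodule F V) (g : End F V), finrank F W = j + 1 →
    (∀ x, g x - x ∈ W) → LinearMap.det g = a ^ (j + 1) → (1 ≤ j → ∃ u ∈ W, ∀ t : F, g u ≠ t • u) →
    g ∈ {R : End F V | ∃ (e : V) (φ : Dual F V), e ≠ 0 ∧ φ e = a - 1 ∧ R = 1 + φ.smulRight e} ^ (j + 1) := by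
  intro j
  induction j with
  | zero =>
    intro W g hW h1 hd _
    obtain ⟨e, he, h2⟩ := finrank_eq_one_iff'.1 hW
    have he' : (e : V) ≠ 0 := fun h => he (Subtype.ext h)
    obtain ⟨f, f1, -⟩ := r1_form (F := F) (W := ⊥) he'
    have h3 : g = 1 + (f ∘ₗ (g - 1)).smulRight (e : V) := by
      ext x
      obtain ⟨c, hc⟩ := h2 ⟨_, h1 x⟩
      have h4 : g x - x = c • (e : V) := (congrArg Subtype.val hc).symm
      simp only [LinearMap.add_apply, End.one_apply, LinearMap.smulRight_apply, LinearMap.comp_apply,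
        LinearMap.sub_apply, h4, map_smul, f1, smul_eq_mul, mul_one]
      rw [← h4, add_sub_cancel]
    rw [zero_add, pow_one] at hd ⊢
    refine ⟨e, _, he', ?_, h3⟩
    rw [← hd, h3, det_one_add, ← h3, add_sub_cancel_left]
  | succ j ih =>
    intro W g hW h1 hd hu
    obtain ⟨e, he, hn⟩ := hu (by omega)
    obtain ⟨g', i1, i2⟩ := exists_inv (h := g) (by rw [hd]; exact pow_ne_zero _ ha)
    have a1 : g (g' e) = e := by rw [← End.mul_apply, i1, End.one_apply]
    have a2 : ∀ x, g' (g x) = x := fun x => by rw [← End.mul_apply, i2, End.one_apply]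
    have he' : g' e ∈ W := by simpa [a1] using W.sub_mem he (h1 (g' e))
    have e0 : e ≠ 0 := fun h => hn 0 (by simp [h])
    obtain ⟨f, f1, f2, hf⟩ : ∃ f : Dual F V, f e = 1 ∧ f (g' e) = a⁻¹ ∧
        (1 ≤ j → ∃ w ∈ W, f w = 0 ∧ ∀ t c : F, g w ≠ t • w + c • e) := by
      obtain ⟨f, f1, f2⟩ := exists_dual_pair (pair_of_ne (g := g') (u := e) fun t ht => by
        have h2 : t • g e = e := by rw [← map_smul, ← ht, a1]
        have t0 : t ≠ 0 := fun h => e0 (by rw [← h2, h, zero_smul])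
        exact hn t⁻¹ ((eq_inv_smul_iff₀ t0).2 h2)) 1 a⁻¹
      by_cases hj : 1 ≤ j
      · obtain ⟨f', b1, b2, b3⟩ := r1_choose ha (by omega) he he' a1 hn f1 f2
        exact ⟨f', b1, b2, fun _ => b3⟩
      · exact ⟨f, f1, f2, fun h => absurd h hj⟩
    have hg : ∀ x, ((1 + (f ∘ₗ g' - f).smulRight e : End F V) * g) x = g x + (f x - f (g x)) • e := fun x => by
      simp [a2]
    have h2 := ih (W ⊓ LinearMap.ker f) ((1 + (f ∘ₗ g' - f).smulRight e : End F V) * g)
      (by have := r1_finrank f1 he; omega)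
      (fun x => ⟨by rw [hg, add_sub_right_comm]; exact W.add_mem (h1 x) (W.smul_mem _ he), by simp [hg, f1]⟩)
      (by rw [map_mul, det_one_add, hd]; simp [f1, f2, pow_succ' a (j + 1), ha])
      fun hj => let ⟨w, hw, w0, h⟩ := hf hj; ⟨w, ⟨hw, w0⟩, fun t ht => h t (-(f w - f (g w))) (by
        rw [← ht, hg, neg_smul, add_neg_cancel_right])⟩
    rw [pow_succ']
    refine ⟨1 + (-a • (f ∘ₗ g' - f)).smulRight e, ⟨e, _, e0, by simp [f1, f2, mul_sub, ha, neg_add_eq_sub], rfl⟩, _, h2, ?_⟩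
    ext x
    simp only [End.mul_apply (1 + (-a • (f ∘ₗ g' - f)).smulRight e), hg]
    simp only [LinearMap.add_apply, End.one_apply, LinearMap.smulRight_apply, LinearMap.smul_apply, LinearMap.sub_apply,
      LinearMap.comp_apply, map_add, map_smul, a2, f1, f2, smul_eq_mul]
    rw [show -a * (a⁻¹ - 1) = a - 1 by field_simp; ring]
    module

theorem pp_rank_one [Fintype F] (h4 : 4 ≤ Fintype.card F) (h2 : 2 ≤ finrank F V) {A : End F V} {t : F} {e : V}
    {φ : Dual F V} (hA : A = t • 1 + φ.smulRight e) (hd : LinearMap.det A ≠ 0) (hs : NSc A) :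
    PP (cG A) (LinearMap.det A) (finrank F V) := by
  intro g hg hd'
  have e0 : e ≠ 0 := fun h => hs.ne t (by rw [hA, h]; ext; simp)
  have φ0 : φ ≠ 0 := fun h => hs.ne t (by rw [hA, h]; ext; simp)
  have t0 : t ≠ 0 := by
    rintro rfl
    have h1 := LinearMap.finrank_range_add_finrank_ker φ
    have h3 : finrank F (LinearMap.range φ) ≤ 1 := (finrank_le _).trans (by simp)
    obtain ⟨x, hx, x0⟩ := exists_mem_ne_zero_of_ne_bot (p := LinearMap.ker φ) fun h => by
      rw [h, finrank_bot] at h1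
      omega
    exact x0 (inj_of_det hd (by simp [hA, LinearMap.mem_ker.1 hx]))
  have ψ0 : t⁻¹ • φ ≠ 0 := smul_ne_zero (inv_ne_zero t0) φ0
  have hA' : A = t • (1 + (t⁻¹ • φ).smulRight e) := by
    rw [hA]
    ext x
    simp [smul_smul, t0]
  generalize t⁻¹ • φ = ψ at ψ0 hA'
  have hdet : LinearMap.det A = t ^ finrank F V * (1 + ψ e) := by rw [hA', LinearMap.det_smul, det_one_add]
  have a0 : 1 + ψ e ≠ 0 := fun h => hd (by rw [hdet, h, mul_zero])
  have tn : t ^ finrank F V ≠ 0 := pow_ne_zero _ t0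
  obtain ⟨j, hj⟩ : ∃ j, finrank F V = j + 1 := ⟨_, (Nat.sub_add_cancel (by omega)).symm⟩
  obtain ⟨z, hz⟩ := hg
  have hz' : ∀ s : F, ((t ^ finrank F V)⁻¹ • g) z ≠ s • z := fun s hs =>
    hz (t ^ finrank F V * s) (by rw [mul_smul, ← hs, LinearMap.smul_apply, smul_inv_smul₀ tn])
  have h1 := r1_core a0 j ⊤ ((t ^ finrank F V)⁻¹ • g) (by rw [finrank_top, hj]) (fun _ => mem_top)
    (by rw [LinearMap.det_smul, hd', hdet, ← hj, ← mul_pow, inv_mul_cancel_left₀ tn]) fun _ => ⟨z, mem_top, hz'⟩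
  rw [← hj] at h1
  have hR : ∀ R ∈ {R : End F V | ∃ (e' : V) (φ : Dual F V), e' ≠ 0 ∧ φ e' = 1 + ψ e - 1 ∧ R = 1 + φ.smulRight e'},
      R ∈ cG (1 + ψ.smulRight e : End F V) ∨ R = 1 ∧ ψ e = 0 := by
    rintro _ ⟨e', φ', b1, b2, rfl⟩
    rw [add_sub_cancel_left] at b2
    by_cases h : φ' = 0
    · exact .inr ⟨by rw [h]; ext; simp, by rw [← b2, h]; rfl⟩
    · exact .inl (rank_one_conj h2 e0 b1 ψ0 h b2.symm)
  rw [← smul_inv_smul₀ tn g, hA']
  refine smul_mem_pow t ?_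
  by_cases h0 : ψ e = 0
  swap
  · exact pow_mono_set (fun R h => (hR R h).resolve_right fun h => h0 h.2) _ h1
  obtain ⟨c, c0, c1, -⟩ := avoid3 h4 (P := (· = 0)) (Q := (· = 1)) (R := fun _ => False) (by simp) (by simp) (by simp)
  have h5 : (1 + ψ.smulRight e : End F V) ∈ cG (1 + ψ.smulRight e : End F V) ^ 2 := by
    rw [sq]
    refine ⟨_, rank_one_conj h2 e0 e0 ψ0 (smul_ne_zero c0 ψ0) (by simp [h0]), _,
      rank_one_conj h2 e0 e0 ψ0 (smul_ne_zero (sub_ne_zero.2 (Ne.symm c1)) ψ0) (by simp [h0]), ?_⟩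
    ext x
    simp [h0]
    module
  have h6 : ∀ i, ∀ x ∈ cG (1 + ψ.smulRight e : End F V) ^ (i + 1), x ∈ cG (1 + ψ.smulRight e : End F V) ^ (i + 2) :=
    fun i x hx => let ⟨_, hy, _, hw, h⟩ := mem_pow_succ hx; h ▸ mul_mem_pow_add hy (cG_pow_inv h5 hw)
  have h7 : ∀ i, ∀ x ∈ cG (1 + ψ.smulRight e : End F V), x ∈ cG (1 + ψ.smulRight e : End F V) ^ (i + 1) := by
    intro i x hx
    induction i with
    | zero => simpa using hx
    | succ i ih => exact h6 i x ih
  have h8 : ∀ i, ∀ x ∈ {R : End F V | ∃ (e' : V) (φ : Dual F V), e' ≠ 0 ∧ φ e' = 1 + ψ e - 1 ∧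
      R = 1 + φ.smulRight e'} ^ i, x = 1 ∨ x ∈ cG (1 + ψ.smulRight e : End F V) ^ i := by
    intro i
    induction i with
    | zero => exact fun x hx => .inl (eq_one_of_mem_pow_zero hx)
    | succ i ih =>
      intro x hx
      obtain ⟨y, hy, R, hw, rfl⟩ := mem_pow_succ hx
      obtain rfl | hy := ih y hy <;> obtain hw | ⟨rfl, -⟩ := hR R hw
      · exact .inr (by rw [one_mul]; exact h7 i R hw)
      · exact .inl (one_mul 1)
      · exact .inr (mul_mem_pow_succ hy hw)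
      · rw [mul_one]
        cases i with
        | zero => exact .inl (eq_one_of_mem_pow_zero hy)
        | succ i => exact .inr (h6 i y hy)
  exact (h8 _ _ h1).resolve_left fun h => hz' 1 (by rw [h]; simp)


end CfsgLib.Lev
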