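import Cfsg.Agent.Lib.Lev.NS
import Cfsg.Agent.Lib.Lev.R1
import Cfsg.Agent.Lib.Lev.CDec

/-! Quadratic maps with rational eigenvalues (plans/LEV.md). -/

set_option autoImplicit false
set_option linter.unusedSectionVars false

namespace CfsgLib.Lev

open Module Polynomial Submodule
open scoped Pointwise

variable {F : Type*} [Field F] {V : Type*} [AddCommGroup V] [Module F V] [FiniteDimensional F V]
  {U : Type*} [AddCommGroup U] [Module F U] [FiniteDimensional F U]
  {U' : Type*} [AddCommGroup U'] [Module F U'] [FiniteDimensional F U']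

theorem exists_between {A : End F V} {a b : F} (hq : (A - a • 1) * (A - b • 1) = 0) {P Q : Submodule F V}
    (hP : ∀ x ∈ P, A x ∈ P) (hQ : ∀ x ∈ Q, A x ∈ Q) (hPQ : P ≤ Q) {j : ℕ} (h1 : finrank F P ≤ j) (h2 : j ≤ finrank F Q) :
    ∃ W : Submodule F V, (∀ x ∈ W, A x ∈ W) ∧ P ≤ W ∧ W ≤ Q ∧ finrank F W = j := by
  obtain ⟨k, rfl⟩ := Nat.exists_eq_add_of_le h1
  clear h1
  induction k with
  | zero => exact ⟨P, hP, le_rfl, hPQ, rfl⟩
  | succ k ih =>
    obtain ⟨W, hW, h1, h3, h4⟩ := ih (by omega)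
    have hne : W ≠ Q := by rintro rfl; omega
    obtain ⟨x, hxQ, hxW⟩ := SetLike.exists_of_lt (lt_of_le_of_ne h3 hne)
    have key : ∃ z ∈ Q, z ∉ W ∧ ∃ t : F, A z - t • z ∈ W := by
      by_cases hy : A x - b • x ∈ W
      · exact ⟨x, hxQ, hxW, b, hy⟩
      · refine ⟨A x - b • x, Q.sub_mem (hQ x hxQ) (Q.smul_mem b hxQ), hy, a, ?_⟩
        have := congrArg (fun T : End F V => T x) hq
        simp only [End.mul_apply, LinearMap.sub_apply, LinearMap.smul_apply, End.one_apply,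
          LinearMap.zero_apply] at this
        rw [this]; exact W.zero_mem
    obtain ⟨z, hzQ, hzW, t, ht⟩ := key
    refine ⟨W ⊔ span F {z}, ?_, h1.trans le_sup_left, sup_le h3 (by simpa using hzQ), ?_⟩
    · intro y hy
      obtain ⟨w, hw, y', hy', rfl⟩ := mem_sup.1 hy
      obtain ⟨c, rfl⟩ := mem_span_singleton.1 hy'
      rw [map_add, map_smul]
      refine add_mem (mem_sup_left (hW w hw)) (smul_mem _ c ?_)
      have : A z = (A z - t • z) + t • z := by abel
      rw [this]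
      exact add_mem (mem_sup_left ht) (mem_sup_right (smul_mem _ t (mem_span_singleton_self z)))
    · rw [finrank_sup_span_singleton hzW]; omega

theorem pq_cd {g : End F V} {a b : F} (hq : (g - a • 1) * (g - b • 1) = 0) {Y : Submodule F V}
    (hY : ∀ y ∈ Y, g y ∈ Y) {u : V} (hu : u ∈ Y) (hn : ∀ t : F, g u ≠ t • u) :
    ∃ X W v μ, CD g Y X W v 2 μ := by
  have h0 : Y ≠ ⊥ := by
    rintro rfl
    rw [mem_bot] at hu
    exact hn 0 (by simp [hu])
  obtain ⟨X, W, v, k, μ, h⟩ := exists_CD g hY h0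
  have h2 := h.two hu hn
  have : k = 2 := by
    by_contra hk
    have h3 := h.three (by omega)
    have e := congrArg (fun T : End F V => T v) hq
    simp only [End.mul_apply, LinearMap.sub_apply, LinearMap.smul_apply, End.one_apply,
      LinearMap.zero_apply, map_sub, map_smul] at e
    have := Fintype.linearIndependent_iff.1 h3 ![a * b, -(a + b), 1] (by
      simp only [Fin.sum_univ_three, Matrix.cons_val_zero, Matrix.cons_val_one, Matrix.cons_val]
      rw [← e]; module) 2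
    simp at this
  subst this
  exact ⟨X, W, v, μ, h⟩

theorem pq_blk {e : V ≃ₗ[F] U × U'} {T : End F V} {T₁ : End F U} {T₂ : End F U'} (h : Blk e T T₁ T₂) {a b : F}
    (hq : (T - a • 1) * (T - b • 1) = 0) :
    (T₁ - a • 1) * (T₁ - b • 1) = 0 ∧ (T₂ - a • 1) * (T₂ - b • 1) = 0 := by
  have := h.aeval ((X - C a) * (X - C b))
  simp only [map_mul, map_sub, aeval_X, aeval_C, Algebra.algebraMap_eq_smul_one] at this
  rw [hq] at this
  exact this.eq_zero

theorem pq_mem {A : End F V} {m : ℕ} (hm : finrank F V = m) (h2 : 2 ≤ m) (h : PP (cG A) (LinearMap.det A) m)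
    {χ : F[X]} (hχ : χ.Monic) (hd : χ.natDegree = m) (h0 : χ.eval 0 = (-1) ^ m * LinearMap.det A ^ m) :
    ∃ T ∈ cG A ^ m, CA T χ := by
  obtain ⟨T, hT⟩ := exists_CA (V := V) hχ (hd.trans hm.symm)
  refine ⟨T, h T (hT.cyc.nsc (by omega)) ?_, hT⟩
  rw [hT.det, h0, hm, ← mul_assoc, ← mul_pow]; simp

theorem pq_nsc {A : End F V} {W : Submodule F V} (hW : ∀ x ∈ W, A x ∈ W) {v : V} (hv : v ∈ W)
    (hn : ∀ t : F, A v ≠ t • v) : NSc (A.restrict hW) :=
  ⟨⟨v, hv⟩, fun t ht => hn t (by simpa using congrArg Subtype.val ht)⟩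

universe u

theorem pq_half [Fintype F] (h4 : 4 ≤ Fintype.card F) {a b : F} {m : ℕ} (hm : 2 ≤ m)
    (IH : ∀ (Y : Type u) [AddCommGroup Y] [Module F Y] [FiniteDimensional F Y], finrank F Y = m →
      ∀ A : End F Y, LinearMap.det A ≠ 0 → NSc A → (A - a • 1) * (A - b • 1) = 0 →
        PP (cG A) (LinearMap.det A) m)
    {Y : Type u} [AddCommGroup Y] [Module F Y] [FiniteDimensional F Y]
    (hY : finrank F Y = m ∨ finrank F Y = m + 1) {A : End F Y} (hd : LinearMap.det A ≠ 0) (hA : NSc A)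
    (hq : (A - a • 1) * (A - b • 1) = 0) :
    ∃ T ∈ cG A ^ m, ∃ (γ : F) (ψ : F[X]), CA T ((X - C γ) * ψ) ∧ ψ.eval γ ≠ 0 ∧
      ∀ ρ : F[X], (∀ a, ρ.eval a ≠ 0) → IsCoprime ((X - C γ) * ψ) ρ := by
  rcases hY with hY | hY
  · obtain ⟨γ, ψ, h1, h2, h3, h5, h6⟩ := exists_split_simple h4 hm
      (c := (-1) ^ m * LinearMap.det A ^ m) (by simp [hd])
    obtain ⟨T, hT, hc⟩ := pq_mem hY hm (IH Y hY A hd hA hq) h1 h2 h3
    exact ⟨T, hT, γ, ψ, hc, h5, h6⟩
  · obtain ⟨u, hu⟩ := hA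
    obtain ⟨X', W, v, μ, h⟩ := pq_cd hq (Y := ⊤) (fun _ _ => mem_top) (mem_top (x := u)) hu
    obtain ⟨W₁, hW₁, hX, -, hr⟩ := exists_between hq h.invX (Q := ⊤) (fun _ _ => mem_top) le_top (j := m)
      (by rw [h.finrank]; exact hm) (by rw [finrank_top]; omega)
    obtain ⟨W', hc⟩ := W₁.exists_isCompl
    have hr' : finrank F W' = 1 := by have := finrank_add_eq_of_isCompl hc; omega
    obtain ⟨A₂, hb, -⟩ := exists_blk hW₁ hc
    obtain ⟨c, rfl⟩ := end_one hr' A₂
    have d1 := (hb.det_ne hd).1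
    have hv : v ∈ W₁ := hX (by simpa using h.mem 0)
    obtain ⟨χ, h1, h2, h3, h5, h6⟩ := exists_split_avoid h4 hm
      (c := (-1) ^ m * LinearMap.det (A.restrict hW₁) ^ m) (by simp [d1]) (c ^ m)
    obtain ⟨T₁, hT₁, c₁⟩ := pq_mem hr hm
      (IH W₁ hr _ d1 (pq_nsc hW₁ hv (h.ne le_rfl)) (pq_blk hb hq).1) h1 h2 h3
    obtain ⟨T, hT, hb'⟩ := hb.powG hT₁ (pow_mono_set (cS_sub_cG _) m (smul_one_mem_pow c m))
    have := hb'.ca c₁ (ca_one hr' (c ^ m)) (poly_cop h5).symm
    rw [mul_comm] at this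
    exact ⟨T, hT, c ^ m, χ, this, h5, fun ρ hρ => IsCoprime.mul_left (poly_cop (hρ _)) (h6 ρ hρ)⟩

theorem pq_scal [Fintype F] (h4 : 4 ≤ Fintype.card F) (h2 : 2 ≤ finrank F V) {A : End F V}
    (hd : LinearMap.det A ≠ 0) (hA : NSc A) {t s : F} (hq : (A - t • 1) * (A - s • 1) = 0)
    {X W : Submodule F V} {v : V} {μ : F[X]} (h : CD A ⊤ X W v 2 μ) (hW : ∀ w ∈ W, A w = t • w) :
    PP (cG A) (LinearMap.det A) (finrank F V) := by
  have he : A v - t • v ≠ 0 := sub_ne_zero.2 (h.ne le_rfl t)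
  have e := congrArg (fun T : End F V => T v) hq
  simp only [End.mul_apply, LinearMap.sub_apply, LinearMap.smul_apply, End.one_apply,
    LinearMap.zero_apply, map_sub, map_smul] at e
  have hr : ∀ x, ∃ c : F, A x - t • x = c • (A v - t • v) := by
    intro x
    have hx : x ∈ X ⊔ W := by rw [h.sup]; exact mem_top
    obtain ⟨y, hy, w, hw, rfl⟩ := mem_sup.1 hx
    rw [h.eqX, mem_span_range_iff_exists_fun] at hy
    obtain ⟨c, rfl⟩ := hy
    refine ⟨c 0 + c 1 * s, ?_⟩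
    simp only [Fin.sum_univ_two, Fin.val_zero, pow_zero, End.one_apply, Fin.val_one, pow_one, map_add,
      map_smul, hW w hw]
    linear_combination (norm := module) c 1 • e
  obtain ⟨ψ, hψ, -⟩ := r1_form (F := F) (W := ⊥) (v := A v - t • v) (by simpa using he)
  refine pp_rank_one h4 h2 (t := t) (e := A v - t • v) (φ := ψ ∘ₗ (A - t • 1)) ?_ hd hA
  ext x
  obtain ⟨c, hc⟩ := hr x
  simp only [LinearMap.add_apply, LinearMap.smul_apply, End.one_apply, LinearMap.smulRight_apply,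
    LinearMap.comp_apply, LinearMap.sub_apply, hc, map_smul, hψ, smul_eq_mul, mul_one]
  rw [← hc]; abel

theorem pq_aux [Fintype F] (h4 : 4 ≤ Fintype.card F) {a b : F} (n : ℕ) :
    ∀ (Y : Type u) [AddCommGroup Y] [Module F Y] [FiniteDimensional F Y], finrank F Y = n → 2 ≤ n →
      ∀ A : End F Y, LinearMap.det A ≠ 0 → NSc A → (A - a • 1) * (A - b • 1) = 0 →
        PP (cG A) (LinearMap.det A) n := by
  induction n using Nat.strong_induction_on with
  | _ n ih =>
  intro Y _ _ _ hn h2 A hd hA hq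
  obtain ⟨u, hu⟩ := id hA
  obtain ⟨X₁, W, v, μ, h⟩ := pq_cd hq (Y := ⊤) (fun _ _ => mem_top) (mem_top (x := u)) hu
  by_cases hW : NSc (A.restrict h.invW)
  · obtain ⟨w, hw⟩ := hW
    obtain ⟨X₂, Z, v₂, μ₂, h'⟩ := pq_cd hq h.invW w.2
      (fun t ht => hw t (Subtype.ext (by simpa using ht)))
    have e1 := h.add
    have e2 := h'.add
    rw [finrank_top] at e1
    have hZ : Z ≤ W := by rw [← h'.sup]; exact le_sup_right
    have hX₂ : X₂ ≤ W := by rw [← h'.sup]; exact le_sup_left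
    have hQ : finrank F ↥(X₁ ⊔ Z) = 2 + finrank F Z := by
      have := finrank_sup_add_finrank_inf_eq X₁ Z
      rw [(h.dis.mono_right hZ).eq_bot, finrank_bot, h.finrank] at this
      omega
    have hQi : ∀ x ∈ X₁ ⊔ Z, A x ∈ X₁ ⊔ Z := by
      intro x hx
      obtain ⟨y, hy, z, hz, rfl⟩ := mem_sup.1 hx
      rw [map_add]
      exact add_mem (mem_sup_left (h.invX y hy)) (mem_sup_right (h'.invW z hz))
    obtain ⟨W₁, hW₁, hX, hWQ, hr⟩ := exists_between hq h.invX hQi le_sup_left (j := n - n / 2)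
      (by rw [h.finrank]; omega) (by omega)
    obtain ⟨W', hc⟩ := W₁.exists_isCompl
    have hr' : finrank F W' = n / 2 := by have := finrank_add_eq_of_isCompl hc; omega
    obtain ⟨A₂, hb, hA₂⟩ := exists_blk hW₁ hc
    have hm : 2 ≤ n / 2 := by omega
    have n2 : NSc A₂ := by
      refine nsc_of_ne fun t ht => h'.ne le_rfl t ?_
      have hx : v₂ ∈ W₁ ⊔ W' := by rw [hc.sup_eq_top]; exact mem_top
      obtain ⟨y, hy, y', hy', e⟩ := mem_sup.1 hx
      have m1 : A v₂ - t • v₂ ∈ W₁ := by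
        have := hA₂ ⟨y', hy'⟩
        rw [ht] at this
        simp only [LinearMap.smul_apply, End.one_apply, SetLike.val_smul] at this
        have e' : A v₂ - t • v₂ = (A y - t • y) + (A y' - t • y') := by
          rw [← e, map_add]; module
        rw [e']
        exact add_mem (sub_mem (hW₁ y hy) (smul_mem _ t hy)) this
      have hv₂ : v₂ ∈ X₂ := by simpa using h'.mem 0
      have m2 : A v₂ - t • v₂ ∈ X₂ := sub_mem (h'.invX _ hv₂) (smul_mem _ t hv₂)
      obtain ⟨x, hx, z, hz, e'⟩ := mem_sup.1 (hWQ m1)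
      have x0 : x = 0 := (disjoint_def.1 h.dis) x hx (by
        rw [eq_sub_of_add_eq e']; exact sub_mem (hX₂ m2) (hZ hz))
      rw [x0, zero_add] at e'
      exact sub_eq_zero.1 ((disjoint_def.1 h'.dis) _ m2 (e' ▸ hz))
    obtain ⟨d1, d2⟩ := hb.det_ne hd
    obtain ⟨q1, q2⟩ := pq_blk hb hq
    have hv : v ∈ W₁ := hX (by simpa using h.mem 0)
    have IH := fun (Y : Type u) [AddCommGroup Y] [Module F Y] [FiniteDimensional F Y]
      (e : finrank F Y = n / 2) => ih (n / 2) (by omega) Y e hm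
    obtain ⟨ρ, h1, h3, h5, h6⟩ := exists_rootless (F := F) hm
      (c := (-1) ^ (n / 2) * LinearMap.det A₂ ^ (n / 2)) (by simp [d2])
    obtain ⟨T₂, hT₂, c₂⟩ := pq_mem hr' hm (IH W' hr' A₂ d2 n2 q2) h1 h3 h5
    obtain ⟨T₁, hT₁, γ, ψ, c₁, hψ, hcop⟩ := pq_half h4 hm IH (Y := W₁) (by omega) d1
      (pq_nsc hW₁ hv (h.ne le_rfl)) q1
    obtain ⟨T, hT, hb'⟩ := hb.powG hT₁ hT₂
    have c := hb'.ca c₁ c₂ (hcop ρ h6)
    rw [mul_assoc] at c
    have hs := c.ss (by rw [eval_mul]; exact mul_ne_zero hψ (h6 γ))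
    exact PP.mono (cls_cG hd hA) (pp_of_ss h4 (by omega) (cls_cG hd hA) hT hs).1 (by omega)
  · have : ∃ t : F, A.restrict h.invW = t • 1 := by
      by_contra hc
      exact hW (nsc_of_ne fun t ht => hc ⟨t, ht⟩)
    obtain ⟨t, ht⟩ := this
    have ht' : ∀ w ∈ W, A w = t • w := fun w hw => by
      simpa using congrArg (fun T : End F W => (T ⟨w, hw⟩ : Y)) ht
    have hq' : (A - b • 1) * (A - a • 1) = 0 := by
      rw [← hq]
      simp only [mul_sub, sub_mul, smul_mul_assoc, mul_smul_comm, mul_one, one_mul, smul_sub]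
      module
    subst hn
    by_cases h0 : W = ⊥
    · exact pq_scal h4 h2 hd hA hq h (fun w hw => by rw [h0, mem_bot] at hw; simp [hw])
    · obtain ⟨w, hw, w0⟩ := exists_mem_ne_zero_of_ne_bot h0
      have e := congrArg (fun T : End F Y => T w) hq
      simp only [End.mul_apply, LinearMap.sub_apply, LinearMap.smul_apply, End.one_apply,
        LinearMap.zero_apply, map_sub, map_smul, ht' w hw] at e
      have e' : ((t - a) * (t - b)) • w = 0 := by rw [← e]; module
      rcases mul_eq_zero.1 ((smul_eq_zero.1 e').resolve_right w0) with e | e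
      · rw [sub_eq_zero.1 e] at ht'; exact pq_scal h4 h2 hd hA hq h ht'
      · rw [sub_eq_zero.1 e] at ht'; exact pq_scal h4 h2 hd hA hq' h ht'

theorem pq [Fintype F] (h4 : 4 ≤ Fintype.card F) (h2 : 2 ≤ finrank F V) {A : End F V} (hd : LinearMap.det A ≠ 0)
    (hA : NSc A) {a b : F} (hq : (A - a • 1) * (A - b • 1) = 0) : PP (cG A) (LinearMap.det A) (finrank F V) :=
  pq_aux h4 _ V rfl h2 A hd hA hq

end CfsgLib.Lev
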