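import Cfsg.Agent.Lib.Lev.Inv
import Cfsg.Agent.Lib.Lev.PQ
import Cfsg.Agent.Lib.Lev.LX

/-! Every non-central class `C` of `SL(V)`, `dim V = n ≥ 3`, has `C ^ n ⊇` non-scalars, and `C ^ n` contains a scalar (plans/LEV.md). -/

set_option autoImplicit false
set_option linter.unusedSectionVars false

namespace CfsgLib.Lev

open Module Polynomial Submodule
open scoped Pointwise

universe u

variable {F : Type*} [Field F]

theorem top_ne_bot_of_nsc {V : Type*} [AddCommGroup V] [Module F V] {A : End F V} (hA : NSc A) :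
    (⊤ : Submodule F V) ≠ ⊥ := by
  obtain ⟨u, hu⟩ := hA
  intro e
  have : u = 0 := by
    have : u ∈ (⊤ : Submodule F V) := mem_top
    rwa [e, mem_bot] at this
  exact hu 0 (by rw [this]; simp)

theorem pp_main_aux [Fintype F] (h4 : 4 ≤ Fintype.card F) : ∀ (n : ℕ) (V : Type u) [AddCommGroup V] [Module F V]
    [FiniteDimensional F V] (A : End F V), finrank F V = n + 3 → LinearMap.det A ≠ 0 → NSc A →
    PP (cS A) (LinearMap.det A) (n + 3) := by
  intro n
  induction n with
  | zero =>
    intro V _ _ _ A hn hd hA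
    by_cases hL : NL A
    · have := (nl_inv h4 (by omega) hd hL).2
      rwa [hn] at this
    obtain ⟨X, W, v, k, μ, h⟩ := exists_CD A (Y := ⊤) (fun _ _ => mem_top) (top_ne_bot_of_nsc hA)
    obtain ⟨u, hu⟩ := id hA
    have h2 := h.two (mem_top (x := u)) hu
    by_cases h3 : 3 ≤ k
    · have := h.add
      rw [finrank_top] at this
      exact (pp_cyc h4 (by omega) hd (h.cyc_top (by omega))).1
    obtain rfl : k = 2 := by omega
    obtain ⟨s, d, hq⟩ := h.quad
    obtain ⟨γ, w, f, hL⟩ : ∃ γ w f, Ln A γ w f := by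
      by_contra hc
      exact hL fun γ w f h => hc ⟨γ, w, f, h⟩
    have w0 : w ≠ 0 := by
      rintro rfl
      simpa using hL.fv
    have := pq h4 (by omega) hd hA (quad_split hq w0 hL.Tv)
    rwa [hn, hL.full.cG_eq] at this
  | succ n ih =>
    intro V _ _ _ A hn hd hA
    by_cases hL : NL A
    · have := (nl_inv h4 (by omega) hd hL).2
      rwa [hn] at this
    obtain ⟨X, W, v, k, μ, h⟩ := exists_CD A (Y := ⊤) (fun _ _ => mem_top) (top_ne_bot_of_nsc hA)
    obtain ⟨u, hu⟩ := id hA
    have h2 := h.two (mem_top (x := u)) hu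
    obtain ⟨γ, w, f, hL⟩ : ∃ γ w f, Ln A γ w f := by
      by_contra hc
      exact hL fun γ w f h => hc ⟨γ, w, f, h⟩
    by_cases h3 : 3 ≤ k
    · have h1 := hL.finrank
      have d1 : LinearMap.det (A.restrict hL.inv) ≠ 0 := by
        intro e
        exact hd (by rw [hL.det, e, mul_zero])
      exact pp_line (n := n + 3) hn (by omega) hd hL (h.three h3)
        (ih _ _ (by omega) d1 (nsc_line hL (h.three h3)))
    obtain rfl : k = 2 := by omega
    obtain ⟨s, d, hq⟩ := h.quad
    have w0 : w ≠ 0 := by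
      rintro rfl
      simpa using hL.fv
    have := pq h4 (by omega) hd hA (quad_split hq w0 hL.Tv)
    rwa [hn, hL.full.cG_eq] at this

variable {V : Type*} [AddCommGroup V] [Module F V] [FiniteDimensional F V]

theorem pp_main [Fintype F] (h4 : 4 ≤ Fintype.card F) (h3 : 3 ≤ finrank F V) {A : End F V} (hd : LinearMap.det A ≠ 0)
    (hA : NSc A) : PP (cS A) (LinearMap.det A) (finrank F V) := by
  obtain ⟨n, hn⟩ : ∃ n, finrank F V = n + 3 := ⟨finrank F V - 3, by omega⟩
  rw [hn]
  exact pp_main_aux h4 n V A hn hd hA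

theorem scalar_main [Fintype F] (h4 : 4 ≤ Fintype.card F) (h3 : 3 ≤ finrank F V) {A : End F V}
    (hd : LinearMap.det A = 1) (hA : NSc A) : ∃ ζ : F, (ζ • 1 : End F V) ∈ cS A ^ finrank F V := by
  have d0 : LinearMap.det A ≠ 0 := by rw [hd]; exact one_ne_zero
  by_cases hc : Odd (finrank F V) ∨ ∃ c : End F V, LinearMap.det c = -1 ∧ c * A = A * c
  · exact ⟨1, by simpa using sigma h4 h3 hd hA hc⟩
  rw [not_or] at hc
  obtain ⟨ho, hc⟩ := hc
  have he : Even (finrank F V) := Nat.not_odd_iff_even.1 ho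
  have h2 : (2 : F) ≠ 0 := by
    intro e
    refine hc ⟨1, ?_, by simp⟩
    rw [map_one]
    linear_combination e
  have hL : NL A := fun γ v f h => hc (h.full (-1) (by simp))
  obtain ⟨X, W, v, k, μ, h⟩ := exists_CD A (Y := ⊤) (fun _ _ => mem_top) (top_ne_bot_of_nsc hA)
  obtain ⟨u, hu⟩ := id hA
  have k2 := h.two (mem_top (x := u)) hu
  have ek : Even k := Nat.not_odd_iff_even.1 fun hk => hc (neg_one_of_odd h hk)
  obtain ⟨r, hr⟩ := id he
  by_cases k4 : 4 ≤ k
  · have h5 := nl_half h4 d0 hL h k4 ek he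
    rw [hd] at h5
    have := h5.one_mem h4 (by omega)
    rw [show 2 * (finrank F V / 2) = finrank F V by omega] at this
    exact ⟨1, by simpa using this⟩
  obtain rfl : k = 2 := by
    obtain ⟨r, hr⟩ := ek
    omega
  obtain ⟨s, d, hq⟩ := h.quad
  have hs : s ^ 2 - 4 * d = 0 := by
    by_contra hs
    exact hc (neg_one_of_sep h2 h hq hs)
  have e1 : (A - (s / 2) • 1) * (A - (s / 2) • 1) = 0 := by
    have e2 : d = (s / 2) * (s / 2) := by
      field_simp
      linear_combination -hs
    have e3 : s = s / 2 + s / 2 := by field_simp; ring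
    rw [sub_mul, mul_sub, mul_sub, hq, e2]
    simp only [mul_smul_comm, smul_mul_assoc, mul_one, one_mul, smul_smul]
    nth_rewrite 1 [e3]
    rw [add_smul]
    abel
  have s0 : s / 2 ≠ 0 := by
    intro e
    rw [e, zero_smul, sub_zero] at e1
    have h1 : A (A u) = A 0 := by rw [← Module.End.mul_apply, e1]; simp
    exact hu 0 (by rw [inj_of_det d0 h1]; simp)
  exact ⟨_, sc3 h4 h2 (by omega) he s0 e1 hL⟩

end CfsgLib.Lev
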