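import Cfsg.Agent.Lib.Lev.NS0
import Cfsg.Agent.Lib.Lev.Blk

/-! Consequences of the main factorisation (plans/LEV.md). -/

set_option autoImplicit false
set_option linter.unusedSectionVars false

namespace CfsgLib.Lev

open Module Polynomial Submodule
open scoped Pointwise

variable {F : Type*} [Field F] {V : Type*} [AddCommGroup V] [Module F V] [FiniteDimensional F V]
  {U : Type*} [AddCommGroup U] [Module F U] [FiniteDimensional F U]
  {U' : Type*} [AddCommGroup U'] [Module F U'] [FiniteDimensional F U']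

theorem ns [Fintype F] (h4 : 4 ≤ Fintype.card F) (h3 : 3 ≤ finrank F V) {g B₀ T : End F V}
    (hd : LinearMap.det g ≠ 0) (hg : NSc g) (hB : Cyc B₀) (hT : SS T)
    (e : LinearMap.det g = LinearMap.det B₀ * LinearMap.det T) : ∃ B ∈ cS B₀, ∃ C ∈ cS T, g = B * C := by
  obtain ⟨γ, v, f, y, h1, h2⟩ := id hT
  obtain ⟨B, hB, h, h0, y₁, hy, e1⟩ := ns0 h4 h3 hd hg hB h1 e
  have inv : ∀ x ∈ LinearMap.ker f, (γ • 1 - T : End F V) x ∈ LinearMap.ker f := fun x hx => by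
    simp [h1.fT, LinearMap.mem_ker.1 hx]
  obtain ⟨⟨x, hx⟩, e2⟩ := LinearMap.injective_iff_surjective.1
    ((injective_iff_map_eq_zero ((γ • 1 - T : End F V).restrict inv)).2 fun x hx =>
      Subtype.ext (h2 x x.2 (sub_eq_zero.1 (congrArg Subtype.val hx)).symm)) ⟨y₁, hy⟩
  have e3 : γ • x - T x = y₁ := congrArg Subtype.val e2
  rw [LinearMap.mem_ker] at hx
  have hC : T + f.smulRight y₁ ∈ cS T := ⟨1 + f.smulRight x, by rw [det_one_add, hx, add_zero],
    LinearMap.ext fun u => by simp [← e3, hx, h1.fT]; module⟩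
  obtain ⟨h', a1, a2⟩ := exists_inv h0
  refine ⟨B, hB, _, hT.full.cG_eq ▸ cG_trans (cS_sub_cG _ hC) (conj_mem_cG h0 a2 _), ?_⟩
  rw [← mul_assoc, ← mul_assoc, ← e1, mul_assoc, a1, mul_one]

theorem rr_of_cyc [Fintype F] (h4 : 4 ≤ Fintype.card F) (h3 : 3 ≤ finrank F V) {S : Set (End F V)} {d : F} (h : Cls S d)
    {b : ℕ} {T : End F V} (hT : T ∈ S ^ b) (hc : Cyc T) : RR S d (b + 1) := by
  intro T' hT' hd
  obtain ⟨A, hA, hn⟩ := h.ns
  have d1 := det_of_mem_pow h.det hT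
  obtain ⟨T₁, a1, a2⟩ := exists_inv (h := T) (by rw [d1]; exact pow_ne_zero _ h.d0)
  obtain ⟨B, ⟨x, x1, x2⟩, C, hC, e⟩ := ns h4 h3 (by rw [h.det A hA]; exact h.d0) hn (hc.inv a1) hT' (by
    rw [h.det A hA, det_inv_eq a1, d1, hd, pow_succ, inv_mul_cancel_left₀ (pow_ne_zero _ h.d0)])
  obtain ⟨y, y1, y2⟩ := exists_inv (h := x) (by rw [x1]; exact one_ne_zero)
  have e1 : x * T * y * A = C := by
    rw [e, show B = x * T₁ * y by rw [← x2, mul_assoc, y1, mul_one]]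
    calc _ = x * (T * (y * x) * T₁) * y * C := by simp only [mul_assoc]
      _ = C := by rw [y2, mul_one, a1, mul_one, y1, one_mul]
  exact h.pow_inv (e1 ▸ mul_mem_pow_succ (h.pow_inv hT (conj_mem_cS x1 y2 T)) hA) (cS_symm hC)

theorem pp_of [Fintype F] (h4 : 4 ≤ Fintype.card F) (h3 : 3 ≤ finrank F V) {S : Set (End F V)} {d : F} (h : Cls S d)
    {a b : ℕ} {T T' : End F V} (hT : T ∈ S ^ a) (hc : Cyc T) (hT' : T' ∈ S ^ b) (hs : SS T') : PP S d (a + b) := by
  intro g hg hd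
  obtain ⟨B, hB, C, hC, rfl⟩ := ns h4 h3 (by rw [hd]; exact pow_ne_zero _ h.d0) hg hc hs (by
    rw [hd, det_of_mem_pow h.det hT, det_of_mem_pow h.det hT', pow_add])
  exact mul_mem_pow_add (h.pow_inv hT hB) (h.pow_inv hT' hC)

theorem exists_SS [Fintype F] (h4 : 4 ≤ Fintype.card F) (h2 : 2 ≤ finrank F V) {D : F} (hD : D ≠ 0) :
    ∃ T : End F V, SS T ∧ LinearMap.det T = D := by
  obtain ⟨γ, ψ, h1, h3, h5, h6, -⟩ := exists_split_simple h4 h2 (c := (-1) ^ finrank F V * D)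
    (mul_ne_zero (by simp) hD)
  obtain ⟨T, hT⟩ := exists_CA (V := V) h1 h3
  exact ⟨T, hT.ss h6, by rw [hT.det, h5, ← mul_assoc, ← mul_pow]; simp⟩

theorem RR.mono [Fintype F] (h4 : 4 ≤ Fintype.card F) (h3 : 3 ≤ finrank F V) {S : Set (End F V)} {d : F} (h : Cls S d)
    {a b : ℕ} (ha : RR S d a) (hab : a ≤ b) : RR S d b := by
  induction hab with
  | refl => exact ha
  | step _ ih =>
    obtain ⟨T, hT, hd⟩ := exists_SS (V := V) h4 (by omega) (pow_ne_zero _ h.d0)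
    exact rr_of_cyc h4 h3 h (ih T hT hd) hT.cyc

theorem pp_of_ss [Fintype F] (h4 : 4 ≤ Fintype.card F) (h3 : 3 ≤ finrank F V) {S : Set (End F V)} {d : F} (h : Cls S d)
    {b : ℕ} {T : End F V} (hT : T ∈ S ^ b) (hs : SS T) : PP S d (2 * b) ∧ RR S d (b + 1) := by
  exact ⟨two_mul b ▸ pp_of h4 h3 h hT hs.cyc hT hs, rr_of_cyc h4 h3 h hT hs.cyc⟩

theorem pp_cyc [Fintype F] (h4 : 4 ≤ Fintype.card F) (h3 : 3 ≤ finrank F V) {A : End F V} (hd : LinearMap.det A ≠ 0)
    (hc : Cyc A) : PP (cS A) (LinearMap.det A) 3 ∧ RR (cS A) (LinearMap.det A) 2 := by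
  have h := cls_cS hd (hc.nsc (by omega))
  have h1 : A ∈ cS A ^ 1 := by simpa using self_mem_cS A
  have h2 := rr_of_cyc h4 h3 h h1 hc
  obtain ⟨T, hT, e⟩ := exists_SS (V := V) h4 (by omega) (pow_ne_zero 2 hd)
  exact ⟨pp_of h4 h3 h h1 hc (h2 T hT e) hT, h2⟩

theorem RR.one_mem [Fintype F] (h4 : 4 ≤ Fintype.card F) (h2 : 2 ≤ finrank F V) {S : Set (End F V)} {b : ℕ}
    (hb : RR S 1 b) : (1 : End F V) ∈ S ^ (2 * b) := by
  obtain ⟨T, hT, e⟩ := exists_SS (V := V) h4 h2 (one_ne_zero (α := F))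
  obtain ⟨T', a1, -⟩ := exists_inv (h := T) (by rw [e]; exact one_ne_zero)
  rw [two_mul, ← a1]
  exact mul_mem_pow_add (hb T hT (by simp [e])) (hb T' (hT.inv a1) (by simp [det_inv_eq a1, e]))

theorem sigma [Fintype F] (h4 : 4 ≤ Fintype.card F) (h3 : 3 ≤ finrank F V) {A : End F V} (hd : LinearMap.det A = 1)
    (hA : NSc A) (hc : Odd (finrank F V) ∨ ∃ c : End F V, LinearMap.det c = -1 ∧ c * A = A * c) :
    (1 : End F V) ∈ cS A ^ finrank F V := by
  obtain ⟨m, hm⟩ : ∃ m, finrank F V = m + 1 := ⟨finrank F V - 1, by omega⟩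
  obtain ⟨B₀, hB₀⟩ := exists_CA (V := V) (χ := X ^ (m + 1) - C (1 : F)) (monic_X_pow_sub_C _ m.succ_ne_zero)
    (by rw [natDegree_X_pow_sub_C, hm])
  have : Nontrivial V := Module.nontrivial_of_finrank_pos (R := F) (by omega)
  obtain ⟨v, hv⟩ := exists_ne (0 : V)
  obtain ⟨f, hf⟩ := Module.Projective.exists_dual_eq_one F hv
  have hk : finrank F (LinearMap.ker f) = m := by
    have := (show Ln (1 : End F V) 1 v f from ⟨hf, by simp, by simp⟩).finrank
    omega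
  obtain ⟨T₁, hT₁⟩ := exists_CA (V := LinearMap.ker f) (χ := ∑ i ∈ Finset.range (m + 1), X ^ i)
    (monic_geom_sum_X m.succ_ne_zero) (by
      rw [hk, Finset.sum_range_succ, add_comm, natDegree_add_eq_left_of_degree_lt, natDegree_X_pow]
      rw [degree_X_pow]
      simpa [Finset.sum_range] using degree_sum_fin_lt (n := m) fun _ => (1 : F))
  obtain ⟨T, hT, e1⟩ := exists_Ln hf T₁ 1
  obtain ⟨y, hy⟩ := hT₁.cyc
  have r1 : T.restrict hT.inv = T₁ := LinearMap.ext fun x => Subtype.ext (e1 x)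
  have dB : LinearMap.det B₀ = (-1) ^ m := by rw [hB₀.det, hm]; simp [pow_succ]
  have dT : LinearMap.det T = (-1) ^ m := by
    rw [hT.det, r1, hT₁.det, hk]; simp [eval_finset_sum, Finset.sum_range_succ']
  obtain ⟨B, hB, h, h0, y₁, hy₁, e2⟩ := ns0 h4 h3 (by rw [hd]; exact one_ne_zero) hA hB₀.cyc
    (y := y) ⟨hT, y.2, fun x hx => by
      obtain ⟨p, hp⟩ := hy ⟨x, hx⟩
      exact ⟨p, by rw [← cd_aeval hT.inv, r1, hp]⟩⟩ (by rw [hd, dB, dT, ← mul_pow]; simp)
  obtain ⟨h', a1, a2⟩ := exists_inv h0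
  have c0 : (T + f.smulRight y₁) ^ (m + 1) = 1 := by
    have inv : ∀ x ∈ LinearMap.ker f, (T + f.smulRight y₁) x ∈ LinearMap.ker f := fun x hx => by
      simp [hT.fT, hy₁, LinearMap.mem_ker.1 hx]
    have r2 : (T + f.smulRight y₁).restrict inv = T₁ := LinearMap.ext fun x => Subtype.ext (by
      simp [LinearMap.restrict_apply, e1, LinearMap.mem_ker.1 x.2])
    rw [← sub_eq_zero, ← geom_sum_mul]
    refine LinearMap.ext fun x => ?_
    have := cd_aeval inv (∑ i ∈ Finset.range (m + 1), X ^ i) ⟨(T + f.smulRight y₁ - 1 : End F V) x, by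
      simp [hT.fT, hy₁]⟩
    rw [r2, hT₁.ann] at this
    simpa using this.symm
  obtain ⟨C, eC⟩ : ∃ C, C = h * (T + f.smulRight y₁) * h' := ⟨_, rfl⟩
  have eA : A = B * C := by rw [eC, ← mul_assoc, ← mul_assoc, ← e2, mul_assoc, a1, mul_one]
  have pw : ∀ {P Q x : End F V}, LinearMap.det x ≠ 0 → P * x = x * Q → Q ^ (m + 1) = 1 → P ^ (m + 1) = 1 :=
    fun {P Q x} hx e hQ => by
      obtain ⟨y, y1, -⟩ := exists_inv hx
      have := (SemiconjBy.pow_right (show SemiconjBy x Q P from e.symm) (m + 1)).eq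
      rw [hQ, mul_one] at this
      rw [← mul_one (P ^ _), ← y1, ← mul_assoc, ← this]
  have cC : C ^ (m + 1) = 1 := pw h0 (by rw [eC, mul_assoc, a2, mul_one]) c0
  have cB : B ^ (m + 1) = 1 := by
    obtain ⟨x, x1, x2⟩ := hB
    exact pw (by rw [x1]; exact one_ne_zero) x2 (by simpa [sub_eq_zero] using hB₀.ann)
  have dC : LinearMap.det C = (-1) ^ m := by
    have := hd
    rw [eA, map_mul, det_of_cG (cS_sub_cG _ hB), dB] at this
    rw [eq_inv_of_mul_eq_one_right this, ← inv_pow, inv_neg_one]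
  have key : ∀ j, B ^ j * C ^ j ∈ cS A ^ j := fun j => by
    induction j with
    | zero => simp
    | succ j ih =>
      have d1 : LinearMap.det (C ^ j) = (-1) ^ (m * j) := by rw [map_pow, dC, pow_mul]
      obtain ⟨D, b1, b2⟩ := exists_inv (h := C ^ j) (by simp [d1])
      rw [show B ^ (j + 1) * C ^ (j + 1) = B ^ j * C ^ j * (D * A * C ^ j) by
        rw [← mul_assoc, ← mul_assoc, mul_assoc _ _ D, b1, mul_one, eA, pow_succ, pow_succ' C]
        simp only [mul_assoc]]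
      refine mul_mem_pow_succ ih ?_
      have d2 := det_inv_eq b1
      rw [d1, ← inv_pow, inv_neg_one] at d2
      rcases Nat.even_or_odd (m * j) with h5 | h5
      · exact conj_mem_cS (by rw [d2, h5.neg_one_pow]) b1 A
      obtain ⟨c, c1, c2⟩ := hc.resolve_left (by rw [hm, Nat.odd_add_one, not_not]; exact (Nat.odd_mul.1 h5).1)
      refine ⟨D * c, by rw [map_mul, d2, c1, h5.neg_one_pow]; simp, ?_⟩
      rw [mul_assoc D c, c2, mul_assoc, ← mul_assoc (C ^ j), b1, one_mul, mul_assoc]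
  simpa [cB, cC, hm] using key (m + 1)


end CfsgLib.Lev
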