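import Cfsg.Agent.Lib.Lev.Good
import Cfsg.Agent.Lib.Lev.Obs
import Cfsg.Agent.Lib.Lev.Cyc

/-! The main factorisation (plans/LEV.md). -/

set_option autoImplicit false
set_option linter.unusedSectionVars false

namespace CfsgLib.Lev

open Module Polynomial Submodule
open scoped Pointwise

variable {F : Type*} [Field F] {V : Type*} [AddCommGroup V] [Module F V] [FiniteDimensional F V]
  {U : Type*} [AddCommGroup U] [Module F U] [FiniteDimensional F U]
  {U' : Type*} [AddCommGroup U'] [Module F U'] [FiniteDimensional F U']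

theorem ns0 [Fintype F] (h4 : 4 ≤ Fintype.card F) (h3 : 3 ≤ finrank F V) {g B₀ T : End F V} {γ : F} {v y : V}
    {f : Dual F V} (hd : LinearMap.det g ≠ 0) (hg : NSc g) (hB : Cyc B₀) (hT : HS T γ v f y)
    (e : LinearMap.det g = LinearMap.det B₀ * LinearMap.det T) :
    ∃ B ∈ cS B₀, ∃ h : End F V, LinearMap.det h ≠ 0 ∧ ∃ y₁, f y₁ = 0 ∧ g * h = B * h * (T + f.smulRight y₁) := by
  obtain ⟨m, hn⟩ : ∃ m, finrank F V = m + 1 := ⟨finrank F V - 1, by omega⟩
  have hm : 2 ≤ m := by omega
  have dT : LinearMap.det T ≠ 0 := fun h => hd (by rw [e, h, mul_zero])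
  have dB : LinearMap.det B₀ ≠ 0 := fun h => hd (by rw [e, h, zero_mul])
  have γ0 : γ ≠ 0 := by
    rintro rfl
    have h1 : v = 0 := inj_of_det dT (by rw [hT.Tv]; simp)
    have h2 := hT.fv
    rw [h1] at h2
    simp at h2
  obtain ⟨v₀, hv₀⟩ := hB.basis hn
  let b₀ : Basis (Fin (m + 1)) F V := basisOfLinearIndependentOfCardEqFinrank hv₀ (by simp [hn])
  have hb₀ : ∀ i, b₀ i = (B₀ ^ (i : ℕ)) v₀ := fun i => by simp [b₀]
  let bT : Basis (Fin (m + 1)) F V := basisOfLinearIndependentOfCardEqFinrank (hT.basis hn) (by simp [hn])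
  have hbT : ∀ i, bT i = if (i : ℕ) < m then (T ^ (i : ℕ)) y else v := fun i => by simp [bT]
  obtain ⟨w, hw, dw⟩ := good h4 hm hd hg b₀ (δ := γ * (LinearMap.det T)⁻¹) (mul_ne_zero γ0 (inv_ne_zero dT))
  obtain ⟨z, hz, hC⟩ := obs hm hn hd hw
  let x : End F V := bT.constr F fun i => if (i : ℕ) < m then z i else w m
  have x1 : ∀ i < m, x ((T ^ i) y) = z i := by
    intro i hi
    have := bT.constr_basis F (fun i : Fin (m + 1) => if (i : ℕ) < m then z i else w m) ⟨i, by omega⟩
    rwa [hbT, if_pos hi, if_pos hi] at this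
  have x2 : x v = w m := by
    have := bT.constr_basis F (fun i : Fin (m + 1) => if (i : ℕ) < m then z i else w m) ⟨m, by omega⟩
    rwa [hbT, if_neg (lt_irrefl m), if_neg (lt_irrefl m)] at this
  have dx : LinearMap.det x ≠ 0 := by
    refine det_ne_of_inj (LinearMap.injective_iff_surjective.2 (LinearMap.range_eq_top.1 ?_))
    have h1 : span F (w '' Set.Iio m) ≤ LinearMap.range x := by
      rw [← hz, span_le]
      rintro _ ⟨i, hi, rfl⟩
      exact ⟨_, x1 i hi⟩
    rw [eq_top_iff, ← hw.ind.span_eq_top_of_card_eq_finrank (by simp [hn]), span_le]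
    rintro _ ⟨i, rfl⟩
    by_cases hi : (i : ℕ) < m
    · exact h1 (subset_span ⟨i, hi, rfl⟩)
    · exact ⟨v, by rw [x2]; simp only [show (i : ℕ) = m by omega]⟩
  obtain ⟨x', xx', x'x⟩ := exists_inv dx
  have x3 : ∀ u, x' (x u) = u := fun u => by rw [← Module.End.mul_apply, x'x]; rfl
  have fT : ∀ i, f ((T ^ i) y) = 0 := by
    intro i
    induction i with
    | zero => simpa using hT.fy
    | succ i ih => rw [pow_succ', Module.End.mul_apply, hT.fT, ih, mul_zero]
  have c1 := hC (x * T * x') (by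
    intro i hi
    rw [← x1 i (by omega), ← x1 (i + 1) hi, Module.End.mul_apply, Module.End.mul_apply, x3, pow_succ']; rfl)
  let T' : End F V := T * (1 + f.smulRight ((γ⁻¹ - 1) • v))
  have dT' : LinearMap.det T' = LinearMap.det T * γ⁻¹ := by
    simp only [T']
    rw [map_mul, det_one_add, map_smul, hT.fv]; simp
  have c2 : ∀ u ∈ span F (w '' Set.Iio m), (x * T' * x') u = (x * T * x') u := by
    intro u hu
    rw [← hz] at hu
    refine LinearMap.eqOn_span (fun a ha => ?_) hu
    obtain ⟨i, hi, rfl⟩ := ha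
    rw [← x1 i hi]
    simp [T', x3, fT]
  have c3 : (x * T' * x') (w m) = w m := by
    rw [← x2]
    simp only [T', Module.End.mul_apply, x3, LinearMap.add_apply, Module.End.one_apply, LinearMap.smulRight_apply, hT.fv,
      one_smul, map_add, map_smul, hT.Tv, smul_smul, ← add_smul]
    rw [show γ + 1 * (γ⁻¹ - 1) * γ = 1 by field_simp; ring, one_smul]
  let E : End F V := b₀.constr F fun i => w i
  have dE : LinearMap.det E = γ * (LinearMap.det T)⁻¹ := by
    rw [← dw, ← LinearMap.det_toMatrix b₀, Basis.det_apply]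
    congr 1
    ext i j
    simp [E, LinearMap.toMatrix_apply, Basis.toMatrix_apply]
  have E1 : ∀ i ≤ m, E ((B₀ ^ i) v₀) = w i := by
    intro i hi
    have := b₀.constr_basis F (fun i : Fin (m + 1) => w i) ⟨i, by omega⟩
    rwa [hb₀] at this
  have dh : LinearMap.det (x * T' * x' * E) = 1 := by
    rw [map_mul, map_mul, map_mul, det_inv_eq xx', dT', dE]
    field_simp
  obtain ⟨k, hk, kh⟩ := exists_inv (h := x * T' * x' * E) (by rw [dh]; exact one_ne_zero)
  have hBm := conj_mem_cS dh kh B₀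
  set B := x * T' * x' * E * B₀ * k with hBdef
  have b1 : ∀ i < m, B ((x * T' * x') (w i)) = (x * T' * x') (w (i + 1)) := by
    intro i hi
    have h1 : B * (x * T' * x' * E) = x * T' * x' * E * B₀ := by rw [hBdef, mul_assoc _ k, kh, mul_one]
    have h2 := LinearMap.congr_fun h1 ((B₀ ^ i) v₀)
    rw [Module.End.mul_apply, Module.End.mul_apply _ E, E1 i (by omega), Module.End.mul_apply _ B₀,
      Module.End.mul_apply _ E, ← Module.End.mul_apply B₀, ← pow_succ', E1 (i + 1) (by omega)] at h2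
    exact h2
  have b2 : ∀ u ∈ span F (w '' Set.Iio m), (B * (x * T * x')) u = g u := by
    intro u hu
    refine LinearMap.eqOn_span (fun a ha => ?_) hu
    obtain ⟨i, hi, rfl⟩ := ha
    have hi' : i < m := hi
    rw [Module.End.mul_apply, ← c2 _ (subset_span ⟨i, hi, rfl⟩), b1 i hi]
    by_cases h1 : i + 1 < m
    · rw [c2 _ (subset_span ⟨i + 1, h1, rfl⟩), c1 i h1]
    · rw [show i + 1 = m by omega, c3, hw.top, show m - 1 = i by omega]
  have dB' : LinearMap.det B = LinearMap.det B₀ := det_of_cG (cS_sub_cG _ hBm)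
  obtain ⟨B', BB', B'B⟩ := exists_inv (h := B) (by rw [dB']; exact dB)
  clear_value B
  have main : g * x = B * x * (T + f.smulRight (x' (B' (g (w m))) - γ • v)) := by
    refine bT.ext fun i => ?_
    rw [hbT]
    split_ifs with hi
    · have h1 := b2 (z i) (by rw [← hz]; exact subset_span ⟨i, hi, rfl⟩)
      rw [← x1 i hi] at h1
      simp only [Module.End.mul_apply, x3] at h1
      simp [fT, h1]
    · have h1 : ∀ u, x (x' u) = u := fun u => by rw [← Module.End.mul_apply, xx']; rfl
      have h2 : ∀ u, B (B' u) = u := fun u => by rw [← Module.End.mul_apply, BB']; rfl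
      simp [hT.fv, hT.Tv, x2, h1, h2]
  refine ⟨B, hBm, x, dx, _, ?_, main⟩
  set y₁ := x' (B' (g (w m))) - γ • v
  obtain ⟨S, TS, -⟩ := exists_inv dT
  have h1 : T (S y₁) = y₁ := by rw [← Module.End.mul_apply, TS]; rfl
  have h2 : T + f.smulRight y₁ = T * (1 + f.smulRight (S y₁)) := by
    ext u; simp [h1]
  have h3 := congrArg LinearMap.det main
  rw [h2, map_mul, map_mul, map_mul, map_mul, det_one_add, dB', e] at h3
  have h4 : f (S y₁) = 0 := by
    have : LinearMap.det B₀ * LinearMap.det x * LinearMap.det T * f (S y₁) = 0 := by linear_combination -h3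
    simpa [dB, dx, dT] using this
  rw [← h1, hT.fT, h4, mul_zero]


end CfsgLib.Lev
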